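import Cfsg.Agent.BT.Deg2p

/-!
Groups with a self-centralizing Sylow `p`-subgroup of order `p` and inertial index two.
-/

set_option autoImplicit false

open scoped ComplexConjugate

namespace Cfsg.Agent.Cyc.TP

open Cfsg Subgroup Cfsg.Agent.BR Cfsg.Agent.BT
open Cfsg.Agent.CharBase (oneIrr)

universe u v

/-- inertial index two, the nonprincipal nonexceptional character `χ` with sign `-1`. -/
structure F2 {G : Type u} [Group G] [Finite G] (p : ℕ) (P : Subgroup G) where
  st : Ex p P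
  he : ind P = 2
  χ : IrrCharacter G
  hX : ∀ ξ, ξ ∈ st.B.X ↔ ξ = oneIrr G ∨ ξ = χ
  hχ1 : χ ≠ oneIrr G
  hδχ : st.B.δ χ = -1
  hδ : st.B.δ₀ = 1
  faithful : ∀ g : G, (χ : G → ℂ) g = (χ : G → ℂ) 1 → g = 1
  hp5 : 5 ≤ p

section

variable {G : Type u} [Group G] [Fintype G] {p : ℕ} [hp : Fact p.Prime] {P : Subgroup G}
  (d : F2 p P)

include d

theorem F2.hχ : d.χ ∈ d.st.B.X := by rw [d.hX]; simp

theorem F2.hX' [DecidableEq (IrrCharacter G)] : d.st.B.X = {oneIrr G, d.χ} := by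
  ext ξ
  rw [d.hX, Finset.mem_insert, Finset.mem_singleton]

theorem F2.reg {g : G} (hg : ¬ p ∣ orderOf g) {ψ : IrrCharacter G} (hψ : ψ ∈ d.st.B.Y) :
    (d.χ : G → ℂ) g = 1 + (ψ : G → ℂ) g := by
  classical
  have h9 := d.st.B.reg g hg ψ hψ
  rw [d.hX', Finset.sum_pair d.hχ1.symm, d.st.B.δ_one d.st.hP, d.hδχ, d.hδ,
    CharBase.oneIrr_apply] at h9
  push_cast at h9
  linear_combination -h9

theorem F2.deg {ψ : IrrCharacter G} (hψ : ψ ∈ d.st.B.Y) : dg d.χ = 1 + dg ψ := by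
  have h1 := d.reg (g := 1) (by
    rw [orderOf_one]
    intro h
    have := Nat.le_of_dvd (by norm_num) h
    have := d.hp5
    omega) hψ
  rw [dg_eq, dg_eq] at h1
  exact_mod_cast h1

theorem F2.reg_two {u : G} (hu : orderOf u = 2) : ¬ p ∣ orderOf u := by
  rw [hu]
  intro h
  have := Nat.le_of_dvd (by norm_num) h
  have := d.hp5
  omega

theorem F2.card_N : Nat.card (normalizer (P : Set G)) = p * 2 := by
  rw [d.st.card_N, d.he]

theorem F2.card_quot : (P.subgroupOf (normalizer (P : Set G))).index = 2 := by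
  have h := d.he
  unfold ind Subgroup.relIndex at h
  rwa [d.st.hC] at h

/-- the product of two elements of `N ∖ P` is in `P`. -/
theorem F2.mul_mem {y z : G} (hy : y ∈ normalizer (P : Set G)) (hyP : y ∉ P)
    (hz : z ∈ normalizer (P : Set G)) (hzP : z ∉ P) : y * z ∈ P := by
  have h := Subgroup.mul_mem_iff_of_index_two d.card_quot (a := ⟨y, hy⟩) (b := ⟨z, hz⟩)
  rw [Subgroup.mem_subgroupOf, Subgroup.mem_subgroupOf, Subgroup.mem_subgroupOf] at h
  exact h.mpr ⟨fun h => absurd h hyP, fun h => absurd h hzP⟩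

theorem F2.exists_τ : ∃ τ ∈ normalizer (P : Set G), τ ∉ P := by
  by_contra hcon
  push Not at hcon
  have h1 : P.subgroupOf (normalizer (P : Set G)) = ⊤ := by
    rw [Subgroup.subgroupOf_eq_top]
    exact hcon
  have h2 := d.card_quot
  rw [h1, Subgroup.index_top] at h2
  omega

theorem F2.inv_of {τ : G} (hτ : τ ∈ normalizer (P : Set G)) (hτP : τ ∉ P) : τ * τ = 1 := by
  by_contra h
  exact hτP (mem_P_of_comm d.st.hP d.st.hC (d.mul_mem hτ hτP hτ hτP) h (by group))

theorem F2.orderOf_τ {τ : G} (hτ : τ ∈ normalizer (P : Set G)) (hτP : τ ∉ P) :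
    orderOf τ = 2 := by
  apply orderOf_eq_prime
  · rw [pow_two]; exact d.inv_of hτ hτP
  · rintro rfl
    exact hτP P.one_mem

/-- elements of `N ∖ P` invert `P`. -/
theorem F2.invert {τ : G} (hτ : τ ∈ normalizer (P : Set G)) (hτP : τ ∉ P) {x : G} (hx : x ∈ P) :
    τ * x * τ⁻¹ = x⁻¹ := by
  have h1 := d.inv_of hτ hτP
  have h2 : τ⁻¹ = τ := inv_eq_of_mul_eq_one_right h1
  have h3 : τ * x ∉ P := by
    intro h
    apply hτP
    have : τ = (τ * x) * x⁻¹ := by group
    rw [this]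
    exact P.mul_mem h (P.inv_mem hx)
  have h4 := d.inv_of (Subgroup.mul_mem _ hτ (Subgroup.le_normalizer hx)) h3
  rw [h2]
  apply eq_inv_of_mul_eq_one_left
  rw [← h4]; group

/-- elements of `N ∖ P` are conjugate. -/
theorem F2.conj_of {y z : G} (hy : y ∈ normalizer (P : Set G)) (hyP : y ∉ P)
    (hz : z ∈ normalizer (P : Set G)) (hzP : z ∉ P) : IsConj y z := by
  obtain ⟨x, -, hx⟩ := coset_conj d.st.hP d.st.hC hy hyP (z := z) (by
    have h1 : y⁻¹ = y := inv_eq_of_mul_eq_one_right (d.inv_of hy hyP)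
    rw [h1]
    exact d.mul_mem hz hzP hy hyP)
  rw [isConj_iff]
  exact ⟨x, hx.symm⟩

/-- an element inverting a nontrivial element of `P` is in `N ∖ P`. -/
theorem F2.mem_of_invert {g x : G} (hx : x ∈ P) (hx1 : x ≠ 1) (h : g * x * g⁻¹ = x⁻¹) :
    g ∈ normalizer (P : Set G) ∧ g ∉ P := by
  constructor
  · rw [← inv_mem_iff, ← d.st.hP.conj_iff hx hx1, inv_inv, h]
    exact P.inv_mem hx
  · intro hg
    rw [d.st.P_comm g hg x hx, mul_inv_cancel_right] at h
    have h2 : x ^ 2 = 1 := by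
      rw [sq]; nth_rewrite 2 [h]; exact mul_inv_cancel x
    have h3 := orderOf_dvd_of_pow_eq_one h2
    rw [d.st.hP.orderOf_eq hx hx1] at h3
    have := Nat.le_of_dvd (by norm_num) h3
    have := d.hp5
    omega


/-- the structure constants. -/
theorem F2.pairs {g h x : G} [DecidableEq G] (hg : ¬ p ∣ orderOf g) (hh : ¬ p ∣ orderOf h)
    (hx : x ∈ P) (hx1 : x ≠ 1) :
    (((Finset.univ : Finset (G × G)).filter
      (fun q => q.1 * g * q.1⁻¹ * (q.2 * h * q.2⁻¹) = x)).card : ℂ) *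
      ((dg d.χ : ℂ) * ((dg d.χ : ℂ) - 1)) =
    (Nat.card G : ℂ) * ((dg d.χ : ℂ) - (d.χ : G → ℂ) g) * ((dg d.χ : ℂ) - (d.χ : G → ℂ) h) := by
  classical
  have := Fintype.ofFinite (IrrCharacter G)
  obtain ⟨ψ, hψ⟩ := d.st.exists_Y
  have h1 := d.st.card_pairs hg hh hx hx1 hψ
  have h1dg : (dg (oneIrr G) : ℂ) = 1 := by rw [← dg_eq, CharBase.oneIrr_apply]
  rw [d.hX', Finset.sum_pair d.hχ1.symm, d.hδ, d.hδχ, d.st.B.δ_one d.st.hP, CharBase.oneIrr_apply,
    CharBase.oneIrr_apply, h1dg] at h1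
  rw [h1, d.reg hg hψ, d.reg hh hψ]
  have hd := d.deg hψ
  have h4 : (dg ψ : ℂ) ≠ 0 := by exact_mod_cast (dg_pos ψ).ne'
  have h5 : (dg d.χ : ℂ) ≠ 0 := by exact_mod_cast (dg_pos d.χ).ne'
  have h6 : (dg d.χ : ℂ) = 1 + dg ψ := by rw [hd]; push_cast; ring
  rw [h6] at h5 ⊢
  push_cast
  field_simp
  ring

/-- every involution is conjugate to an element of `N ∖ P`. -/
theorem F2.isConj_inv {u : G} (hu : orderOf u = 2) :
    ∃ τ ∈ normalizer (P : Set G), τ ∉ P ∧ IsConj u τ := by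
  classical
  have := Fintype.ofFinite (IrrCharacter G)
  obtain ⟨x, hx, hx1⟩ := exists_ne_one d.st.hP
  have hreg := d.reg_two hu
  have h1 := d.pairs hreg hreg hx hx1
  have h2 : (Finset.univ.filter (fun q : G × G =>
      q.1 * u * q.1⁻¹ * (q.2 * u * q.2⁻¹) = x)).card ≠ 0 := by
    intro h0
    rw [h0, Nat.cast_zero, zero_mul] at h1
    have h3 : (Nat.card G : ℂ) ≠ 0 := by exact_mod_cast Nat.card_pos.ne'
    have h4 : (dg d.χ : ℂ) - (d.χ : G → ℂ) u = 0 := by
      rcases mul_eq_zero.mp h1.symm with h | h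
      · exact (mul_eq_zero.mp h).resolve_left h3
      · exact h
    have h5 : u = 1 := d.faithful u (by rw [dg_eq]; linear_combination -h4)
    rw [h5, orderOf_one] at hu
    norm_num at hu
  obtain ⟨q, hq⟩ := Finset.card_ne_zero.mp h2
  rw [Finset.mem_filter] at hq
  obtain ⟨-, hq⟩ := hq
  set u1 := q.1 * u * q.1⁻¹ with hu1
  set u2 := q.2 * u * q.2⁻¹ with hu2
  have huu : u * u = 1 := by
    have := pow_orderOf_eq_one u
    rwa [hu, pow_two] at this
  have h11 : u1 * u1 = 1 := by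
    rw [hu1]
    calc q.1 * u * q.1⁻¹ * (q.1 * u * q.1⁻¹) = q.1 * (u * u) * q.1⁻¹ := by group
      _ = 1 := by rw [huu]; group
  have h22 : u2 * u2 = 1 := by
    rw [hu2]
    calc q.2 * u * q.2⁻¹ * (q.2 * u * q.2⁻¹) = q.2 * (u * u) * q.2⁻¹ := by group
      _ = 1 := by rw [huu]; group
  have hi1 : u1⁻¹ = u1 := inv_eq_of_mul_eq_one_right h11
  have hi2 : u2⁻¹ = u2 := inv_eq_of_mul_eq_one_right h22
  have hinv : u1 * x * u1⁻¹ = x⁻¹ := by
    rw [← hq]
    calc u1 * (u1 * u2) * u1⁻¹ = (u1 * u1) * (u2 * u1⁻¹) := by group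
      _ = u2⁻¹ * u1⁻¹ := by rw [h11, one_mul, hi2]
      _ = (u1 * u2)⁻¹ := (mul_inv_rev _ _).symm
  obtain ⟨ha, hb⟩ := d.mem_of_invert hx hx1 hinv
  exact ⟨u1, ha, hb, isConj_iff.mpr ⟨q.1, rfl⟩⟩

theorem F2.isConj_of {u v : G} (hu : orderOf u = 2) (hv : orderOf v = 2) : IsConj u v := by
  obtain ⟨a, ha, ha', h1⟩ := d.isConj_inv hu
  obtain ⟨b, hb, hb', h2⟩ := d.isConj_inv hv
  exact h1.trans ((d.conj_of ha ha' hb hb').trans h2.symm)

/-- **the order formula**. -/
theorem F2.order {τ : G} (hτ2 : orderOf τ = 2) :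
    (p : ℂ) * (Nat.card (centralizer ({τ} : Set G)) : ℂ) ^ 2 *
      ((dg d.χ : ℂ) * ((dg d.χ : ℂ) - 1)) =
      (Nat.card G : ℂ) * ((dg d.χ : ℂ) - (d.χ : G → ℂ) τ) ^ 2 := by
  classical
  suffices H : ∀ τ ∈ normalizer (P : Set G), τ ∉ P →
      (p : ℂ) * (Nat.card (centralizer ({τ} : Set G)) : ℂ) ^ 2 *
      ((dg d.χ : ℂ) * ((dg d.χ : ℂ) - 1)) =
      (Nat.card G : ℂ) * ((dg d.χ : ℂ) - (d.χ : G → ℂ) τ) ^ 2 by
    obtain ⟨t, ht, htP, hc⟩ := d.isConj_inv hτ2
    have h1 := H t ht htP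
    rw [← card_centralizer_of_isConj hc] at h1
    have h2 : (d.χ : G → ℂ) t = (d.χ : G → ℂ) τ := by
      obtain ⟨c, hc⟩ := isConj_iff.mp hc
      rw [← hc]
      exact CharBase.irr_isClassFunction d.χ τ c
    rw [h2] at h1
    exact h1
  clear hτ2 τ
  intro τ hτ hτP
  have := Fintype.ofFinite (IrrCharacter G)
  have hτ2 := d.orderOf_τ hτ hτP
  obtain ⟨x, hx, hx1⟩ := exists_ne_one d.st.hP
  have hp5 := d.hp5
  have hreg := d.reg_two hτ2
  have h1 := d.pairs hreg hreg hx hx1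
  set D := Nat.card (centralizer ({τ} : Set G)) with hD
  -- the count
  have h2 : (Finset.univ.filter (fun q : G × G =>
      q.1 * τ * q.1⁻¹ * (q.2 * τ * q.2⁻¹) = x)).card = p * D * D := by
    have e1 : (Finset.univ.filter (fun q : G × G =>
        q.1 * τ * q.1⁻¹ * (q.2 * τ * q.2⁻¹) = x)).card =
        ∑ a : G, (Finset.univ.filter (fun b : G => a * τ * a⁻¹ * (b * τ * b⁻¹) = x)).card := by
      rw [Finset.card_filter, Fintype.sum_prod_type]
      refine Finset.sum_congr rfl fun a _ => ?_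
      rw [Finset.card_filter]
    have e2 : ∀ a : G, (Finset.univ.filter (fun b : G => a * τ * a⁻¹ * (b * τ * b⁻¹) = x)).card =
        if a * τ * a⁻¹ ∈ normalizer (P : Set G) ∧ a * τ * a⁻¹ ∉ P then D else 0 := by
      intro a
      have hττ := d.inv_of hτ hτP
      have haa : a * τ * a⁻¹ * (a * τ * a⁻¹) = 1 := by
        calc a * τ * a⁻¹ * (a * τ * a⁻¹) = a * (τ * τ) * a⁻¹ := by group
          _ = 1 := by rw [hττ]; group
      have hai : (a * τ * a⁻¹)⁻¹ = a * τ * a⁻¹ := inv_eq_of_mul_eq_one_right haa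
      split_ifs with hc
      · -- `b τ b⁻¹ = (a τ a⁻¹) x`
        have hx' : a * τ * a⁻¹ * x ∈ normalizer (P : Set G) :=
          Subgroup.mul_mem _ hc.1 (Subgroup.le_normalizer hx)
        have hx'' : a * τ * a⁻¹ * x ∉ P := by
          intro h
          apply hc.2
          have : a * τ * a⁻¹ = a * τ * a⁻¹ * x * x⁻¹ := by group
          rw [this]
          exact P.mul_mem h (P.inv_mem hx)
        rw [hD, ← card_conj_to (d.conj_of hτ hτP hx' hx'')]
        congr 1
        ext b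
        rw [Finset.mem_filter, Finset.mem_filter]
        constructor
        · rintro ⟨-, h⟩
          refine ⟨Finset.mem_univ _, ?_⟩
          rw [← h, ← mul_assoc, haa, one_mul]
        · rintro ⟨-, h⟩
          refine ⟨Finset.mem_univ _, ?_⟩
          rw [h, ← mul_assoc, haa, one_mul]
      · rw [Finset.card_eq_zero, Finset.filter_eq_empty_iff]
        intro b _ h
        apply hc
        have hbb : b * τ * b⁻¹ * (b * τ * b⁻¹) = 1 := by
          calc b * τ * b⁻¹ * (b * τ * b⁻¹) = b * (τ * τ) * b⁻¹ := by group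
            _ = 1 := by rw [hττ]; group
        have hbi : (b * τ * b⁻¹)⁻¹ = b * τ * b⁻¹ := inv_eq_of_mul_eq_one_right hbb
        refine d.mem_of_invert hx hx1 ?_
        rw [← h]
        calc a * τ * a⁻¹ * (a * τ * a⁻¹ * (b * τ * b⁻¹)) * (a * τ * a⁻¹)⁻¹
            = (a * τ * a⁻¹ * (a * τ * a⁻¹)) * (b * τ * b⁻¹) * (a * τ * a⁻¹)⁻¹ := by group
          _ = (b * τ * b⁻¹)⁻¹ * (a * τ * a⁻¹)⁻¹ := by rw [haa, one_mul, hbi]
          _ = (a * τ * a⁻¹ * (b * τ * b⁻¹))⁻¹ := (mul_inv_rev _ _).symm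
    rw [e1, Finset.sum_congr rfl (fun a _ => e2 a), ← Finset.sum_filter, Finset.sum_const,
      smul_eq_mul]
    congr 1
    -- number of `a`
    have e3 : (Finset.univ.filter (fun a : G => a * τ * a⁻¹ ∈ normalizer (P : Set G) ∧
        a * τ * a⁻¹ ∉ P)).card = ∑ w ∈ Finset.univ.filter (fun w : G =>
          w ∈ normalizer (P : Set G) ∧ w ∉ P),
          (Finset.univ.filter (fun a : G => a * τ * a⁻¹ = w)).card := by
      rw [Finset.card_eq_sum_card_fiberwise (f := fun a : G => a * τ * a⁻¹)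
        (t := Finset.univ.filter (fun w : G => w ∈ normalizer (P : Set G) ∧ w ∉ P))]
      · refine Finset.sum_congr rfl fun w hw => ?_
        congr 1
        ext a
        rw [Finset.mem_filter, Finset.mem_filter, Finset.mem_filter]
        constructor
        · rintro ⟨-, h⟩; exact ⟨Finset.mem_univ _, h⟩
        · rintro ⟨-, h⟩
          refine ⟨⟨Finset.mem_univ _, ?_⟩, h⟩
          rw [h]
          exact (Finset.mem_filter.mp hw).2
      · intro a ha
        rw [Finset.mem_coe, Finset.mem_filter] at ha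
        rw [Finset.mem_coe, Finset.mem_filter]
        exact ⟨Finset.mem_univ _, ha.2⟩
    have e4 : (Finset.univ.filter (fun w : G => w ∈ normalizer (P : Set G) ∧ w ∉ P)).card = p := by
      have e5 : (Finset.univ.filter (fun w : G => w ∈ normalizer (P : Set G))).card = p * 2 := by
        rw [← d.card_N, Nat.card_eq_fintype_card, Fintype.card_subtype]
      have e6 : (Finset.univ.filter (fun w : G => w ∈ P)).card = p := by
        have := d.st.hP.card
        rw [Nat.card_eq_fintype_card, Fintype.card_subtype] at this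
        exact this
      have e7 : (Finset.univ.filter (fun w : G => w ∈ normalizer (P : Set G) ∧ w ∉ P)) =
          (Finset.univ.filter (fun w : G => w ∈ normalizer (P : Set G))) \
          (Finset.univ.filter (fun w : G => w ∈ P)) := by
        ext w
        rw [Finset.mem_sdiff, Finset.mem_filter, Finset.mem_filter, Finset.mem_filter]
        tauto
      rw [e7, Finset.card_sdiff_of_subset, e5, e6]
      · omega
      · intro w hw
        rw [Finset.mem_filter] at hw ⊢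
        exact ⟨Finset.mem_univ _, Subgroup.le_normalizer hw.2⟩
    rw [e3, Finset.sum_congr rfl (g := fun _ => D), Finset.sum_const, e4, smul_eq_mul]
    intro w hw
    rw [Finset.mem_filter] at hw
    exact card_conj_to (d.conj_of hτ hτP hw.2.1 hw.2.2)
  rw [h2] at h1
  push_cast at h1
  linear_combination h1

end

end Cfsg.Agent.Cyc.TP
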