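import Mathlib.GroupTheory.Transfer
import Mathlib.Tactic

/-!
Burnside's normal complement for a subgroup.
-/

set_option autoImplicit false

namespace Cfsg.Agent.Cyc.TP

open Subgroup

theorem exists_complement {G : Type*} [Group G] [Finite G] (X T : Subgroup G) (hTX : T ≤ X) {i : ℕ}
    (hT : Nat.card T = 2 ^ i) (hnd : ¬ 2 * Nat.card T ∣ Nat.card X)
    (hcent : ∀ x ∈ X, (∀ t ∈ T, x * t * x⁻¹ ∈ T) → ∀ t ∈ T, x * t = t * x) :
    ∃ W : Subgroup G, W ≤ X ∧ Odd (Nat.card W) ∧ (∀ x ∈ X, ∀ w ∈ W, x * w * x⁻¹ ∈ W) ∧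
      Nat.card W * Nat.card T = Nat.card X ∧ ∀ v ∈ X, Odd (orderOf v) → v ∈ W := by
  have : Fact (Nat.Prime 2) := ⟨Nat.prime_two⟩
  have hdvd : 2 ^ i ∣ Nat.card X := hT ▸ Subgroup.card_dvd_of_le hTX
  have hcT : Nat.card (T.subgroupOf X) = 2 ^ i := by
    rw [← hT]
    exact Nat.card_congr (Subgroup.subgroupOfEquivOfLe hTX).toEquiv
  have hX0 : Nat.card X ≠ 0 := Nat.card_pos.ne'
  have hfac : (Nat.card X).factorization 2 = i := by
    apply le_antisymm
    · by_contra h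
      apply hnd
      rw [hT, ← pow_succ']
      exact (Nat.prime_two.pow_dvd_iff_le_factorization hX0).mpr (by omega)
    · exact (Nat.prime_two.pow_dvd_iff_le_factorization hX0).mp hdvd
  let Q : Sylow 2 X := Sylow.ofCard (T.subgroupOf X) (by rw [hcT, hfac])
  have hQ : (Q : Subgroup X) = T.subgroupOf X := Sylow.coe_ofCard _ _
  have hcQ : Nat.card (Q : Subgroup X) = 2 ^ i := by rw [hQ, hcT]
  clear_value Q
  have hN : normalizer ((Q : Subgroup X) : Set X) ≤ centralizer ((Q : Subgroup X) : Set X) := by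
    intro x hx
    rw [mem_centralizer_iff]
    intro t ht
    have ht' : (t : G) ∈ T := by
      rw [SetLike.mem_coe, hQ, mem_subgroupOf] at ht
      exact ht
    have hx' : ∀ t : X, t ∈ (Q : Subgroup X) ↔ x * t * x⁻¹ ∈ (Q : Subgroup X) := by
      intro t
      exact Subgroup.mem_normalizer_iff.mp hx t
    have h1 : ∀ t ∈ T, (x : G) * t * (x : G)⁻¹ ∈ T := by
      intro t ht
      have h2 := (hx' ⟨t, hTX ht⟩).mp (by rw [hQ, mem_subgroupOf]; exact ht)
      rw [hQ, mem_subgroupOf] at h2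
      exact h2
    exact Subtype.ext (hcent x x.2 h1 t ht').symm
  obtain ⟨K, hKn, hKc, hKo, hKm⟩ : ∃ K : Subgroup X, K.Normal ∧ Nat.card K * 2 ^ i = Nat.card X ∧
      Odd (Nat.card K) ∧ ∀ v : X, Odd (orderOf v) → v ∈ K := by
    have hc := (MonoidHom.ker_transferSylow_isComplement' Q hN).card_mul
    have hodd := MonoidHom.not_dvd_card_ker_transferSylow Q hN
    refine ⟨_, MonoidHom.normal_ker (MonoidHom.transferSylow Q hN), ?_, ?_, ?_⟩
    · rw [hcQ] at hc
      exact hc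
    · exact Nat.not_even_iff_odd.mp (fun h => hodd h.two_dvd)
    · intro v hvo
      rw [MonoidHom.mem_ker, ← orderOf_eq_one_iff]
      have h1 : orderOf (MonoidHom.transferSylow Q hN v) ∣ orderOf v :=
        orderOf_map_dvd (MonoidHom.transferSylow Q hN) v
      have h2 : orderOf (MonoidHom.transferSylow Q hN v) ∣ 2 ^ i := by
        have := orderOf_dvd_natCard (MonoidHom.transferSylow Q hN v)
        rwa [hcQ] at this
      have h3 : Nat.Coprime (orderOf v) (2 ^ i) := (Nat.coprime_two_right.mpr hvo).pow_right i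
      exact Nat.eq_one_of_dvd_coprimes h3 h1 h2
  have hcard : Nat.card (K.map X.subtype) = Nat.card K :=
    Nat.card_congr (K.equivMapOfInjective X.subtype X.subtype_injective).toEquiv.symm
  refine ⟨K.map X.subtype, ?_, ?_, ?_, ?_, ?_⟩
  · rintro _ ⟨w, -, rfl⟩
    exact w.2
  · rw [hcard]
    exact hKo
  · rintro x hx _ ⟨w, hw, rfl⟩
    exact Subgroup.mem_map.mpr ⟨_, hKn.conj_mem w hw ⟨x, hx⟩, rfl⟩
  · rw [hcard, hT]
    exact hKc
  · intro v hv hvo
    refine Subgroup.mem_map.mpr ⟨⟨v, hv⟩, hKm _ ?_, rfl⟩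
    rwa [orderOf_mk]

end Cfsg.Agent.Cyc.TP
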