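import Mathlib

/-!
The order formula for a four-group acting on a group of odd order.
-/

set_option autoImplicit false

namespace Cfsg.Agent.Cyc.TP

open Subgroup

section abs

variable {W : Type*} [Group W] [Finite W]

theorem bw_pow (hodd : Odd (Nat.card W)) (x : W) :
    (x * x) ^ ((Nat.card W + 1) / 2) = x := by
  obtain ⟨k, hk⟩ := hodd
  have h1 : (Nat.card W + 1) / 2 = k + 1 := by omega
  rw [h1, ← pow_two, ← pow_mul]
  have h2 : 2 * (k + 1) = Nat.card W + 1 := by omega
  rw [h2, pow_succ, pow_card_eq_one', one_mul]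

theorem bw_sq (hodd : Odd (Nat.card W)) (x : W) :
    x ^ ((Nat.card W + 1) / 2) * x ^ ((Nat.card W + 1) / 2) = x := by
  have h := bw_pow hodd x
  rw [(Commute.refl x).mul_pow] at h
  exact h

theorem bw_inj (hodd : Odd (Nat.card W)) {x y : W} (h : x * x = y * y) : x = y := by
  rw [← bw_pow hodd x, h, bw_pow hodd y]

theorem bw_step (hodd : Odd (Nat.card W)) (a : W →* W) (ha : ∀ x, a (a x) = x) (D : Subgroup W)
    (hD : ∀ x ∈ D, a x ∈ D) :
    Nat.card D = Nat.card {x : W // x ∈ D ∧ a x = x} * Nat.card {x : W // x ∈ D ∧ a x = x⁻¹} := by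
  rw [← Nat.card_prod]
  symm
  refine Nat.card_congr (Equiv.ofBijective
    (fun q : {x : W // x ∈ D ∧ a x = x} × {x : W // x ∈ D ∧ a x = x⁻¹} =>
      (⟨(q.1 : W) * q.2, D.mul_mem q.1.2.1 q.2.2.1⟩ : D)) ⟨?_, ?_⟩)
  · rintro ⟨⟨x, hx, hxa⟩, ⟨y, hy, hya⟩⟩ ⟨⟨x', hx', hxa'⟩, ⟨y', hy', hya'⟩⟩ h
    have h1 : x * y = x' * y' := congrArg Subtype.val h
    have h2 : x * y⁻¹ = x' * y'⁻¹ := by
      have := congrArg a h1
      rwa [map_mul, map_mul, hxa, hya, hxa', hya'] at this
    have h3 : y * y = y' * y' := by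
      have e1 : y * y = (x * y⁻¹)⁻¹ * (x * y) := by group
      have e2 : y' * y' = (x' * y'⁻¹)⁻¹ * (x' * y') := by group
      rw [e1, e2, h1, h2]
    have h4 := bw_inj hodd h3
    subst h4
    have h5 : x = x' := mul_right_cancel h1
    subst h5
    rfl
  · rintro ⟨w, hw⟩
    set y := ((a w)⁻¹ * w) ^ ((Nat.card W + 1) / 2) with hy
    have hyy : y * y = (a w)⁻¹ * w := bw_sq hodd _
    have hyD : y ∈ D := D.pow_mem (D.mul_mem (D.inv_mem (hD w hw)) hw) _
    have hya : a y = y⁻¹ := by
      apply bw_inj hodd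
      rw [← map_mul, hyy, map_mul, map_inv, ha]
      have : y⁻¹ * y⁻¹ = (y * y)⁻¹ := by group
      rw [this, hyy]
      group
    refine ⟨(⟨w * y⁻¹, D.mul_mem hw (D.inv_mem hyD), ?_⟩, ⟨y, hyD, hya⟩), ?_⟩
    · rw [map_mul, map_inv, hya, inv_inv]
      have h1 : a w = w * (y * y)⁻¹ := by rw [hyy]; group
      rw [h1]; group
    · apply Subtype.ext
      change w * y⁻¹ * y = w
      group

theorem bw_main (hodd : Odd (Nat.card W)) (a b : W →* W) (ha : ∀ x, a (a x) = x)
    (hb : ∀ x, b (b x) = x) (hab : ∀ x, a (b x) = b (a x)) :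
    Nat.card W * Nat.card {x : W // a x = x ∧ b x = x} ^ 2 =
      Nat.card {x : W // a x = x} * Nat.card {x : W // b x = x} *
        Nat.card {x : W // a (b x) = x} := by
  -- step 1
  have s1 := bw_step hodd a ha ⊤ (fun _ _ => mem_top _)
  have e1 : Nat.card {x : W // x ∈ (⊤ : Subgroup W) ∧ a x = x} = Nat.card {x : W // a x = x} :=
    Nat.card_congr (Equiv.subtypeEquivRight fun x => by simp)
  have e2 : Nat.card {x : W // x ∈ (⊤ : Subgroup W) ∧ a x = x⁻¹} =
      Nat.card {x : W // a x = x⁻¹} :=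
    Nat.card_congr (Equiv.subtypeEquivRight fun x => by simp)
  rw [e1, e2, Subgroup.card_top] at s1
  -- the fixed subgroups
  let Cb : Subgroup W :=
    { carrier := {x | b x = x}
      one_mem' := map_one b
      mul_mem' := by
        intro x y hx hy
        change b (x * y) = x * y
        rw [map_mul, hx, hy]
      inv_mem' := by
        intro x hx
        change b x⁻¹ = x⁻¹
        rw [map_inv, hx] }
  let Cc : Subgroup W :=
    { carrier := {x | a (b x) = x}
      one_mem' := by change a (b 1) = 1; rw [map_one, map_one]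
      mul_mem' := by
        intro x y hx hy
        change a (b (x * y)) = x * y
        rw [map_mul, map_mul, hx, hy]
      inv_mem' := by
        intro x hx
        change a (b x⁻¹) = x⁻¹
        rw [map_inv, map_inv, hx] }
  have mb : ∀ x, x ∈ Cb ↔ b x = x := fun x => Iff.rfl
  have mc : ∀ x, x ∈ Cc ↔ a (b x) = x := fun x => Iff.rfl
  have s2 := bw_step hodd a ha Cb (by
    intro x hx
    rw [mb] at hx ⊢
    rw [← hab, hx])
  have s3 := bw_step hodd a ha Cc (by
    intro x hx
    rw [mc] at hx ⊢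
    rw [← hab, hx])
  have e3 : Nat.card {x : W // x ∈ Cb ∧ a x = x} = Nat.card {x : W // a x = x ∧ b x = x} :=
    Nat.card_congr (Equiv.subtypeEquivRight fun x => by rw [mb]; tauto)
  have e4 : Nat.card {x : W // x ∈ Cc ∧ a x = x} = Nat.card {x : W // a x = x ∧ b x = x} :=
    Nat.card_congr (Equiv.subtypeEquivRight fun x => by
      rw [mc]
      constructor
      · rintro ⟨h1, h2⟩
        refine ⟨h2, ?_⟩
        have := congrArg a h1
        rw [ha, h2] at this
        exact this
      · rintro ⟨h1, h2⟩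
        rw [h2]
        exact ⟨h1, h1⟩)
  have e5 : Nat.card Cb = Nat.card {x : W // b x = x} := rfl
  have e6 : Nat.card Cc = Nat.card {x : W // a (b x) = x} := rfl
  rw [e3, e5] at s2
  rw [e4, e6] at s3
  -- uniqueness of geometric means
  have huniq : ∀ w s s' : W, s * w⁻¹ * s = s' * w⁻¹ * s' → s = s' := by
    intro w s s' h
    set v := w ^ ((Nat.card W + 1) / 2) with hv
    have hvv : v * v = w := bw_sq hodd w
    have h1 : (v⁻¹ * s * v⁻¹) * (v⁻¹ * s * v⁻¹) = (v⁻¹ * s' * v⁻¹) * (v⁻¹ * s' * v⁻¹) := by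
      have f : ∀ q : W, (v⁻¹ * q * v⁻¹) * (v⁻¹ * q * v⁻¹) = v⁻¹ * (q * w⁻¹ * q) * v⁻¹ := by
        intro q
        rw [← hvv]; group
      rw [f, f, h]
    have h2 := bw_inj hodd h1
    have h3 := mul_right_cancel h2
    exact mul_left_cancel h3
  -- step 2
  have s4 : Nat.card {x : W // a x = x⁻¹} =
      Nat.card {x : W // x ∈ Cb ∧ a x = x⁻¹} * Nat.card {x : W // x ∈ Cc ∧ a x = x⁻¹} := by
    rw [← Nat.card_prod]
    symm
    refine Nat.card_congr (Equiv.ofBijective
      (fun q : {x : W // x ∈ Cb ∧ a x = x⁻¹} × {x : W // x ∈ Cc ∧ a x = x⁻¹} =>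
        (⟨(q.1 : W) * q.2 * q.1, by
          rw [map_mul, map_mul, q.1.2.2, q.2.2.2]; group⟩ : {x : W // a x = x⁻¹})) ⟨?_, ?_⟩)
    · have hkey : ∀ x y : W, b x = x → a (b y) = y → a y = y⁻¹ →
          (x * x) * (x * y * x)⁻¹ * (x * x) = b (x * y * x) := by
        intro x y hx hy hy'
        have h1 : b y = y⁻¹ := by
          have := congrArg a hy
          rw [ha, hy'] at this
          exact this
        rw [map_mul, map_mul, hx, h1]
        group
      rintro ⟨⟨x, hx, hxa⟩, ⟨y, hy, hya⟩⟩ ⟨⟨x', hx', hxa'⟩, ⟨y', hy', hya'⟩⟩ h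
      have h1 : x * y * x = x' * y' * x' := congrArg Subtype.val h
      have h2 := hkey x y hx hy hya
      have h3 := hkey x' y' hx' hy' hya'
      rw [← h1] at h3
      have h4 := huniq _ _ _ (h2.trans h3.symm)
      have h5 := bw_inj hodd h4
      subst h5
      have h6 : y = y' := mul_left_cancel (mul_right_cancel h1)
      subst h6
      rfl
    · rintro ⟨w, hw⟩
      set v := w ^ ((Nat.card W + 1) / 2) with hv
      have hvv : v * v = w := bw_sq hodd w
      set q := (v⁻¹ * b w * v⁻¹) ^ ((Nat.card W + 1) / 2) with hq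
      have hqq : q * q = v⁻¹ * b w * v⁻¹ := bw_sq hodd _
      set s := v * q * v with hs
      have hsw : s * w⁻¹ * s = b w := by
        have e0 : w⁻¹ = (v * v)⁻¹ := by rw [hvv]
        rw [hs, e0]
        calc v * q * v * (v * v)⁻¹ * (v * q * v) = v * (q * q) * v := by group
          _ = b w := by rw [hqq]; group
      have hbs : b s = s := by
        apply huniq (b w)
        have h1 : s * (b w)⁻¹ * s = w := by
          rw [← hsw]; group
        rw [h1]
        have h2 := congrArg b hsw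
        rw [hb, map_mul, map_mul, map_inv] at h2
        exact h2
      have has : a s = s⁻¹ := by
        have h1 : (a s)⁻¹ = s := by
          apply huniq w
          rw [hsw]
          have h2 := congrArg a hsw
          rw [map_mul, map_mul, map_inv, hab, hw, inv_inv, map_inv] at h2
          have h3 : (a s)⁻¹ * w⁻¹ * (a s)⁻¹ = (a s * w * a s)⁻¹ := by group
          rw [h3, h2, inv_inv]
        rw [← h1, inv_inv, h1]
      set x := s ^ ((Nat.card W + 1) / 2) with hx
      have hxx : x * x = s := bw_sq hodd s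
      have hbx : b x = x := by rw [hx, map_pow, hbs]
      have hax : a x = x⁻¹ := by rw [hx, map_pow, has, inv_pow]
      refine ⟨(⟨x, hbx, hax⟩, ⟨x⁻¹ * w * x⁻¹, ?_, ?_⟩), ?_⟩
      · rw [mc]
        have h1 : b (x⁻¹ * w * x⁻¹) = x * w⁻¹ * x := by
          rw [map_mul, map_mul, map_inv, hbx, ← hsw, ← hxx]; group
        rw [h1, map_mul, map_mul, map_inv, hax, hw, inv_inv]
      · rw [map_mul, map_mul, map_inv, hax, hw]; group
      · apply Subtype.ext
        change x * (x⁻¹ * w * x⁻¹) * x = w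
        group
  rw [s1, s4, s2, s3]
  ring

end abs

/-- the order formula for a four-group acting on a subgroup of odd order. -/
theorem four_order {G : Type*} [Group G] [Finite G] (W : Subgroup G) (hodd : Odd (Nat.card W))
    {s t : G} (hs : s * s = 1) (ht : t * t = 1) (hst : s * t = t * s)
    (hsW : ∀ w ∈ W, s * w * s⁻¹ ∈ W) (htW : ∀ w ∈ W, t * w * t⁻¹ ∈ W) :
    Nat.card W * Nat.card (W ⊓ centralizer ({s} : Set G) ⊓ centralizer ({t} : Set G) : Subgroup G) ^ 2
      = Nat.card (W ⊓ centralizer ({s} : Set G) : Subgroup G) *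
        Nat.card (W ⊓ centralizer ({t} : Set G) : Subgroup G) *
        Nat.card (W ⊓ centralizer ({s * t} : Set G) : Subgroup G) := by
  let cj : ∀ x : G, (∀ w ∈ W, x * w * x⁻¹ ∈ W) → (W →* W) := fun x hx =>
    { toFun := fun w => ⟨x * w * x⁻¹, hx w w.2⟩
      map_one' := Subtype.ext (by simp)
      map_mul' := fun y w => Subtype.ext (by simp) }
  have hi : s⁻¹ = s := inv_eq_of_mul_eq_one_right hs
  have hit : t⁻¹ = t := inv_eq_of_mul_eq_one_right ht
  have hcj : ∀ (x : G) (hx : ∀ w ∈ W, x * w * x⁻¹ ∈ W) (w : W),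
      ((cj x hx w : W) : G) = x * w * x⁻¹ := fun x hx w => rfl
  have h := bw_main hodd (cj s hsW) (cj t htW) (by
      intro x
      apply Subtype.ext
      rw [hcj, hcj]
      calc s * (s * x * s⁻¹) * s⁻¹ = (s * s) * x * (s * s)⁻¹ := by group
        _ = x := by rw [hs]; group) (by
      intro x
      apply Subtype.ext
      rw [hcj, hcj]
      calc t * (t * x * t⁻¹) * t⁻¹ = (t * t) * x * (t * t)⁻¹ := by group
        _ = x := by rw [ht]; group) (by
      intro x
      apply Subtype.ext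
      rw [hcj, hcj, hcj, hcj]
      calc s * (t * x * t⁻¹) * s⁻¹ = (s * t) * x * (s * t)⁻¹ := by group
        _ = (t * s) * x * (t * s)⁻¹ := by rw [hst]
        _ = t * (s * x * s⁻¹) * t⁻¹ := by group)
  have hcm : ∀ x w : G, w ∈ centralizer ({x} : Set G) ↔ x * w * x⁻¹ = w := by
    intro x w
    rw [Subgroup.mem_centralizer_singleton_iff]
    constructor
    · intro h; rw [← h]; group
    · intro h
      calc w * x = x * w * x⁻¹ * x := by rw [h]
        _ = x * w := by group
  have e1 : ∀ (x : G) (hx : ∀ w ∈ W, x * w * x⁻¹ ∈ W), Nat.card {w : W // cj x hx w = w} =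
      Nat.card (W ⊓ centralizer ({x} : Set G) : Subgroup G) := by
    intro x hx
    refine Nat.card_congr ⟨fun w => ⟨w.1.1, w.1.2, (hcm x _).mpr (congrArg Subtype.val w.2)⟩,
      fun w => ⟨⟨w.1, w.2.1⟩, Subtype.ext ((hcm x _).mp w.2.2)⟩, fun w => rfl, fun w => rfl⟩
  have e2 : Nat.card {w : W // cj s hsW (cj t htW w) = w} =
      Nat.card (W ⊓ centralizer ({s * t} : Set G) : Subgroup G) := by
    refine Nat.card_congr ⟨fun w => ⟨w.1.1, w.1.2, (hcm _ _).mpr ?_⟩,
      fun w => ⟨⟨w.1, w.2.1⟩, Subtype.ext ?_⟩, fun w => rfl, fun w => rfl⟩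
    · have h1 : s * (t * (w.1 : G) * t⁻¹) * s⁻¹ = w.1 := congrArg Subtype.val w.2
      calc s * t * (w.1 : G) * (s * t)⁻¹ = s * (t * (w.1 : G) * t⁻¹) * s⁻¹ := by group
        _ = w.1 := h1
    · have h1 := (hcm _ _).mp w.2.2
      change s * (t * (w : G) * t⁻¹) * s⁻¹ = w
      conv_rhs => rw [← h1]
      group
  have e3 : Nat.card {w : W // cj s hsW w = w ∧ cj t htW w = w} =
      Nat.card (W ⊓ centralizer ({s} : Set G) ⊓ centralizer ({t} : Set G) : Subgroup G) := by
    refine Nat.card_congr ⟨fun w => ⟨w.1.1, ⟨w.1.2, (hcm s _).mpr (congrArg Subtype.val w.2.1)⟩,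
      (hcm t _).mpr (congrArg Subtype.val w.2.2)⟩,
      fun w => ⟨⟨w.1, w.2.1.1⟩, Subtype.ext ((hcm s _).mp w.2.1.2),
        Subtype.ext ((hcm t _).mp w.2.2)⟩, fun w => rfl, fun w => rfl⟩
  rw [e1, e1, e2, e3] at h
  exact h

end Cfsg.Agent.Cyc.TP
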