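import Cfsg.Agent.Cyc.TP9
import Cfsg.Agent.Cyc.TPW
import Cfsg.Agent.Cyc.TPC

/-!
Simple transitive groups of degree `3p`, rank three: `p = 5` and `|G| = 360 d⁴`.
-/

set_option autoImplicit false

open scoped ComplexConjugate Pointwise

namespace Cfsg.Agent.Cyc.TP

open Cfsg Subgroup Cfsg.Agent.BR Cfsg.Agent.BT MulAction Cfsg.Agent.H74

universe u v

/-- arithmetic at the end of the rank three case. -/
theorem arith_end {p a d k w v g : ℕ} (hp : p.Prime) (hp5 : 5 ≤ p) (hv0 : 0 < v) (hv : a * d = v)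
    (h4 : 4 * a = d * (p - 1)) (hp4 : 4 ∣ p - 1)
    (hw : w * d ^ 2 = v * v * v) (hg : g = 3 * p * (k * (w * 4)))
    (ho : p * (v * 8) ^ 2 * (2 * p - 1) = g * (2 * (p - 1))) :
    p = 5 ∧ g = 360 * d ^ 4 := by
  obtain ⟨b, hb⟩ := hp4
  have hd0 : 0 < d := Nat.pos_of_ne_zero (by rintro rfl; simp at hv; omega)
  have hp' : p = 4 * b + 1 := by omega
  have hb0 : 0 < b := by omega
  have ha : a = d * b := by
    rw [hb] at h4
    have : 4 * a = 4 * (d * b) := by rw [h4]; ring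
    omega
  subst ha
  have hvv : v = d * b * d := hv.symm
  have hw' : w = d ^ 4 * b ^ 3 := by
    have h1 : w * d ^ 2 = (d ^ 4 * b ^ 3) * d ^ 2 := by rw [hw, hvv]; ring
    exact Nat.eq_of_mul_eq_mul_right (by positivity) h1
  have h2p : 2 * p - 1 = 8 * b + 1 := by omega
  rw [h2p, hb, hg, hw', hvv] at ho
  have hp0 : 0 < p := by omega
  have h3 : (p * d ^ 4 * b ^ 2 * 32) * (2 * (8 * b + 1)) =
      (p * d ^ 4 * b ^ 2 * 32) * (3 * k * b ^ 2) := by
    have e1 : (p * d ^ 4 * b ^ 2 * 32) * (2 * (8 * b + 1)) =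
      p * (d * b * d * 8) ^ 2 * (8 * b + 1) := by ring
    rw [e1, ho]; ring
  have h5 := Nat.eq_of_mul_eq_mul_left (by positivity) h3
  have hdvd : b ∣ 2 := by
    have h6 : b ∣ 2 * (8 * b) + 2 := by
      have : b ∣ 2 * (8 * b + 1) := by rw [h5]; exact ⟨3 * k * b, by ring⟩
      have e : 2 * (8 * b + 1) = 2 * (8 * b) + 2 := by ring
      rwa [e] at this
    exact (Nat.dvd_add_right (⟨16, by ring⟩ : b ∣ 2 * (8 * b))).mp h6
  have hb2 : b = 1 ∨ b = 2 := (Nat.dvd_prime Nat.prime_two).mp hdvd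
  rcases hb2 with rfl | rfl
  · have hk : k = 6 := by omega
    subst hk
    have hp5' : p = 5 := by omega
    refine ⟨hp5', ?_⟩
    rw [hg, hw', hp5']; ring
  · exfalso
    have : p = 9 := by omega
    subst this
    norm_num at hp

section

variable {G : Type u} [Group G] [Fintype G] {Ω : Type v} [Fintype Ω] [MulAction G Ω]
  {p : ℕ} [hp : Fact p.Prime] {P : Subgroup G} {S : Sylow 2 G}

theorem K2.final [IsPretransitive G Ω] (K : K2 Ω p P S) (hperf : _root_.commutator G = ⊤)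
    (hT : Nat.card K.L.T = 4) : p = 5 ∧ ∃ d, Odd d ∧ Nat.card G = 360 * d ^ 4 := by
  classical
  obtain ⟨σ, V, a, d, hσS, hσz, hutT, hut1, hutz, hrel, hvp, hVfix, hd, had, h4, hC⟩ :=
    K.block hperf hT
  obtain ⟨n, nα, nβ, nγ, nT⟩ := K.exists_n
  have hfour := K.four_dvd hperf
  have hχz : (K.d.χ : G → ℂ) K.L.z = 1 := K.χ_even (by rw [K.L.z2])
  have hord := K.d.order K.L.z2
  have hp5 := K.d.hp5
  have hdχ := K.hd
  have hΩ := K.hΩ
  rw [hχz, hC] at hord
  generalize K.L = L at *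
  generalize L.u * σ = t at *
  have hz1 : L.z ≠ 1 := L.z_ne
  have hzz := L.zz
  have huz : L.u * L.z = L.z * L.u := L.zc L.u L.uS
  -- "special points"
  have cα : ∀ c : G, c * L.z = L.z * c → c • L.α = L.α := by
    intro c hc
    obtain ⟨v, hv, x, hx, rfl⟩ := hvp.exists_mul c (mem_centralizer_singleton_iff.mpr hc)
    rw [mul_smul, L.Sα x hx, (hVfix v hv).1]
  obtain ⟨sp, hsp⟩ : ∃ sp : G → Ω → Prop, ∀ t a, sp t a ↔ ∀ c, c * t = t * c → c • a = a :=
    ⟨fun t a => ∀ c, c * t = t * c → c • a = a, fun t a => Iff.rfl⟩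
  have sp_conj : ∀ t a y, sp t a → sp (y * t * y⁻¹) (y • a) := by
    intro t a y h
    rw [hsp] at h ⊢
    intro c hc
    have h1 : (y⁻¹ * c * y) * t = t * (y⁻¹ * c * y) := by
      calc (y⁻¹ * c * y) * t = y⁻¹ * (c * (y * t * y⁻¹)) * y := by group
        _ = y⁻¹ * ((y * t * y⁻¹) * c) * y := by rw [hc]
        _ = t * (y⁻¹ * c * y) := by group
    have h2 := h _ h1
    calc c • y • a = y • (y⁻¹ * c * y) • a := by rw [smul_smul, smul_smul]; congr 1; group
      _ = y • a := by rw [h2]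
  have sp_iff : ∀ t a y, sp (y * t * y⁻¹) (y • a) ↔ sp t a := by
    intro t a y
    refine ⟨fun h => ?_, sp_conj t a y⟩
    have h1 := sp_conj _ _ y⁻¹ h
    have e1 : y⁻¹ * (y * t * y⁻¹) * y⁻¹⁻¹ = t := by group
    rwa [e1, inv_smul_smul] at h1
  have spz : sp L.z L.α := (hsp _ _).mpr cα
  have nspzβ : ¬ sp L.z L.β := fun h => L.βγ (((hsp _ _).mp h L.u huz).symm.trans L.uβ)
  have nspzγ : ¬ sp L.z L.γ := fun h => L.βγ ((L.uγ).symm.trans ((hsp _ _).mp h L.u huz))
  obtain ⟨t1, ht1⟩ : ∃ t1, t1 = n * L.z * n⁻¹ := ⟨_, rfl⟩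
  have t1T : t1 ∈ L.T := by rw [ht1]; exact (nT L.z).mp L.zT
  have sp1β : sp t1 L.β := by
    have := (sp_iff L.z L.α n).mpr spz
    rwa [nα, ← ht1] at this
  have nsp1α : ¬ sp t1 L.α := by
    have := mt (sp_iff L.z L.β n).mp nspzβ
    rwa [nβ, ← ht1] at this
  have nsp1γ : ¬ sp t1 L.γ := by
    have := mt (sp_iff L.z L.γ n).mp nspzγ
    rwa [nγ, ← ht1] at this
  have uα : L.u • L.α = L.α := L.Sα L.u L.uS
  have uiβ : L.u⁻¹ • L.β = L.γ := by rw [inv_smul_eq_iff]; exact L.uγ.symm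
  obtain ⟨t2, ht2⟩ : ∃ t2, t2 = L.u * t1 * L.u⁻¹ := ⟨_, rfl⟩
  have t2T : t2 ∈ L.T := by
    rw [ht2, L.mem_T]
    refine ⟨mul_mem (mul_mem L.uS t1T.1) (inv_mem L.uS), ?_⟩
    rw [mul_smul, mul_smul, uiβ, L.T_γ t1T, L.uγ]
  have sp2γ : sp t2 L.γ := by
    have := (sp_iff t1 L.β L.u).mpr sp1β
    rwa [L.uβ, ← ht2] at this
  have nsp2α : ¬ sp t2 L.α := by
    have := mt (sp_iff t1 L.α L.u).mp nsp1α
    rwa [uα, ← ht2] at this
  have nsp2β : ¬ sp t2 L.β := by
    have := mt (sp_iff t1 L.γ L.u).mp nsp1γ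
    rwa [L.uγ, ← ht2] at this
  have ne1z : L.z ≠ t1 := fun h => nspzβ (h ▸ sp1β)
  have ne2z : L.z ≠ t2 := fun h => nspzγ (h ▸ sp2γ)
  have ne12 : t1 ≠ t2 := fun h => nsp2β (h ▸ sp1β)
  have conj_ne : ∀ x y : G, x ≠ 1 → y * x * y⁻¹ ≠ 1 := by
    intro x y hx h
    apply hx
    rw [mul_inv_eq_one] at h
    exact mul_left_cancel (h.trans (mul_one y).symm)
  have t1n : t1 ≠ 1 := by rw [ht1]; exact conj_ne _ _ hz1
  have t2n : t2 ≠ 1 := by rw [ht2]; exact conj_ne _ _ t1n
  have hTset : ∀ x ∈ L.T, x = 1 ∨ x = L.z ∨ x = t1 ∨ x = t2 := by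
    have h1 : ({1, L.z, t1, t2} : Set G) ⊆ (L.T : Set G) := by
      rintro x (rfl | rfl | rfl | rfl)
      · exact L.T.one_mem
      · exact L.zT
      · exact t1T
      · exact t2T
    have h2 : ({1, L.z, t1, t2} : Set G).ncard = 4 := by
      rw [Set.ncard_insert_of_notMem, Set.ncard_insert_of_notMem, Set.ncard_pair ne12]
      · rintro (h | h)
        · exact ne1z h
        · exact ne2z h
      · rintro (h | h | h)
        · exact hz1 h.symm
        · exact t1n h.symm
        · exact t2n h.symm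
    have h3 : (L.T : Set G).ncard = 4 := by
      rw [← Nat.card_coe_set_eq]; exact hT
    have h4 := Set.eq_of_subset_of_ncard_le h1 (by rw [h2, h3]) (Set.toFinite _)
    intro x hx
    have h5 : x ∈ ({1, L.z, t1, t2} : Set G) := by rw [h4]; exact hx
    simpa using h5
  -- the two-point stabilizer
  let X : Subgroup G := stabilizer G L.α ⊓ stabilizer G L.β
  have hTX : L.T ≤ X := fun s hs => ⟨L.T_α hs, L.T_β hs⟩
  have hcent : ∀ x ∈ X, (∀ t ∈ L.T, x * t * x⁻¹ ∈ L.T) → ∀ t ∈ L.T, x * t = t * x := by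
    intro x hx hxT
    have hxα : x • L.α = L.α := hx.1
    have hxβ : x • L.β = L.β := hx.2
    have hc : ∀ y, x * y * x⁻¹ = y → x * y = y * x := fun y h => mul_inv_eq_iff_eq_mul.mp h
    have ez : x * L.z * x⁻¹ = L.z := by
      have h1 := (sp_iff L.z L.α x).mpr spz
      rw [hxα] at h1
      rcases hTset _ (hxT _ L.zT) with h | h | h | h
      · exact absurd h (conj_ne _ _ hz1)
      · exact h
      · rw [h] at h1; exact absurd h1 nsp1α
      · rw [h] at h1; exact absurd h1 nsp2α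
    have e1 : x * t1 * x⁻¹ = t1 := by
      have h1 := (sp_iff t1 L.β x).mpr sp1β
      rw [hxβ] at h1
      rcases hTset _ (hxT _ t1T) with h | h | h | h
      · exact absurd h (conj_ne _ _ t1n)
      · rw [h] at h1; exact absurd h1 nspzβ
      · exact h
      · rw [h] at h1; exact absurd h1 nsp2β
    have e2 : x * t2 * x⁻¹ = t2 := by
      rcases hTset _ (hxT _ t2T) with h | h | h | h
      · exact absurd h (conj_ne _ _ t2n)
      · exfalso
        apply ne2z
        have := h.trans ez.symm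
        exact (mul_left_cancel (mul_right_cancel this)).symm
      · exfalso
        apply ne12
        have := h.trans e1.symm
        exact (mul_left_cancel (mul_right_cancel this)).symm
      · exact h
    intro y hy
    rcases hTset y hy with h | h | h | h
    · rw [h, mul_one, one_mul]
    · rw [h]; exact hc _ ez
    · rw [h]; exact hc _ e1
    · rw [h]; exact hc _ e2
  have hnd : ¬ 2 * Nat.card L.T ∣ Nat.card X := by
    rw [← L.card_S]
    exact L.not_dvd L.αβ
  obtain ⟨W, hWX, hWodd, hWn, hWc, hWm⟩ :=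
    exists_complement X L.T hTX (i := 2) (by rw [hT]; norm_num) hnd hcent
  -- centralizers in `W`
  have hWV : W ⊓ centralizer ({L.z} : Set G) = V := by
    apply le_antisymm
    · rintro w ⟨hw, hwz⟩
      rw [hvp.mem_iff]
      refine ⟨(mem_centralizer_singleton_iff.mp hwz).symm, ?_⟩
      have h1 : orderOf w ∣ Nat.card W := by
        have := orderOf_dvd_natCard (⟨w, hw⟩ : W)
        rwa [Subgroup.orderOf_mk] at this
      exact Odd.of_dvd_nat hWodd h1
    · intro v hv
      refine ⟨hWm v ⟨(hVfix v hv).1, (hVfix v hv).2.1⟩ ((hvp.mem_iff v).mp hv).2, hvp.V_le hv⟩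
  have hgen : ∀ y : G, (∀ a, (a = L.α ∨ a = L.β) → (y⁻¹ • a = L.α ∨ y⁻¹ • a = L.β ∨
      y⁻¹ • a = L.γ)) → Nat.card (W ⊓ centralizer ({y * L.z * y⁻¹} : Set G) : Subgroup G) =
      Nat.card V := by
    intro y hy
    symm
    refine Nat.card_congr
      { toFun := fun v => ⟨y * v.1 * y⁻¹, ?_, ?_⟩
        invFun := fun w => ⟨y⁻¹ * w.1 * y, ?_⟩
        left_inv := fun v => Subtype.ext (by group)
        right_inv := fun v => Subtype.ext (by group) }
    · have h1 : ∀ a, (a = L.α ∨ a = L.β) → (y * v.1 * y⁻¹) • a = a := by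
        intro a ha
        have h2 : v.1 • y⁻¹ • a = y⁻¹ • a := by
          rcases hy a ha with h | h | h
          · rw [h]; exact (hVfix v.1 v.2).1
          · rw [h]; exact (hVfix v.1 v.2).2.1
          · rw [h]; exact (hVfix v.1 v.2).2.2
        rw [mul_smul, mul_smul, h2, smul_inv_smul]
      refine hWm _ ⟨h1 _ (Or.inl rfl), h1 _ (Or.inr rfl)⟩ ?_
      have h3 : orderOf (y * v.1 * y⁻¹) = orderOf v.1 := by
        have := orderOf_injective (MulAut.conj y).toMonoidHom (MulAut.conj y).injective v.1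
        simpa using this
      rw [h3]
      exact ((hvp.mem_iff v.1).mp v.2).2
    · show y * v.1 * y⁻¹ ∈ centralizer ({y * L.z * y⁻¹} : Set G)
      rw [mem_centralizer_singleton_iff]
      have h1 : v.1 * L.z = L.z * v.1 := ((hvp.mem_iff v.1).mp v.2).1.symm.eq
      calc y * v.1 * y⁻¹ * (y * L.z * y⁻¹) = y * (v.1 * L.z) * y⁻¹ := by group
        _ = y * (L.z * v.1) * y⁻¹ := by rw [h1]
        _ = y * L.z * y⁻¹ * (y * v.1 * y⁻¹) := by group
    · rw [hvp.mem_iff]
      constructor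
      · have h1 := mem_centralizer_singleton_iff.mp w.2.2
        show L.z * (y⁻¹ * w.1 * y) = (y⁻¹ * w.1 * y) * L.z
        calc L.z * (y⁻¹ * w.1 * y) = y⁻¹ * ((y * L.z * y⁻¹) * w.1) * y := by group
          _ = y⁻¹ * (w.1 * (y * L.z * y⁻¹)) * y := by rw [h1]
          _ = (y⁻¹ * w.1 * y) * L.z := by group
      · have h3 : orderOf (y⁻¹ * w.1 * y) = orderOf w.1 := by
          have := orderOf_injective (MulAut.conj y⁻¹).toMonoidHom (MulAut.conj y⁻¹).injective w.1
          simpa using this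
        rw [h3]
        have h1 : orderOf w.1 ∣ Nat.card W := by
          have := orderOf_dvd_natCard (⟨w.1, w.2.1⟩ : W)
          rwa [Subgroup.orderOf_mk] at this
        exact Odd.of_dvd_nat hWodd h1
  have niα : n⁻¹ • L.α = L.β := by rw [inv_smul_eq_iff]; exact nβ.symm
  have niβ : n⁻¹ • L.β = L.α := by rw [inv_smul_eq_iff]; exact nα.symm
  have niγ : n⁻¹ • L.γ = L.γ := by rw [inv_smul_eq_iff]; exact nγ.symm
  have uiα : L.u⁻¹ • L.α = L.α := by rw [inv_smul_eq_iff]; exact uα.symm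
  have hall : ∀ y ∈ L.T, y ≠ 1 → Nat.card (W ⊓ centralizer ({y} : Set G) : Subgroup G) =
      Nat.card V := by
    intro y hy hy1
    rcases hTset y hy with h | h | h | h
    · exact absurd h hy1
    · rw [h, hWV]
    · rw [h, ht1]
      apply hgen
      rintro a (rfl | rfl)
      · exact Or.inr (Or.inl niα)
      · exact Or.inl niβ
    · have e : t2 = (L.u * n) * L.z * (L.u * n)⁻¹ := by rw [ht2, ht1]; group
      rw [h, e]
      apply hgen
      rintro a (rfl | rfl)
      · rw [mul_inv_rev, mul_smul, uiα, niα]; exact Or.inr (Or.inl rfl)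
      · rw [mul_inv_rev, mul_smul, uiβ, niγ]; exact Or.inr (Or.inr rfl)
  -- the order of `W`
  have hzt : L.z * t = t * L.z := (L.zc t hutT.1).symm
  have hzt1 : L.z * t ≠ 1 := by
    intro h
    apply hutz
    have h1 : L.z * t = L.z * L.z := by rw [h, hzz]
    exact mul_left_cancel h1
  have hfo := four_order W hWodd hzz hrel hzt (fun w hw => hWn _ (hTX L.zT) w hw)
    (fun w hw => hWn _ (hTX hutT) w hw)
  rw [hWV, hd, hall t hutT hut1, hall (L.z * t) (mul_mem L.zT hutT) hzt1] at hfo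
  -- the order of `G`
  have hcX : Nat.card (stabilizer (stabilizer G L.α) L.β) = Nat.card X := by
    refine Nat.card_congr
      { toFun := fun g => ⟨g.1.1, g.1.2, g.2⟩
        invFun := fun g => ⟨⟨g.1, g.2.1⟩, g.2.2⟩
        left_inv := fun g => rfl
        right_inv := fun g => rfl }
  have h3 : Nat.card (orbit (stabilizer G L.α) L.β) *
      Nat.card (stabilizer (stabilizer G L.α) L.β) = Nat.card (stabilizer G L.α) := by
    rw [← Nat.card_prod]
    exact Nat.card_congr (MulAction.orbitProdStabilizerEquivGroup (stabilizer G L.α) L.β)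
  have h5 : Nat.card Ω * Nat.card (stabilizer G L.α) = Nat.card G := by
    rw [← Nat.card_prod]
    have e1 := MulAction.orbitProdStabilizerEquivGroup G L.α
    rw [← Nat.card_congr e1, Nat.card_prod, Nat.card_prod, MulAction.orbit_eq_univ,
      Nat.card_congr (Equiv.Set.univ Ω)]
  have hGc : Nat.card G = 3 * p * (Nat.card (orbit (stabilizer G L.α) L.β) *
      (Nat.card W * 4)) := by
    rw [← h5, ← h3, hcX, ← hWc, hT, Nat.card_eq_fintype_card, hΩ]
  have hV0 : 0 < Nat.card V := Nat.card_pos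
  have hX' : (dg K.d.χ : ℂ) = 2 * (p : ℂ) - 1 := by
    have h1 : ((dg K.d.χ + 1 : ℕ) : ℂ) = ((2 * p : ℕ) : ℂ) := by rw [hdχ]
    push_cast at h1
    linear_combination h1
  have hon : p * (Nat.card V * 8) ^ 2 * (2 * p - 1) = Nat.card G * (2 * (p - 1)) := by
    obtain ⟨m, hm⟩ : ∃ m, p = m + 1 := ⟨p - 1, by omega⟩
    have e1 : 2 * p - 1 = 2 * m + 1 := by omega
    have e2 : p - 1 = m := by omega
    have hpc : (p : ℂ) = m + 1 := by rw [hm]; push_cast; ring
    rw [hX'] at hord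
    rw [e1, e2]
    have h0 : (2 * (m : ℂ)) ≠ 0 := by
      have : (m : ℂ) ≠ 0 := by exact_mod_cast (by omega : m ≠ 0)
      exact mul_ne_zero two_ne_zero this
    have h1 : ((p * (Nat.card V * 8) ^ 2 * (2 * m + 1) : ℕ) : ℂ) =
        ((Nat.card G * (2 * m) : ℕ) : ℂ) := by
      apply mul_left_cancel₀ h0
      push_cast at hord ⊢
      rw [hpc] at hord ⊢
      linear_combination hord
    exact_mod_cast h1
  obtain ⟨r1, r2⟩ := arith_end hp.out hp5 hV0 had h4 hfour.2 hfo hGc hon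
  refine ⟨r1, d, ?_, r2⟩
  exact Odd.of_dvd_nat hvp.V_odd ⟨a, by rw [← had]; ring⟩

end

end Cfsg.Agent.Cyc.TP
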