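import Cfsg.Agent.BT.E2b
import Cfsg.Agent.S1226

/-!
Simple transitive groups of degree `3p`: the case of `SL(2, 2^m)`.
-/

set_option autoImplicit false

namespace Cfsg.Agent.Cyc.TP

open Cfsg Subgroup Cfsg.Agent.BR Cfsg.Agent.BT

universe u

theorem e2_se {G : Type u} [Group G] [Fintype G] [IsSimpleGroup G] {p : ℕ} [hp : Fact p.Prime]
    (hp3 : 3 < p) {P : Subgroup G} (d : E2 p P) : ∃ M : Subgroup G, IsStronglyEmbedded M := by
  have : Fact (Nat.Prime 2) := ⟨Nat.prime_two⟩
  obtain ⟨m, F, hF, hF', τ, hm, hpm, hFc, hiso, hτ2, hC, hsq, hG⟩ := d.ident_full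
  let T : Sylow 2 G := default
  have h4G : 2 ^ 2 ∣ Nat.card G := by
    rw [hG]
    exact Dvd.dvd.mul_right (Dvd.dvd.mul_left (pow_dvd_pow 2 hm) _) _
  have h4T : 2 ^ 2 ∣ Nat.card (T : Subgroup G) := T.pow_dvd_card_of_pow_dvd_card h4G
  have key : ∀ t : G, orderOf t = 2 → ∀ c ∈ centralizer ({t} : Set G), c * c = 1 := by
    intro t ht c hc
    obtain ⟨g, hg⟩ := isConj_iff.mp (d.isConj_of hτ2 ht)
    have h1 : g⁻¹ * c * g ∈ centralizer ({τ} : Set G) := by
      rw [mem_centralizer_singleton_iff] at hc ⊢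
      calc g⁻¹ * c * g * τ = g⁻¹ * (c * (g * τ * g⁻¹)) * g := by group
        _ = g⁻¹ * ((g * τ * g⁻¹) * c) * g := by rw [hg, hc]
        _ = τ * (g⁻¹ * c * g) := by group
    have h2 := hsq _ h1
    calc c * c = g * (g⁻¹ * c * g * (g⁻¹ * c * g)) * g⁻¹ := by group
      _ = 1 := by rw [h2]; group
  have key2 : ∀ t : G, orderOf t = 2 → IsMulCommutative (centralizer ({t} : Set G)) ∧
      ∀ c ∈ centralizer ({t} : Set G), c ^ 2 = 1 := by
    intro t ht
    refine ⟨⟨⟨fun a b => ?_⟩⟩, fun c hc => ?_⟩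
    · apply Subtype.ext
      show (a : G) * b = b * a
      have h1 := key t ht _ a.2
      have h2 := key t ht _ b.2
      have h3 := key t ht _ ((centralizer ({t} : Set G)).mul_mem a.2 b.2)
      have e1 : (a : G)⁻¹ = a := inv_eq_of_mul_eq_one_right h1
      have e2 : (b : G)⁻¹ = b := inv_eq_of_mul_eq_one_right h2
      have e3 : ((a : G) * b)⁻¹ = a * b := inv_eq_of_mul_eq_one_right h3
      rw [← e3, mul_inv_rev, e1, e2]
    · rw [pow_two]; exact key t ht c hc
  refine ⟨_, Cfsg.Agent.S1226.result T ?_ ?_ key2⟩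
  · intro hcyc
    obtain ⟨x, hx⟩ := hcyc.exists_generator
    have hox : orderOf x = Nat.card (T : Subgroup G) := orderOf_eq_card_of_forall_mem_zpowers hx
    have h2T : 2 ∣ Nat.card (T : Subgroup G) := (by norm_num : 2 ∣ 2 ^ 2).trans h4T
    obtain ⟨t, ht⟩ := exists_prime_orderOf_dvd_card' 2 h2T
    have hxt : (x : G) ∈ centralizer ({(t : G)} : Set G) := by
      rw [mem_centralizer_singleton_iff]
      obtain ⟨k, hk⟩ := mem_zpowers_iff.mp (hx t)
      rw [← hk]
      push_cast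
      exact (Commute.zpow_right (Commute.refl (x : G)) k).eq
    have h1 := key (t : G) (by rw [Subgroup.orderOf_coe]; exact ht) _ hxt
    have h3 : orderOf (x : G) ∣ 2 := orderOf_dvd_of_pow_eq_one (by rw [pow_two]; exact h1)
    rw [Subgroup.orderOf_coe, hox] at h3
    have h5 := Nat.le_of_dvd (by norm_num) (h4T.trans h3)
    omega
  · intro hn
    rcases hn.eq_bot_or_eq_top with h | h
    · rw [h, Subgroup.card_bot] at h4T
      have := Nat.le_of_dvd (by norm_num) h4T
      omega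
    · have h1 : IsPGroup 2 (T : Subgroup G) := T.2
      obtain ⟨k, hk⟩ := IsPGroup.iff_card.mp h1
      rw [h, Subgroup.card_top, hG] at hk
      have h2 : p ∣ 2 ^ k := by
        rw [← hk, hpm]
        exact ⟨2 ^ m * (2 ^ m - 1), by ring⟩
      have h3 := hp.out.dvd_of_dvd_pow h2
      have := Nat.le_of_dvd (by norm_num) h3
      omega

end Cfsg.Agent.Cyc.TP
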