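import Cfsg.Agent.Cyc.TP1

/-!
Simple transitive groups of degree `3p` with a Sylow normalizer of order `2p`: the permutation
character.
-/

set_option autoImplicit false

open scoped ComplexConjugate

namespace Cfsg.Agent.Cyc.TP

open Cfsg Subgroup Cfsg.Agent.BR Cfsg.Agent.BT MulAction
open Cfsg.Agent.CharBase (oneIrr)
open scoped commutatorElement

universe u v

section

variable {G : Type u} [Group G] [Fintype G]

/-- nontrivial irreducible characters of simple groups are faithful. -/
theorem faithful_of_simple [IsSimpleGroup G] {χ : IrrCharacter G} (h1 : χ ≠ oneIrr G) (g : G)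
    (hg : (χ : G → ℂ) g = (χ : G → ℂ) 1) : g = 1 := by
  obtain ⟨K, hK, hKm⟩ := exists_ker χ
  rcases hK.eq_bot_or_eq_top with h | h
  · have : g ∈ K := (hKm g).mpr hg
    rw [h] at this
    exact Subgroup.mem_bot.mp this
  · exfalso
    apply h1
    by_contra hne
    have h2 := CharBase.classInner_irr_of_ne hne
    have h3 : ∀ x : G, (χ : G → ℂ) x = (χ : G → ℂ) 1 := fun x =>
      (hKm x).mp (by rw [h]; trivial)
    unfold classInner at h2
    have hG : (Fintype.card G : ℂ) ≠ 0 := by exact_mod_cast Fintype.card_ne_zero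
    have h4 : ∀ x : G, (χ : G → ℂ) x * conj ((oneIrr G : G → ℂ) x) = (dg χ : ℂ) := by
      intro x
      rw [h3 x, CharBase.oneIrr_apply, map_one, mul_one, dg_eq]
    rw [Finset.sum_congr rfl (fun x _ => h4 x), Finset.sum_const, Finset.card_univ,
      nsmul_eq_mul, Nat.card_eq_fintype_card, ← mul_assoc, inv_mul_cancel₀ hG, one_mul] at h2
    have := dg_pos χ
    have h5 : dg χ = 0 := by exact_mod_cast h2
    omega

theorem perfect_of_simple [IsSimpleGroup G] (hna : ∃ a b : G, a * b ≠ b * a) :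
    commutator G = ⊤ := by
  rcases (inferInstance : (commutator G).Normal).eq_bot_or_eq_top with h | h
  · exfalso
    obtain ⟨a, b, hab⟩ := hna
    apply hab
    have h1 : ⁅a, b⁆ ∈ _root_.commutator G := by
      rw [_root_.commutator_def]
      exact Subgroup.commutator_mem_commutator (mem_top a) (mem_top b)
    rw [h, Subgroup.mem_bot, commutatorElement_eq_one_iff_mul_comm] at h1
    exact h1
  · exact h

variable {Ω : Type v} [Fintype Ω] [MulAction G Ω] {p : ℕ} [hp : Fact p.Prime]
  (hp3 : 3 < p) (hΩ : Fintype.card Ω = 3 * p)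

include hΩ in
theorem perm_zero [IsPretransitive G Ω] {P : Subgroup G} (hP : Sp p P) {x : G}
    (hx : x ∈ P) (hx1 : x ≠ 1) : H12.permChar G Ω x = 0 := by
  unfold H12.permChar
  rw [Nat.cast_eq_zero, Nat.card_eq_zero]
  left
  constructor
  rintro ⟨a, ha⟩
  rw [mem_fixedBy] at ha
  have h1 := MulAction.index_stabilizer_of_transitive G a
  rw [Nat.card_eq_fintype_card, hΩ] at h1
  have h2 := (stabilizer G a).card_mul_index
  have h3 : p ∣ Nat.card (stabilizer G a) := by
    have h4 := orderOf_dvd_natCard (⟨x, ha⟩ : stabilizer G a)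
    have h5 : orderOf (⟨x, ha⟩ : stabilizer G a) = p := by
      rw [← hP.orderOf_eq hx hx1, ← Subgroup.orderOf_coe]
    rwa [h5] at h4
  rw [h1] at h2
  obtain ⟨c, hc⟩ := h3
  have h5 := P.card_mul_index
  rw [hP.card, ← h2, hc] at h5
  apply hP.idx
  refine ⟨3 * c, ?_⟩
  have h6 : p * P.index = p * (p * (3 * c)) := by rw [h5]; ring
  exact Nat.eq_of_mul_eq_mul_left hp.out.pos h6

include hp3 in
theorem self_cent [IsSimpleGroup G] {P : Subgroup G} (hP : Sp p P)
    (hN : Nat.card (normalizer (P : Set G)) = 2 * p) : centralizer (P : Set G) = P := by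
  obtain ⟨Q, hQ⟩ := hP.exists_sylow
  subst hQ
  have hcard := hP.card
  have hcyc : IsCyclic (Q : Subgroup G) := isCyclic_of_prime_card hcard
  have hcomm : IsMulCommutative (Q : Subgroup G) := IsCyclic.isMulCommutative
  have h1 : (Q : Subgroup G) ≤ centralizer ((Q : Subgroup G) : Set G) :=
    Subgroup.le_centralizer_iff_isMulCommutative.mpr hcomm
  have h2 := centralizer_le_normalizer' (Q : Subgroup G)
  obtain ⟨c, hc⟩ := Subgroup.card_dvd_of_le h1
  obtain ⟨d, hd⟩ := Subgroup.card_dvd_of_le h2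
  rw [hcard] at hc
  rw [hN, hc] at hd
  have h3 : c * d = 2 := by
    have : p * (c * d) = p * 2 := by rw [← mul_assoc, ← hd]; ring
    exact Nat.eq_of_mul_eq_mul_left hp.out.pos this
  have hc' : c = 1 ∨ c = 2 := (Nat.dvd_prime Nat.prime_two).mp ⟨d, h3.symm⟩
  rcases hc' with rfl | rfl
  · symm
    apply Subgroup.eq_of_le_of_card_ge h1
    rw [hc, mul_one, hcard]
  · exfalso
    have hN' : normalizer ((Q : Subgroup G) : Set G) ≤ centralizer ((Q : Subgroup G) : Set G) := by
      apply le_of_eq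
      symm
      apply Subgroup.eq_of_le_of_card_ge h2
      rw [hN, hc, mul_comm]
    have h3 := MonoidHom.ker_transferSylow_isComplement' Q hN'
    have h5 := h3.card_mul
    rw [hcard] at h5
    rcases (inferInstance : (MonoidHom.transferSylow Q hN').ker.Normal).eq_bot_or_eq_top with
      h6 | h6
    · rw [h6, Subgroup.card_bot, one_mul] at h5
      have h7 := Subgroup.card_le_card_group (normalizer ((Q : Subgroup G) : Set G))
      rw [hN, ← h5] at h7
      omega
    · rw [h6, Subgroup.card_top] at h5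
      have h8 : 0 < Nat.card G := Nat.card_pos
      nlinarith

include hp3 hΩ in
theorem trichotomy [IsSimpleGroup G] (hna : ∃ a b : G, a * b ≠ b * a) [IsPretransitive G Ω]
    {P : Subgroup G} (hP : Sp p P) (hN : Nat.card (normalizer (P : Set G)) = 2 * p) :
    Nonempty (E2 p P) ∨
    (∃ (d : F2 p P) (Ψ : IrrCharacter G), dg d.χ + 1 = 2 * p ∧ dg Ψ = p ∧
      H12.permChar G Ω = fun g => 1 + (d.χ : G → ℂ) g + (Ψ : G → ℂ) g) ∨
    (∃ d : F2 p P, dg d.χ + 1 = 3 * p ∧ H12.permChar G Ω = fun g => 1 + (d.χ : G → ℂ) g) ∨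
    (p = 5 ∧ ∃ χ : IrrCharacter G, dg χ = 6 ∧
      ∀ g, ¬ p ∣ orderOf g → H12.permChar G Ω g = 3 + 2 * (χ : G → ℂ) g) := by
  classical
  have hfin : Fintype (IrrCharacter G) := Fintype.ofFinite _
  have hperf := perfect_of_simple hna
  have hne' : Nonempty Ω := by
    rw [← Fintype.card_pos_iff, hΩ]
    have := hp.out.pos
    omega
  have hpp := hp.out
  have hp5 : 5 ≤ p := by
    by_contra hlt
    have : p = 4 := by omega
    rw [this] at hpp
    exact absurd hpp (by norm_num)
  have hC := self_cent hp3 hP hN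
  obtain ⟨B⟩ := CycG.nonempty_data hP
  set st : Ex p P := ⟨hP, hC, B, by omega⟩ with hst
  have he : ind P = 2 := by
    have h1 := st.card_N
    rw [hN, mul_comm] at h1
    exact (Nat.eq_of_mul_eq_mul_left hpp.pos h1).symm
  set π := H12.permChar G Ω with hπ
  have hπc : IsCharacter G π := H12.isCharacter_permChar G Ω
  have hπ0 : ∀ x ∈ P, x ≠ 1 → π x = 0 := fun x hx hx1 => perm_zero hΩ hP hx hx1
  obtain ⟨m, hm, hsum⟩ := CharBase.exists_mult_of_isCharacter hπc
  have hm1 : m (oneIrr G) = 1 := by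
    have h1 := hm (oneIrr G)
    have h2 := H12.classInner_permChar_one (G := G) (Ω := Ω)
    have h3 : classInner π ((oneIrr G : IrrCharacter G) : G → ℂ) = 1 := h2
    rw [h3] at h1
    exact_mod_cast h1.symm
  have hπ1 : π 1 = ((3 * p : ℕ) : ℂ) := by rw [hπ, H12.permChar_one, hΩ]
  have hdeg : ∑ χ : IrrCharacter G, m χ * dg χ = 3 * p := by
    have h1 := congrFun hsum 1
    rw [Finset.sum_apply, hπ1] at h1
    have h2 : ((3 * p : ℕ) : ℂ) = ((∑ χ : IrrCharacter G, m χ * dg χ : ℕ) : ℂ) := by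
      rw [h1]
      push_cast
      refine Finset.sum_congr rfl fun χ _ => ?_
      rw [Pi.smul_apply, dg_eq, nsmul_eq_mul]
    exact_mod_cast h2.symm
  have hle : ∀ S : Finset (IrrCharacter G), ∑ ξ ∈ S, m ξ * dg ξ ≤ 3 * p := by
    intro S
    rw [← hdeg]
    exact Finset.sum_le_sum_of_subset (Finset.subset_univ S)
  -- the exceptional multiplicities are equal
  have heq : ∀ ψ ∈ B.Y, ∀ ψ' ∈ B.Y, m ψ = m ψ' := by
    intro ψ hψ ψ' hψ'
    have h1 : classInner ((ψ : G → ℂ) - (ψ' : G → ℂ)) π = classInner ((ψ : G → ℂ) - (ψ' : G → ℂ)) 0 := by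
      refine st.inner_agree (CharBase.isClassFunction_sub (CharBase.irr_isClassFunction _)
        (CharBase.irr_isClassFunction _)) (CharBase.isClassFunction_of_isCharacter hπc)
        (fun _ _ => rfl) ?_ (fun x hx hx1 => hπ0 x hx hx1)
      intro g hg
      rw [Pi.sub_apply, B.Y_eq hψ hψ' hg, sub_self]
    have h2 : classInner ((ψ : G → ℂ) - (ψ' : G → ℂ)) 0 = 0 := by
      unfold classInner
      simp
    rw [h2, CharBase.classInner_sub_left, CharBase.classInner_comm_of_isCharacter
      (CharBase.irr_isCharacter ψ) hπc, CharBase.classInner_comm_of_isCharacter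
      (CharBase.irr_isCharacter ψ') hπc, hm, hm, sub_eq_zero] at h1
    exact_mod_cast h1
  obtain ⟨ψ₀, hψ₀⟩ := B.Y_nonempty (by omega)
  have hcY : 2 * B.Y.card + 1 = p := by
    have h1 := B.cardY
    rw [he] at h1
    omega
  have h1dg : dg (oneIrr G) = 1 := by
    have : ((dg (oneIrr G) : ℕ) : ℂ) = 1 := by rw [← dg_eq, CharBase.oneIrr_apply]
    exact_mod_cast this
  have h1Y : oneIrr G ∉ B.Y := fun h => Finset.disjoint_left.mp B.disj B.one_mem h
  -- the structure of `X`
  have hcX := B.cardX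
  rw [he] at hcX
  obtain ⟨a, b, hab, hX⟩ := Finset.card_eq_two.mp hcX
  have h2 := B.one_mem
  obtain ⟨χ, hχ1, hX'⟩ : ∃ χ : IrrCharacter G, χ ≠ oneIrr G ∧ B.X = {oneIrr G, χ} := by
    rw [hX, Finset.mem_insert, Finset.mem_singleton] at h2
    rcases h2 with h | h
    · exact ⟨b, by rw [h]; exact hab.symm, by rw [hX, h]⟩
    · exact ⟨a, by rw [h]; exact hab, by rw [hX, h, Finset.pair_comm]⟩
  have hχ : χ ∈ B.X := by rw [hX']; simp
  obtain ⟨x, hx, hx1⟩ := exists_ne_one hP
  have hval : (1 : ℤ) + m χ * B.δ χ + m ψ₀ * B.δ₀ = 0 := by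
    have h1 := congrFun hsum x
    rw [hπ0 x hx hx1, Finset.sum_apply, st.sum_split (fun χ => (m χ • (χ : G → ℂ)) x) (by
      intro χ h h'
      rw [Pi.smul_apply, B.out hC χ h h' x hx hx1, smul_zero])] at h1
    have h3 : ∑ ψ ∈ st.B.Y, (m ψ • (ψ : G → ℂ)) x = m ψ₀ * B.δ₀ := by
      have h4 := st.sum_Y hx hx1
      rw [← h4, Finset.mul_sum]
      refine Finset.sum_congr rfl fun ψ hψ => ?_
      rw [heq ψ hψ ψ₀ hψ₀, Pi.smul_apply, nsmul_eq_mul]
    have h4 : st.B.X = {oneIrr G, χ} := hX'
    rw [h3, h4, Finset.sum_pair hχ1.symm, hm1, one_smul, CharBase.oneIrr_apply,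
      Pi.smul_apply, B.val_one hχ hx hx1, nsmul_eq_mul] at h1
    exact_mod_cast h1.symm
  have hdgχ : dg χ ≠ 1 := fun h => hχ1 (eq_one_of_perfect hperf h)
  have hdgχ0 := dg_pos χ
  have hdgψ0 := dg_pos ψ₀
  have hde := B.degEq hψ₀
  rw [hX', Finset.sum_pair hχ1.symm, B.δ_one hP, h1dg] at hde
  have hcong := B.congr_X hP hχ
  have hreg : ∀ g, ¬ p ∣ orderOf g → ∀ ψ ∈ B.Y, 1 + (B.δ χ : ℂ) * (χ : G → ℂ) g +
      B.δ₀ * (ψ : G → ℂ) g = 0 := by
    intro g hg ψ hψ
    have h9 := B.reg g hg ψ hψ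
    rw [hX', Finset.sum_pair hχ1.symm, B.δ_one hP, CharBase.oneIrr_apply] at h9
    rw [← h9]; push_cast; ring
  have hmY : ∑ ξ ∈ insert (oneIrr G) B.Y, m ξ * dg ξ = 1 + B.Y.card * (m ψ₀ * dg ψ₀) := by
    rw [Finset.sum_insert h1Y, Finset.sum_congr rfl (fun ξ hξ => by
      rw [heq ξ hξ ψ₀ hψ₀, B.dg_Y hξ hψ₀]), Finset.sum_const, smul_eq_mul, hm1, h1dg]
  rcases B.sgn χ hχ with hδχ | hδχ
  · -- the sign of `χ` is `1`
    right; right; right
    rw [hδχ] at hval hde hcong
    have hδ₀ : B.δ₀ = -1 := by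
      rcases B.sgn₀ with h | h
      · exfalso
        rw [h] at hde
        omega
      · exact h
    rw [hδ₀] at hval hde
    obtain ⟨k, hk⟩ := hcong
    have hk1 : 1 ≤ k := by
      by_contra hcon
      have h3 : (p : ℤ) * k ≤ 0 := by
        have : k ≤ 0 := by omega
        have hp0 : (0 : ℤ) ≤ p := by positivity
        nlinarith
      omega
    have h3 : (p : ℤ) ≤ p * k := by
      have hp0 : (0 : ℤ) < p := by exact_mod_cast hpp.pos
      nlinarith
    have h4 : p + 2 ≤ dg ψ₀ := by omega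
    have h5 : 1 ≤ m ψ₀ := by omega
    have h6 := hle (insert (oneIrr G) B.Y)
    rw [hmY] at h6
    have h7 : dg ψ₀ ≤ m ψ₀ * dg ψ₀ := Nat.le_mul_of_pos_left _ h5
    have h8 : B.Y.card ≤ 2 := by
      by_contra hcon
      have h9 : B.Y.card * (p + 2) ≤ B.Y.card * (m ψ₀ * dg ψ₀) :=
        Nat.mul_le_mul_left _ (h4.trans h7)
      have h10 : 3 * (p + 2) ≤ B.Y.card * (p + 2) := Nat.mul_le_mul_right _ (by omega)
      omega
    have h9 : p = 5 := by omega
    have h10 : B.Y.card = 2 := by omega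
    rw [h10, h9] at h6
    have h11 : m ψ₀ * dg ψ₀ ≤ 7 := by omega
    have h12 : dg ψ₀ = 7 := by omega
    have h13 : m ψ₀ = 1 := by
      rw [h12] at h11
      omega
    refine ⟨h9, χ, by omega, ?_⟩
    have hA := eq_sum_of_mult hπc (insert (oneIrr G) B.Y) (by
      intro ξ hξ
      rw [hm ξ]
      rw [Finset.mem_insert] at hξ
      rcases hξ with rfl | hξ
      · rw [hm1]; norm_num
      · rw [heq ξ hξ ψ₀ hψ₀, h13]; norm_num) (by
      rw [hπ1, Finset.sum_insert h1Y, Finset.sum_congr rfl (fun ξ hξ => by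
        rw [dg_eq, B.dg_Y hξ hψ₀, h12]), Finset.sum_const, h10, CharBase.oneIrr_apply, h9]
      norm_num)
    intro g hg
    have h14 := congrFun hA g
    rw [Finset.sum_apply, Finset.sum_insert h1Y] at h14
    have h15 : ∀ ξ ∈ B.Y, (ξ : G → ℂ) g = 1 + (χ : G → ℂ) g := by
      intro ξ hξ
      have := hreg g hg ξ hξ
      rw [hδχ, hδ₀] at this
      push_cast at this
      linear_combination -this
    rw [Finset.sum_congr rfl h15, Finset.sum_const, h10, CharBase.oneIrr_apply] at h14
    rw [h14]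
    simp only [nsmul_eq_mul]
    push_cast
    ring
  · -- the sign of `χ` is `-1`
    rw [hδχ] at hval hde hcong
    have hδ₀ : B.δ₀ = 1 := by
      rcases B.sgn₀ with h | h
      · exact h
      · exfalso
        rw [h] at hde
        omega
    rw [hδ₀] at hval hde
    obtain ⟨k, hk⟩ := hcong
    have hk0 : 1 ≤ k := by
      by_contra hcon
      have h3 : (p : ℤ) * k ≤ 0 := by
        have : k ≤ 0 := by omega
        have hp0 : (0 : ℤ) ≤ p := by positivity
        nlinarith
      omega
    obtain ⟨j, rfl⟩ : ∃ j : ℕ, k = j := ⟨k.toNat, by omega⟩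
    have hdgj : dg χ + 1 = p * j := by
      have : (dg χ : ℤ) + 1 = p * j := by linarith
      exact_mod_cast this
    have hj1 : 1 ≤ j := by exact_mod_cast hk0
    have hmem : ∀ ξ, ξ ∈ B.X ↔ ξ = oneIrr G ∨ ξ = χ := by
      intro ξ; rw [hX', Finset.mem_insert, Finset.mem_singleton]
    let d : F2 p P := ⟨st, he, χ, hmem, hχ1, hδχ, hδ₀, faithful_of_simple hχ1, hp5⟩
    have hmχ : m χ = m ψ₀ + 1 := by omega
    by_cases hj : j = 1
    · left
      rw [hj, mul_one] at hdgj
      refine ⟨⟨st, he, hδ₀, ?_, ?_, hp5⟩⟩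
      · intro ψ hψ
        rw [B.dg_Y hψ hψ₀]
        omega
      · intro ψ hψ g hg
        refine faithful_of_simple ?_ g hg
        rintro rfl
        exact h1Y hψ
    · right
      have hj2 : 2 ≤ j := by omega
      have h3 := hle {oneIrr G, χ}
      rw [Finset.sum_pair hχ1.symm, hm1, h1dg, hmχ] at h3
      have h4 : p * 2 ≤ p * j := Nat.mul_le_mul_left _ hj2
      have h5 : m ψ₀ = 0 := by
        by_contra hcon
        have h6 : 2 * dg χ ≤ (m ψ₀ + 1) * dg χ := Nat.mul_le_mul_right _ (by omega)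
        omega
      rw [h5, zero_add, one_mul] at h3
      have h6 : j ≤ 3 := by
        by_contra hcon
        have h7 : p * 4 ≤ p * j := Nat.mul_le_mul_left _ (by omega)
        omega
      rw [h5, zero_add] at hmχ
      by_cases hj3 : j = 3
      · right; left
        rw [hj3] at hdgj
        refine ⟨d, by change dg χ + 1 = 3 * p; omega, ?_⟩
        have hA := eq_sum_of_mult hπc {oneIrr G, χ} (by
          intro ξ hξ
          rw [hm ξ]
          rw [Finset.mem_insert, Finset.mem_singleton] at hξ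
          rcases hξ with rfl | rfl
          · rw [hm1]; norm_num
          · rw [hmχ]; norm_num) (by
          rw [hπ1, Finset.sum_pair hχ1.symm, dg_eq, dg_eq, h1dg]
          have : 3 * p = 1 + dg χ := by omega
          rw [this]; push_cast; ring)
        rw [hA]
        funext g
        rw [Finset.sum_apply, Finset.sum_pair hχ1.symm, CharBase.oneIrr_apply]
      · left
        have hj2' : j = 2 := by omega
        rw [hj2'] at hdgj
        -- the remaining constituent
        obtain ⟨Ψ, hΨX, hΨY, hΨm⟩ : ∃ Ψ : IrrCharacter G, Ψ ∉ B.X ∧ Ψ ∉ B.Y ∧ m Ψ ≠ 0 := by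
          by_contra hcon
          push Not at hcon
          have h7 : ∑ ξ : IrrCharacter G, (((m ξ * dg ξ : ℕ)) : ℂ) = ((3 * p : ℕ) : ℂ) := by
            rw [← hdeg]; push_cast; rfl
          rw [st.sum_split _ (by
            intro ξ h h'
            rw [hcon ξ h h', zero_mul, Nat.cast_zero])] at h7
          have h8 : ∑ ψ ∈ st.B.Y, (((m ψ * dg ψ : ℕ)) : ℂ) = 0 := by
            refine Finset.sum_eq_zero fun ψ hψ => ?_
            rw [heq ψ hψ ψ₀ hψ₀, h5, zero_mul, Nat.cast_zero]
          have h9 : st.B.X = {oneIrr G, χ} := hX'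
          rw [h8, add_zero, h9, Finset.sum_pair hχ1.symm, hm1, hmχ, h1dg] at h7
          have h10 : 1 * 1 + 1 * dg χ = 3 * p := by exact_mod_cast h7
          omega
        have hΨp : p ∣ dg Ψ := by
          rcases st.mem_or Ψ with h | h | h
          · exact absurd h hΨX
          · exact absurd h hΨY
          · exact h
        have hΨ1 : Ψ ≠ oneIrr G := fun h => hΨX (by rw [h]; exact B.one_mem)
        have hΨχ : Ψ ≠ χ := fun h => hΨX (by rw [h]; exact hχ)
        have h7 := hle {oneIrr G, χ, Ψ}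
        rw [Finset.sum_insert (by simp [hχ1.symm, hΨ1.symm]), Finset.sum_pair hΨχ.symm, hm1, hmχ,
          h1dg] at h7
        have h8 : dg Ψ ≤ m Ψ * dg Ψ := Nat.le_mul_of_pos_left _ (Nat.pos_of_ne_zero hΨm)
        have h9 : dg Ψ = p := by
          obtain ⟨c, hc⟩ := hΨp
          have h10 := dg_pos Ψ
          have h11 : c = 1 := by
            rcases Nat.lt_or_ge c 2 with h | h
            · rcases Nat.eq_zero_or_pos c with h' | h'
              · rw [h', mul_zero] at hc; omega
              · omega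
            · exfalso
              have := Nat.mul_le_mul_left p h
              omega
          rw [hc, h11, mul_one]
        refine ⟨d, Ψ, by change dg χ + 1 = 2 * p; omega, h9, ?_⟩
        have hA := eq_sum_of_mult hπc {oneIrr G, χ, Ψ} (by
          intro ξ hξ
          rw [hm ξ]
          rw [Finset.mem_insert, Finset.mem_insert, Finset.mem_singleton] at hξ
          rcases hξ with rfl | rfl | rfl
          · rw [hm1]; norm_num
          · rw [hmχ]; norm_num
          · exact_mod_cast hΨm) (by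
          rw [hπ1, Finset.sum_insert (by simp [hχ1.symm, hΨ1.symm]), Finset.sum_pair hΨχ.symm,
            dg_eq, dg_eq, dg_eq, h1dg, h9]
          have : 3 * p = 1 + (dg χ + p) := by omega
          rw [this]; push_cast; ring)
        rw [hA]
        funext g
        rw [Finset.sum_apply, Finset.sum_insert (by simp [hχ1.symm, hΨ1.symm]),
          Finset.sum_pair hΨχ.symm, CharBase.oneIrr_apply]
        change _ = 1 + (χ : G → ℂ) g + (Ψ : G → ℂ) g
        ring

end

end Cfsg.Agent.Cyc.TP
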