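import Cfsg.Agent.Cyc.TP2

/-!
Simple transitive groups of degree `3p`: fixed points of involutions.
-/

set_option autoImplicit false

open scoped ComplexConjugate Pointwise

namespace Cfsg.Agent.Cyc.TP

open Cfsg Subgroup Cfsg.Agent.BR Cfsg.Agent.BT MulAction
open Cfsg.Agent.CharBase (oneIrr)

universe u v

section

variable {G : Type u} [Group G] [Fintype G]

theorem exists_inv {p : ℕ} [hp : Fact p.Prime] (hp3 : 3 < p) {P : Subgroup G} (hP : Sp p P)
    (hC : centralizer (P : Set G) = P) (hN : Nat.card (normalizer (P : Set G)) = 2 * p) :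
    ∃ τ : G, orderOf τ = 2 ∧ ∀ x ∈ P, τ * x * τ⁻¹ = x⁻¹ := by
  have : Fact (Nat.Prime 2) := ⟨Nat.prime_two⟩
  obtain ⟨⟨τ, hτN⟩, hτ⟩ := exists_prime_orderOf_dvd_card' (G := normalizer (P : Set G)) 2
    (by rw [hN]; exact ⟨p, rfl⟩)
  have hτ2 : orderOf τ = 2 := by
    rw [← hτ]; exact (Subgroup.orderOf_mk τ hτN).symm
  have hττ : τ * τ = 1 := by
    have := pow_orderOf_eq_one τ
    rwa [hτ2, pow_two] at this
  have hi : τ⁻¹ = τ := inv_eq_of_mul_eq_one_right hττ
  have hcomm : ∀ a ∈ P, ∀ b ∈ P, a * b = b * a := by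
    intro a ha b hb
    have hcyc : IsCyclic P := isCyclic_of_prime_card hP.card
    have hcm : IsMulCommutative P := IsCyclic.isMulCommutative
    exact congrArg Subtype.val (hcm.is_comm.comm (⟨a, ha⟩ : P) ⟨b, hb⟩)
  refine ⟨τ, hτ2, fun x hx => ?_⟩
  have hy : τ * x * τ⁻¹ ∈ P := (Subgroup.mem_normalizer_iff.mp hτN x).mp hx
  by_contra hne
  have h1 : x * (τ * x * τ⁻¹) ≠ 1 := by
    intro h
    exact hne (eq_inv_of_mul_eq_one_right h)
  have h2 : τ ∈ P := by
    refine mem_P_of_comm hP hC (P.mul_mem hx hy) h1 ?_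
    have h3 : τ * (x * (τ * x * τ⁻¹)) * τ⁻¹ = x * (τ * x * τ⁻¹) := by
      rw [hi]
      calc τ * (x * (τ * x * τ)) * τ = (τ * x * τ) * (x * (τ * τ)) := by group
        _ = (τ * x * τ⁻¹) * x := by rw [hττ, mul_one, hi]
        _ = x * (τ * x * τ⁻¹) := hcomm _ hy _ hx
        _ = x * (τ * x * τ) := by rw [hi]
    calc x * (τ * x * τ⁻¹) * τ = τ * (x * (τ * x * τ⁻¹)) * τ⁻¹ * τ := by rw [h3]
      _ = τ * (x * (τ * x * τ⁻¹)) := by group
  have h3 : orderOf τ = p := hP.orderOf_eq h2 (by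
    rintro rfl
    rw [orderOf_one] at hτ2
    norm_num at hτ2)
  omega

variable {Ω : Type v} [Fintype Ω] [MulAction G Ω]

theorem fix_modEq {u : G} (hu : orderOf u = 2) :
    Nat.card Ω ≡ Nat.card (fixedBy Ω u) [MOD 2] := by
  have : Fact (Nat.Prime 2) := ⟨Nat.prime_two⟩
  have h1 : IsPGroup 2 (zpowers u) := by
    rw [IsPGroup.iff_card]
    exact ⟨1, by rw [Nat.card_zpowers, hu, pow_one]⟩
  have h2 := h1.card_modEq_card_fixedPoints Ω
  have h3 : fixedPoints (zpowers u) Ω = fixedBy Ω u := by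
    ext a
    rw [mem_fixedPoints, mem_fixedBy]
    constructor
    · intro h
      exact h ⟨u, mem_zpowers u⟩
    · rintro h ⟨g, hg⟩
      have : zpowers u ≤ stabilizer G a := by
        rw [zpowers_le]
        exact h
      exact this hg
  rwa [h3] at h2

variable {p : ℕ} [hp : Fact p.Prime] (hp3 : 3 < p) (hΩ : Fintype.card Ω = 3 * p)

include hp3 hΩ in
theorem one_or_three [IsPretransitive G Ω] {P : Subgroup G} (hP : Sp p P) {τ : G}
    (hτ : orderOf τ = 2) (hinv : ∀ x ∈ P, τ * x * τ⁻¹ = x⁻¹) :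
    Nat.card (fixedBy Ω τ) = 1 ∨ Nat.card (fixedBy Ω τ) = 3 := by
  have hcomm : ∀ a ∈ P, ∀ b ∈ P, a * b = b * a := by
    intro a ha b hb
    have hcyc : IsCyclic P := isCyclic_of_prime_card hP.card
    have hcm : IsMulCommutative P := IsCyclic.isMulCommutative
    exact congrArg Subtype.val (hcm.is_comm.comm (⟨a, ha⟩ : P) ⟨b, hb⟩)
  have hfree : ∀ x ∈ P, ∀ a : Ω, x • a = a → x = 1 := by
    intro x hx a ha
    by_contra hx1
    have h1 := perm_zero hΩ hP hx hx1
    unfold H12.permChar at h1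
    rw [Nat.cast_eq_zero, Nat.card_eq_zero] at h1
    rcases h1 with h | h
    · exact h.false ⟨a, ha⟩
    · exact h.false
  have h1 : Nat.card (P × fixedBy Ω τ) ≤ Nat.card Ω := by
    apply Nat.card_le_card_of_injective (fun q : P × fixedBy Ω τ => (q.1 : G) • (q.2 : Ω))
    rintro ⟨⟨x, hx⟩, ⟨a, ha⟩⟩ ⟨⟨y, hy⟩, ⟨b, hb⟩⟩ hab
    change x • a = y • b at hab
    rw [mem_fixedBy] at ha hb
    have h2 : x⁻¹ • a = y⁻¹ • b := by
      have h3 := congrArg (fun w => τ • w) hab
      simp only [smul_smul] at h3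
      have e1 : τ * x = x⁻¹ * τ := by rw [← hinv x hx]; group
      have e2 : τ * y = y⁻¹ * τ := by rw [← hinv y hy]; group
      rw [e1, e2, mul_smul, mul_smul, ha, hb] at h3
      exact h3
    have h3 : (x⁻¹ * y) • b = a := by rw [mul_smul, ← hab, inv_smul_smul]
    have h4 : (x * y⁻¹) • b = a := by rw [mul_smul, ← h2, smul_inv_smul]
    have h5 : ((x * y⁻¹)⁻¹ * (x⁻¹ * y)) • b = b := by
      rw [mul_smul, h3, ← h4, inv_smul_smul]
    have h6 := hfree _ (P.mul_mem (P.inv_mem (P.mul_mem hx (P.inv_mem hy)))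
      (P.mul_mem (P.inv_mem hx) hy)) b h5
    have h7 : (x⁻¹ * y) * (x⁻¹ * y) = 1 := by
      rw [← h6]
      have : (x * y⁻¹)⁻¹ = x⁻¹ * y := by
        rw [mul_inv_rev, inv_inv, hcomm _ hy _ (P.inv_mem hx)]
      rw [this]
    have h8 : x⁻¹ * y = 1 := by
      by_contra h9
      have h10 := hP.orderOf_eq (P.mul_mem (P.inv_mem hx) hy) h9
      have h11 := orderOf_dvd_of_pow_eq_one (by rw [pow_two]; exact h7 : (x⁻¹ * y) ^ 2 = 1)
      rw [h10] at h11
      have := Nat.le_of_dvd (by norm_num) h11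
      omega
    have h9 : x = y := by
      have : x * (x⁻¹ * y) = x := by rw [h8, mul_one]
      rw [← this]; group
    subst h9
    have h10 : a = b := smul_left_cancel x hab
    subst h10
    rfl
  rw [Nat.card_prod, hP.card, Nat.card_eq_fintype_card (α := Ω), hΩ] at h1
  have h2 : Nat.card (fixedBy Ω τ) ≤ 3 := by
    have h3 : p * Nat.card (fixedBy Ω τ) ≤ p * 3 := by linarith
    exact Nat.le_of_mul_le_mul_left h3 hp.out.pos
  have h3 := fix_modEq (Ω := Ω) hτ
  rw [Nat.card_eq_fintype_card, hΩ] at h3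
  have h4 : Odd p := hp.out.odd_of_ne_two (by omega)
  obtain ⟨k, hk⟩ := h4
  unfold Nat.ModEq at h3
  omega

theorem card_fixedBy_of_isConj {u t : G} (h : IsConj u t) :
    Nat.card (fixedBy Ω u) = Nat.card (fixedBy Ω t) := by
  obtain ⟨c, hc⟩ := isConj_iff.mp h
  refine Nat.card_congr ⟨fun a => ⟨c • (a : Ω), ?_⟩, fun a => ⟨c⁻¹ • (a : Ω), ?_⟩, ?_, ?_⟩
  · rw [mem_fixedBy, ← hc, smul_smul]
    have := a.2
    rw [mem_fixedBy] at this
    have e : c * u * c⁻¹ * c = c * u := by group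
    rw [e, mul_smul, this]
  · have h1 : t • (a : Ω) = a := a.2
    rw [mem_fixedBy]
    have e : u * c⁻¹ = c⁻¹ * t := by rw [← hc]; group
    rw [smul_smul, e, mul_smul, h1]
  · intro a; simp
  · intro a; simp

include hp3 hΩ in
theorem F2.fix_all [IsPretransitive G Ω] {P : Subgroup G} (d : F2 p P) :
    (∀ u : G, orderOf u = 2 → Nat.card (fixedBy Ω u) = 1) ∨
    (∀ u : G, orderOf u = 2 → Nat.card (fixedBy Ω u) = 3) := by
  obtain ⟨τ, hτ, hτP⟩ := d.exists_τ
  have hτ2 := d.orderOf_τ hτ hτP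
  rcases one_or_three hp3 hΩ d.st.hP hτ2 (fun x hx => d.invert hτ hτP hx) with h | h
  · left
    intro u hu
    rw [card_fixedBy_of_isConj (d.isConj_of hu hτ2), h]
  · right
    intro u hu
    rw [card_fixedBy_of_isConj (d.isConj_of hu hτ2), h]

include hp3 hΩ in
/-- the fourth case of the trichotomy does not occur. -/
theorem case_six [IsSimpleGroup G] (hna : ∃ a b : G, a * b ≠ b * a) [IsPretransitive G Ω]
    {P : Subgroup G} (hP : Sp p P) (hN : Nat.card (normalizer (P : Set G)) = 2 * p)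
    {χ : IrrCharacter G} (hd : dg χ = 6)
    (hv : ∀ g, ¬ p ∣ orderOf g → H12.permChar G Ω g = 3 + 2 * (χ : G → ℂ) g) : False := by
  obtain ⟨τ, hτ, hinv⟩ := exists_inv hp3 hP (self_cent hp3 hP hN) hN
  have h1 := one_or_three hp3 hΩ hP hτ hinv
  have h2 := hv τ (by
    rw [hτ]; intro h
    have := Nat.le_of_dvd (by norm_num) h
    omega)
  obtain ⟨k, hk⟩ := involution_value (perfect_of_simple hna) χ (z := τ) (by
    have := pow_orderOf_eq_one τ
    rwa [hτ] at this)
  rw [hk, hd] at h2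
  unfold H12.permChar at h2
  have h3 : ((Nat.card (fixedBy Ω τ) + 8 * k : ℕ) : ℂ) = ((15 : ℕ) : ℂ) := by
    push_cast
    rw [h2]
    push_cast
    ring
  have h4 : Nat.card (fixedBy Ω τ) + 8 * k = 15 := by exact_mod_cast h3
  omega

/-- an involution of a subgroup is conjugate in it into a given Sylow 2-subgroup. -/
theorem conj_mem_sylow {H : Type*} [Group H] [Finite H] (S : Sylow 2 H) {t : H}
    (ht : orderOf t = 2) : ∃ g, g * t * g⁻¹ ∈ (S : Subgroup H) := by
  have : Fact (Nat.Prime 2) := ⟨Nat.prime_two⟩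
  have h1 : IsPGroup 2 (zpowers t) := by
    rw [IsPGroup.iff_card]
    exact ⟨1, by rw [Nat.card_zpowers, ht, pow_one]⟩
  obtain ⟨Q, hQ⟩ := h1.exists_le_sylow
  obtain ⟨g, hg⟩ := MulAction.exists_smul_eq H Q S
  refine ⟨g, ?_⟩
  rw [← hg, Sylow.coe_subgroup_smul]
  exact Subgroup.smul_mem_pointwise_smul _ _ _ (hQ (mem_zpowers t))

/-- If all the involutions of a Sylow 2-subgroup have the same fixed points, then the stabilizer
of this set is strongly embedded. -/
theorem se_of_same [IsPretransitive G Ω] (S : Sylow 2 G) {z : G} (hz : z ∈ (S : Subgroup G))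
    (hz2 : orderOf z = 2) (hzc : ∀ s ∈ (S : Subgroup G), s * z = z * s)
    (hall : ∀ u ∈ (S : Subgroup G), orderOf u = 2 → fixedBy Ω u = fixedBy Ω z)
    (hne : (fixedBy Ω z).Nonempty) (hnt : fixedBy Ω z ≠ Set.univ) :
    IsStronglyEmbedded (stabilizer G (fixedBy Ω z)) := by
  have : Fact (Nat.Prime 2) := ⟨Nat.prime_two⟩
  set M := stabilizer G (fixedBy Ω z) with hM
  have hsm : ∀ (g x : G), g • (fixedBy Ω x) = fixedBy Ω (g * x * g⁻¹) := by
    intro g x
    ext a
    rw [Set.mem_smul_set_iff_inv_smul_mem, mem_fixedBy, mem_fixedBy]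
    constructor
    · intro h
      rw [mul_smul, mul_smul, h, smul_inv_smul]
    · intro h
      have := congrArg (fun w => g⁻¹ • w) h
      simp only [smul_smul] at this
      have e : g⁻¹ * (g * x * g⁻¹) = x * g⁻¹ := by group
      rw [e, mul_smul] at this
      exact this
  have hSM : (S : Subgroup G) ≤ M := by
    intro s hs
    rw [hM, mem_stabilizer_iff, hsm, hzc s hs]
    congr 1
    group
  have hinvo : ∀ t ∈ M, orderOf t = 2 → fixedBy Ω t = fixedBy Ω z := by
    intro t ht ht2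
    obtain ⟨m, hm⟩ := conj_mem_sylow (S.subtype hSM) (t := (⟨t, ht⟩ : M))
      (by rw [← ht2]; exact Subgroup.orderOf_mk t ht)
    rw [Sylow.coe_subtype, Subgroup.mem_subgroupOf] at hm
    change (m : G) * t * (m : G)⁻¹ ∈ (S : Subgroup G) at hm
    have h1 := hall _ hm (by
      rw [← ht2]
      exact (MulAut.conj (m : G)).orderOf_eq t)
    rw [← hsm] at h1
    have h2 : (m : G)⁻¹ • fixedBy Ω z = fixedBy Ω z := M.inv_mem m.2
    rw [← h2, ← h1, inv_smul_smul]
  refine ⟨?_, ?_, ?_⟩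
  · intro h
    apply hnt
    rw [Set.eq_univ_iff_forall]
    intro a
    obtain ⟨b, hb⟩ := hne
    obtain ⟨g, hg⟩ := exists_smul_eq G b a
    have h1 : g ∈ M := by rw [h]; trivial
    rw [hM, mem_stabilizer_iff] at h1
    rw [← h1, ← hg]
    exact Set.smul_mem_smul_set hb
  · have h1 : orderOf (⟨z, hSM hz⟩ : M) = 2 := by
      rw [← hz2]; exact Subgroup.orderOf_mk z (hSM hz)
    have h2 := orderOf_dvd_natCard (⟨z, hSM hz⟩ : M)
    rw [h1] at h2
    exact even_iff_two_dvd.mpr h2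
  · intro g hg
    rw [← Nat.not_even_iff_odd]
    intro hev
    obtain ⟨⟨t, ht⟩, ht2⟩ := exists_prime_orderOf_dvd_card'
      (G := (M ⊓ M.map (MulAut.conj g).toMonoidHom : Subgroup G)) 2 hev.two_dvd
    have ht2' : orderOf t = 2 := by rw [← ht2]; exact (Subgroup.orderOf_mk t ht).symm
    obtain ⟨h1, h2⟩ := Subgroup.mem_inf.mp ht
    obtain ⟨y, hy, hyt⟩ := h2
    have hyt' : g * y * g⁻¹ = t := hyt
    have h3 := hinvo t h1 ht2'
    have h4 := hinvo y hy (by
      rw [← ht2', ← hyt']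
      exact ((MulAut.conj g).orderOf_eq y).symm)
    apply hg
    rw [hM, mem_stabilizer_iff]
    nth_rewrite 1 [← h4]
    rw [hsm, hyt', h3]

/-- if every involution has exactly one fixed point then the point stabilizers are strongly
embedded. -/
theorem se_of_one [IsPretransitive G Ω] (h1 : ∀ u : G, orderOf u = 2 →
    Nat.card (fixedBy Ω u) = 1) (hodd : Odd (Nat.card Ω)) (hnt : 1 < Nat.card Ω)
    (hev : Even (Nat.card G)) (a : Ω) : IsStronglyEmbedded (stabilizer G a) := by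
  have : Fact (Nat.Prime 2) := ⟨Nat.prime_two⟩
  have hidx : (stabilizer G a).index = Nat.card Ω := by
    rw [MulAction.index_stabilizer_of_transitive G a]
  have huniq : ∀ t : G, orderOf t = 2 → ∀ b c : Ω, t • b = b → t • c = c → b = c := by
    intro t ht b c hb hc
    have h2 := h1 t ht
    rw [Nat.card_eq_one_iff_unique] at h2
    exact congrArg Subtype.val (h2.1.elim (⟨b, hb⟩ : fixedBy Ω t) ⟨c, hc⟩)
  refine ⟨?_, ?_, ?_⟩
  · intro h
    rw [h, Subgroup.index_top] at hidx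
    omega
  · have h2 := (stabilizer G a).card_mul_index
    rw [hidx] at h2
    by_contra hcon
    rw [Nat.not_even_iff_odd] at hcon
    have h3 := hcon.mul hodd
    rw [h2, ← Nat.not_even_iff_odd] at h3
    exact h3 hev
  · intro g hg
    rw [← Nat.not_even_iff_odd]
    intro hev
    obtain ⟨⟨t, ht⟩, ht2⟩ := exists_prime_orderOf_dvd_card'
      (G := (stabilizer G a ⊓ (stabilizer G a).map (MulAut.conj g).toMonoidHom : Subgroup G)) 2
      hev.two_dvd
    have ht2' : orderOf t = 2 := by rw [← ht2]; exact (Subgroup.orderOf_mk t ht).symm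
    obtain ⟨h2, h3⟩ := Subgroup.mem_inf.mp ht
    obtain ⟨y, hy, hyt⟩ := h3
    have hyt' : g * y * g⁻¹ = t := hyt
    apply hg
    rw [mem_stabilizer_iff]
    refine huniq t ht2' _ _ ?_ h2
    have hy' : y • a = a := hy
    rw [← hyt', smul_smul]
    have e : g * y * g⁻¹ * g = g * y := by group
    rw [e, mul_smul, hy']

end

end Cfsg.Agent.Cyc.TP
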