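import Cfsg.Agent.Cyc.TP3

/-!
Simple transitive groups of degree `3p`: the Sylow 2-subgroup when all involutions have three
fixed points.
-/

set_option autoImplicit false

open scoped ComplexConjugate Pointwise

namespace Cfsg.Agent.Cyc.TP

open Cfsg Subgroup Cfsg.Agent.BR Cfsg.Agent.BT MulAction
open Cfsg.Agent.CharBase (oneIrr)

universe u v

/-- the local situation: all involutions have three fixed points, the Sylow 2-subgroup `S` fixes
`α`, and has an involution `u` with `C_S(u)` of order 4. -/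
structure Loc {G : Type u} [Group G] [Fintype G] (Ω : Type v) [Fintype Ω] [MulAction G Ω]
    (S : Sylow 2 G) where
  three : ∀ u : G, orderOf u = 2 → Nat.card (fixedBy Ω u) = 3
  α : Ω
  β : Ω
  γ : Ω
  z : G
  u : G
  αβ : α ≠ β
  αγ : α ≠ γ
  βγ : β ≠ γ
  zS : z ∈ (S : Subgroup G)
  z2 : orderOf z = 2
  zc : ∀ s ∈ (S : Subgroup G), s * z = z * s
  fz : fixedBy Ω z = {α, β, γ}
  Sα : ∀ s ∈ (S : Subgroup G), s • α = α
  uS : u ∈ (S : Subgroup G)
  u2 : orderOf u = 2
  uβ : u • β = γ
  uγ : u • γ = β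
  Cu : Nat.card ((S : Subgroup G) ⊓ centralizer ({u} : Set G) : Subgroup G) = 4

section

variable {G : Type u} [Group G] [Fintype G] {Ω : Type v} [Fintype Ω] [MulAction G Ω]

/-- a nontrivial element of a 2-subgroup has an involution among its powers. -/
theorem exists_invol_pow {S : Subgroup G} (hS : IsPGroup 2 S) {g : G} (hg : g ∈ S) (h1 : g ≠ 1) :
    ∃ t ∈ zpowers g, orderOf t = 2 := by
  have : Fact (Nat.Prime 2) := ⟨Nat.prime_two⟩
  have h2 : 2 ∣ Nat.card (zpowers g) := by
    rw [Nat.card_zpowers]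
    obtain ⟨k, hk⟩ := hS ⟨g, hg⟩
    have hk' : g ^ 2 ^ k = 1 := congrArg Subtype.val hk
    have h3 := orderOf_dvd_of_pow_eq_one hk'
    obtain ⟨j, -, hj⟩ := (Nat.dvd_prime_pow Nat.prime_two).mp h3
    rcases Nat.eq_zero_or_pos j with h | h
    · rw [h, pow_zero, orderOf_eq_one_iff] at hj
      exact absurd hj h1
    · rw [hj]
      exact dvd_pow_self 2 (by omega)
  obtain ⟨⟨t, ht⟩, ht2⟩ := exists_prime_orderOf_dvd_card' 2 h2
  exact ⟨t, ht, by rw [← ht2]; exact (Subgroup.orderOf_mk t ht).symm⟩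

theorem smul_of_mem_zpowers {g t : G} {a : Ω} (ht : t ∈ zpowers g) (h : g • a = a) :
    t • a = a := by
  have : zpowers g ≤ stabilizer G a := by rw [zpowers_le]; exact h
  exact this ht

theorem eq_triple {s : Set Ω} (h : Nat.card s = 3) {a : Ω} (ha : a ∈ s) :
    ∃ b c : Ω, a ≠ b ∧ a ≠ c ∧ b ≠ c ∧ s = {a, b, c} := by
  rw [Nat.card_coe_set_eq, Set.ncard_eq_three] at h
  obtain ⟨x, y, w, hxy, hxw, hyw, rfl⟩ := h
  rw [Set.mem_insert_iff, Set.mem_insert_iff, Set.mem_singleton_iff] at ha
  rcases ha with rfl | rfl | rfl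
  · exact ⟨y, w, hxy, hxw, hyw, rfl⟩
  · refine ⟨x, w, hxy.symm, hyw, hxw, ?_⟩
    ext v
    simp only [Set.mem_insert_iff, Set.mem_singleton_iff]
    tauto
  · refine ⟨x, y, hxw.symm, hyw.symm, hxy, ?_⟩
    ext v
    simp only [Set.mem_insert_iff, Set.mem_singleton_iff]
    tauto

theorem se_or_loc [IsPretransitive G Ω] (hodd : Odd (Nat.card Ω)) (h3 : 3 < Nat.card Ω)
    (three : ∀ u : G, orderOf u = 2 → Nat.card (fixedBy Ω u) = 3)
    (S : Sylow 2 G) (hS : (S : Subgroup G) ≠ ⊥) :
    (∃ M : Subgroup G, IsStronglyEmbedded M) ∨ Nonempty (Loc Ω S) := by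
  have : Fact (Nat.Prime 2) := ⟨Nat.prime_two⟩
  have hSn : Nontrivial (S : Subgroup G) := by
    rw [Subgroup.nontrivial_iff_ne_bot]; exact hS
  -- a fixed point
  obtain ⟨α, hα⟩ : ∃ α : Ω, ∀ s ∈ (S : Subgroup G), s • α = α := by
    have h1 := S.2.nonempty_fixed_point_of_prime_not_dvd_card Ω (by
      rw [← even_iff_two_dvd, Nat.not_even_iff_odd]; exact hodd)
    obtain ⟨α, hα⟩ := h1
    exact ⟨α, fun s hs => mem_fixedPoints.mp hα ⟨s, hs⟩⟩
  -- a central involution
  obtain ⟨z, hzS, hz2, hzc⟩ : ∃ z ∈ (S : Subgroup G), orderOf z = 2 ∧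
      ∀ s ∈ (S : Subgroup G), s * z = z * s := by
    have h1 : Nontrivial (center (S : Subgroup G)) := S.2.center_nontrivial
    have h2 : 2 ∣ Nat.card (center (S : Subgroup G)) := by
      have h3 : IsPGroup 2 (center (S : Subgroup G)) := S.2.to_subgroup _
      obtain ⟨n, hn⟩ := IsPGroup.iff_card.mp h3
      rcases Nat.eq_zero_or_pos n with h | h
      · rw [h, pow_zero] at hn
        have := Finite.one_lt_card_iff_nontrivial.mpr h1
        omega
      · rw [hn]; exact dvd_pow_self 2 (by omega)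
    obtain ⟨⟨⟨z, hz⟩, hzc⟩, hz2⟩ := exists_prime_orderOf_dvd_card' 2 h2
    refine ⟨z, hz, ?_, ?_⟩
    · rw [← hz2, ← Subgroup.orderOf_coe, ← Subgroup.orderOf_coe]
    · intro s hs
      have := Subgroup.mem_center_iff.mp hzc ⟨s, hs⟩
      exact congrArg Subtype.val this
  have hzα : α ∈ fixedBy Ω z := hα z hzS
  have hcz := three z hz2
  obtain ⟨β, γ, hαβ, hαγ, hβγ, hfz⟩ := eq_triple hcz hzα
  by_cases hall : ∀ u ∈ (S : Subgroup G), orderOf u = 2 → fixedBy Ω u = fixedBy Ω z
  · left
    refine ⟨_, se_of_same S hzS hz2 hzc hall ⟨α, hzα⟩ ?_⟩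
    intro h
    rw [h, Nat.card_coe_set_eq, Set.ncard_univ] at hcz
    omega
  · right
    push Not at hall
    obtain ⟨u, huS, hu2, hune⟩ := hall
    have huz : u * z = z * u := hzc u huS
    have hperm : ∀ s : G, s * z = z * s → ∀ a ∈ fixedBy Ω z, s • a ∈ fixedBy Ω z := by
      intro s hs a ha
      rw [mem_fixedBy] at ha ⊢
      rw [smul_smul, ← hs, mul_smul, ha]
    have hcu := three u hu2
    have huα : α ∈ fixedBy Ω u := hα u huS
    have hne' : ¬ fixedBy Ω z ⊆ fixedBy Ω u := by
      intro hsub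
      apply hune
      symm
      apply Set.eq_of_subset_of_ncard_le hsub
      rw [Nat.card_coe_set_eq] at hcz hcu
      rw [hcz, hcu]
    have hsβ : ∀ s : G, s * z = z * s → s • α = α → s • β = β ∨ s • β = γ := by
      intro s hs hsα
      have h1 := hperm s hs β (by rw [hfz]; simp)
      rw [hfz, Set.mem_insert_iff, Set.mem_insert_iff, Set.mem_singleton_iff] at h1
      rcases h1 with h | h | h
      · exfalso
        rw [← hsα] at h
        exact hαβ (smul_left_cancel s h).symm
      · exact Or.inl h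
      · exact Or.inr h
    have hsγ : ∀ s : G, s * z = z * s → s • α = α → s • β = β → s • γ = γ := by
      intro s hs hsα hsβ
      have h1 := hperm s hs γ (by rw [hfz]; simp)
      rw [hfz, Set.mem_insert_iff, Set.mem_insert_iff, Set.mem_singleton_iff] at h1
      rcases h1 with h | h | h
      · exfalso
        rw [← hsα] at h
        exact hαγ (smul_left_cancel s h).symm
      · exfalso
        have h2 : s • γ = s • β := h.trans hsβ.symm
        exact hβγ (smul_left_cancel s h2).symm
      · exact h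
    have huβ : u • β = γ := by
      rcases hsβ u huz (hα u huS) with h | h
      · exfalso
        apply hne'
        rw [hfz]
        rintro a (rfl | rfl | rfl)
        · exact huα
        · exact h
        · exact hsγ u huz (hα u huS) h
      · exact h
    have huu : u * u = 1 := by
      have := pow_orderOf_eq_one u
      rwa [hu2, pow_two] at this
    have huγ : u • γ = β := by
      rw [← huβ, smul_smul, huu, one_smul]
    -- the fixed points of `u`
    obtain ⟨δ, ε, hαδ, hαε, hδε, hfu⟩ := eq_triple hcu huα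
    have hδ : u • δ = δ := by
      have : δ ∈ fixedBy Ω u := by rw [hfu]; simp
      exact this
    have hsδ : ∀ s : G, s * u = u * s → s • α = α → s • δ = δ ∨ s • δ = ε := by
      intro s hs hsα
      have h1 : s • δ ∈ fixedBy Ω u := by
        rw [mem_fixedBy, smul_smul, ← hs, mul_smul, hδ]
      rw [hfu, Set.mem_insert_iff, Set.mem_insert_iff, Set.mem_singleton_iff] at h1
      rcases h1 with h | h | h
      · exfalso
        rw [← hsα] at h
        exact hαδ (smul_left_cancel s h).symm
      · exact Or.inl h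
      · exact Or.inr h
    set R : Subgroup G := (S : Subgroup G) ⊓ centralizer ({u} : Set G) with hR
    have hRu : ∀ s ∈ R, s * u = u * s := by
      intro s hs
      exact (Subgroup.mem_centralizer_iff.mp hs.2 u (Set.mem_singleton u)).symm
    have hRz : ∀ s ∈ R, s * z = z * s := fun s hs => hzc s hs.1
    have hRα : ∀ s ∈ R, s • α = α := fun s hs => hα s hs.1
    have hRp : IsPGroup 2 R := S.2.to_le inf_le_left
    have hRtriv : ∀ s ∈ R, s • β = β → s • δ = δ → s = 1 := by
      intro s hs h1 h2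
      by_contra hs1
      obtain ⟨t, ht, ht2⟩ := exists_invol_pow hRp hs hs1
      have htR : t ∈ R := by
        have : zpowers s ≤ R := by rw [zpowers_le]; exact hs
        exact this ht
      have htβ := smul_of_mem_zpowers ht h1
      have htδ := smul_of_mem_zpowers ht h2
      have htγ := hsγ t (hRz t htR) (hRα t htR) htβ
      have h3 : fixedBy Ω z = fixedBy Ω t := by
        apply Set.eq_of_subset_of_ncard_le
        · rw [hfz]
          rintro a (rfl | rfl | rfl)
          · exact hRα t htR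
          · exact htβ
          · exact htγ
        · have := three t ht2
          rw [Nat.card_coe_set_eq] at hcz this
          rw [hcz, this]
        · exact Set.toFinite _
      have h4 : δ ∈ fixedBy Ω z := by rw [h3]; exact htδ
      rw [hfz, Set.mem_insert_iff, Set.mem_insert_iff, Set.mem_singleton_iff] at h4
      rcases h4 with h | h | h
      · exact hαδ h.symm
      · rw [h, huβ] at hδ
        exact hβγ hδ.symm
      · rw [h, huγ] at hδ
        exact hβγ hδ
    have hle : Nat.card R ≤ 4 := by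
      have hinj : Function.Injective (fun s : R =>
          ((⟨(s : G) • β, by
            rcases hsβ s (hRz s s.2) (hRα s s.2) with h | h
            · rw [h]; exact Or.inl rfl
            · rw [h]; exact Or.inr rfl⟩ : ({β, γ} : Set Ω)),
           (⟨(s : G) • δ, by
            rcases hsδ s (hRu s s.2) (hRα s s.2) with h | h
            · rw [h]; exact Or.inl rfl
            · rw [h]; exact Or.inr rfl⟩ : ({δ, ε} : Set Ω)))) := by
        intro s t hst
        obtain ⟨h1, h2⟩ := Prod.mk.inj hst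
        have h1' : (s : G) • β = (t : G) • β := congrArg Subtype.val h1
        have h2' : (s : G) • δ = (t : G) • δ := congrArg Subtype.val h2
        have h3 : (s : G)⁻¹ * t = 1 := by
          apply hRtriv _ (R.mul_mem (R.inv_mem s.2) t.2)
          · rw [mul_smul, ← h1', inv_smul_smul]
          · rw [mul_smul, ← h2', inv_smul_smul]
        apply Subtype.ext
        exact (inv_mul_eq_one.mp h3)
      have h1 := Nat.card_le_card_of_injective _ hinj
      rw [Nat.card_prod, Nat.card_coe_set_eq, Nat.card_coe_set_eq, Set.ncard_pair hβγ,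
        Set.ncard_pair hδε] at h1
      exact h1
    have hzR : z ∈ R := by
      refine Subgroup.mem_inf.mpr ⟨hzS, ?_⟩
      rw [Subgroup.mem_centralizer_iff]
      intro w hw
      rw [Set.mem_singleton_iff.mp hw]
      exact huz
    have huR : u ∈ R := by
      refine Subgroup.mem_inf.mpr ⟨huS, ?_⟩
      rw [Subgroup.mem_centralizer_iff]
      intro w hw
      rw [Set.mem_singleton_iff.mp hw]
    have hzu : z ≠ u := by
      rintro rfl
      exact hune rfl
    have hz1 : z ≠ 1 := by
      rintro rfl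
      rw [orderOf_one] at hz2
      norm_num at hz2
    have hu1 : u ≠ 1 := by
      rintro rfl
      rw [orderOf_one] at hu2
      norm_num at hu2
    have hge : 3 ≤ Nat.card R := by
      have h1 : ({1, z, u} : Set G) ⊆ (R : Set G) := by
        rintro a (rfl | rfl | rfl)
        · exact R.one_mem
        · exact hzR
        · exact huR
      have h2 := Set.ncard_le_ncard h1 (Set.toFinite _)
      rw [Set.ncard_eq_three.mpr ⟨1, z, u, hz1.symm, hu1.symm, hzu, rfl⟩] at h2
      exact h2
    have hcard : Nat.card R = 4 := by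
      obtain ⟨n, hn⟩ := IsPGroup.iff_card.mp hRp
      rw [hn] at hle hge ⊢
      have : n = 2 := by
        rcases Nat.lt_or_ge n 3 with h | h
        · interval_cases n <;> omega
        · exfalso
          have := Nat.pow_le_pow_right (show 0 < 2 by norm_num) h
          omega
      rw [this]; rfl
    exact ⟨⟨three, α, β, γ, z, u, hαβ, hαγ, hβγ, hzS, hz2, hzc, hfz, hα, huS, hu2, huβ, huγ,
      hcard⟩⟩

variable {S : Sylow 2 G} (L : Loc Ω S)

include L

theorem Loc.mem_fz {a : Ω} : L.z • a = a ↔ a = L.α ∨ a = L.β ∨ a = L.γ := by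
  have h1 : a ∈ fixedBy Ω L.z ↔ a ∈ ({L.α, L.β, L.γ} : Set Ω) := by rw [L.fz]
  simpa using h1

/-- the centralizer of `z` permutes its fixed points. -/
theorem Loc.perm {s : G} (hs : s * L.z = L.z * s) {a : Ω} (ha : a = L.α ∨ a = L.β ∨ a = L.γ) :
    s • a = L.α ∨ s • a = L.β ∨ s • a = L.γ := by
  rw [← L.mem_fz] at ha ⊢
  rw [smul_smul, ← hs, mul_smul, ha]

theorem Loc.sβ {s : G} (hs : s * L.z = L.z * s) (hα : s • L.α = L.α) :
    s • L.β = L.β ∨ s • L.β = L.γ := by
  rcases L.perm hs (Or.inr (Or.inl rfl)) with h | h | h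
  · exfalso
    rw [← hα] at h
    exact L.αβ (smul_left_cancel s h).symm
  · exact Or.inl h
  · exact Or.inr h

theorem Loc.sγ {s : G} (hs : s * L.z = L.z * s) (hα : s • L.α = L.α) (hβ : s • L.β = L.β) :
    s • L.γ = L.γ := by
  rcases L.perm hs (Or.inr (Or.inr rfl)) with h | h | h
  · exfalso
    rw [← hα] at h
    exact L.αγ (smul_left_cancel s h).symm
  · exfalso
    have h2 : s • L.γ = s • L.β := h.trans hβ.symm
    exact L.βγ (smul_left_cancel s h2).symm
  · exact h

/-- the subgroup `T` of `S` fixing `β`. -/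
def Loc.T : Subgroup G := (S : Subgroup G) ⊓ stabilizer G L.β

theorem Loc.T_le : L.T ≤ (S : Subgroup G) := inf_le_left

theorem Loc.mem_T {s : G} : s ∈ L.T ↔ s ∈ (S : Subgroup G) ∧ s • L.β = L.β := Iff.rfl

theorem Loc.T_α {s : G} (hs : s ∈ L.T) : s • L.α = L.α := L.Sα s hs.1

theorem Loc.T_β {s : G} (hs : s ∈ L.T) : s • L.β = L.β := hs.2

theorem Loc.T_γ {s : G} (hs : s ∈ L.T) : s • L.γ = L.γ :=
  L.sγ (L.zc s hs.1) (L.Sα s hs.1) hs.2

theorem Loc.zT : L.z ∈ L.T := ⟨L.zS, L.mem_fz.mpr (Or.inr (Or.inl rfl))⟩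

theorem Loc.u_notMem : L.u ∉ L.T := fun h => L.βγ ((L.T_β h).symm.trans L.uβ)

/-- elements of `S` outside `T` swap `β` and `γ`. -/
theorem Loc.swap {s : G} (hs : s ∈ (S : Subgroup G)) (hsT : s ∉ L.T) :
    s • L.β = L.γ ∧ s • L.γ = L.β := by
  have h1 : s • L.β = L.γ := by
    rcases L.sβ (L.zc s hs) (L.Sα s hs) with h | h
    · exact absurd ⟨hs, h⟩ hsT
    · exact h
  refine ⟨h1, ?_⟩
  rcases L.perm (L.zc s hs) (Or.inr (Or.inr rfl)) with h | h | h
  · exfalso
    rw [← L.Sα s hs] at h
    exact L.αγ (smul_left_cancel s h).symm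
  · exact h
  · exfalso
    exact L.βγ (smul_left_cancel s (h1.trans h.symm))

theorem Loc.mul_mem_T {s t : G} (hs : s ∈ (S : Subgroup G)) (hsT : s ∉ L.T)
    (ht : t ∈ (S : Subgroup G)) (htT : t ∉ L.T) : s * t ∈ L.T := by
  refine ⟨(S : Subgroup G).mul_mem hs ht, ?_⟩
  change (s * t) • L.β = L.β
  rw [mul_smul, (L.swap ht htT).1, (L.swap hs hsT).2]

theorem Loc.card_S : Nat.card (S : Subgroup G) = 2 * Nat.card L.T := by
  have h1 : (L.T.subgroupOf (S : Subgroup G)).index = 2 := by
    rw [Subgroup.index_eq_two_iff]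
    refine ⟨⟨L.u, L.uS⟩, ?_⟩
    rintro ⟨s, hs⟩
    rw [Subgroup.mem_subgroupOf, Subgroup.mem_subgroupOf]
    change Xor' (s * L.u ∈ L.T) (s ∈ L.T)
    by_cases hsT : s ∈ L.T
    · refine Or.inr ⟨hsT, ?_⟩
      intro h
      apply L.u_notMem
      have : L.u = s⁻¹ * (s * L.u) := by group
      rw [this]
      exact L.T.mul_mem (L.T.inv_mem hsT) h
    · exact Or.inl ⟨L.mul_mem_T hs hsT L.uS L.u_notMem, hsT⟩
  have h2 := (L.T.subgroupOf (S : Subgroup G)).card_mul_index
  rw [h1, Nat.card_congr (Subgroup.subgroupOfEquivOfLe L.T_le).toEquiv] at h2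
  omega

/-- involutions of `T` have the same fixed points as `z`. -/
theorem Loc.fix_T {t : G} (ht : t ∈ L.T) (ht2 : orderOf t = 2) {a : Ω} :
    t • a = a ↔ a = L.α ∨ a = L.β ∨ a = L.γ := by
  have h3 : fixedBy Ω L.z = fixedBy Ω t := by
    apply Set.eq_of_subset_of_ncard_le
    · rw [L.fz]
      rintro a (rfl | rfl | rfl)
      · exact L.T_α ht
      · exact L.T_β ht
      · exact L.T_γ ht
    · have h4 := L.three t ht2
      have h5 := L.three L.z L.z2
      rw [Nat.card_coe_set_eq] at h4 h5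
      rw [h4, h5]
    · exact Set.toFinite _
  rw [← L.mem_fz]
  have h1 : a ∈ fixedBy Ω L.z ↔ a ∈ fixedBy Ω t := by rw [h3]
  exact h1.symm

/-- `T` is semiregular outside `{α, β, γ}`. -/
theorem Loc.free {s : G} (hs : s ∈ L.T) {a : Ω} (ha : ¬ (a = L.α ∨ a = L.β ∨ a = L.γ))
    (h : s • a = a) : s = 1 := by
  by_contra hs1
  obtain ⟨t, ht, ht2⟩ := exists_invol_pow (S.2.to_le L.T_le) hs hs1
  have htT : t ∈ L.T := by
    have : zpowers s ≤ L.T := by rw [zpowers_le]; exact hs
    exact this ht
  exact ha ((L.fix_T htT ht2).mp (smul_of_mem_zpowers ht h))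

theorem Loc.card_T_dvd : Nat.card L.T ∣ Nat.card Ω - 3 := by
  classical
  let X := {a : Ω // ¬ (a = L.α ∨ a = L.β ∨ a = L.γ)}
  have hstab : ∀ s ∈ L.T, ∀ a : Ω, ¬ (a = L.α ∨ a = L.β ∨ a = L.γ) →
      ¬ (s • a = L.α ∨ s • a = L.β ∨ s • a = L.γ) := by
    intro s hs a ha h
    apply ha
    rcases h with h | h | h
    · left
      rw [← L.T_α hs] at h
      exact smul_left_cancel s h
    · right; left
      rw [← L.T_β hs] at h
      exact smul_left_cancel s h
    · right; right
      rw [← L.T_γ hs] at h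
      exact smul_left_cancel s h
  letI : MulAction L.T X :=
    { smul := fun s a => ⟨(s : G) • (a : Ω), hstab s s.2 a a.2⟩
      one_smul := fun a => Subtype.ext (one_smul G (a : Ω))
      mul_smul := fun s t a => Subtype.ext (mul_smul (s : G) (t : G) (a : Ω)) }
  have h1 : Nat.card L.T ∣ Nat.card X := by
    apply BR.card_dvd_of_free
    intro a s hsa
    apply Subtype.ext
    exact L.free s.2 a.2 (congrArg Subtype.val hsa)
  have h2 : Nat.card X = Nat.card Ω - 3 := by
    have h3 : Nat.card X = ({L.α, L.β, L.γ} : Set Ω)ᶜ.ncard := by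
      rw [← Nat.card_coe_set_eq]
      apply Nat.card_congr
      apply Equiv.subtypeEquivRight
      intro a
      simp
    rw [h3, Set.ncard_compl, Set.ncard_eq_three.mpr ⟨L.α, L.β, L.γ, L.αβ, L.αγ, L.βγ, rfl⟩]
  rwa [h2] at h1

end

end Cfsg.Agent.Cyc.TP
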