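import Cfsg.Agent.Cyc.TP4
import Cfsg.Agent.Cyc.TPW
import Cfsg.Agent.H12.WielandtType

/-!
Simple transitive groups of degree `3p`: the Sylow 2-subgroup has order eight.
-/

set_option autoImplicit false

open scoped ComplexConjugate Pointwise

namespace Cfsg.Agent.Cyc.TP

open Cfsg Subgroup Cfsg.Agent.BR Cfsg.Agent.BT MulAction
open Cfsg.Agent.CharBase (oneIrr)

universe u v

section arith

theorem arith3 {n t c g : ℕ} (hc : Odd c) (hg : Odd g) (j : ℕ) (ht : t = 2 ^ j) (hj : 1 ≤ j)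
    (htn : t ∣ n)
    (h : (n + 1) * (2 * t * c) ^ 2 * ((3 * n + 2) * (3 * n + 1)) = (2 * t * g) * (3 * n) ^ 2) :
    t = 4 := by
  obtain ⟨w, rfl⟩ := htn
  have ht0 : 0 < t := by rw [ht]; positivity
  have h1 : 2 * (t * w + 1) * c ^ 2 * ((3 * (t * w) + 2) * (3 * (t * w) + 1)) =
      9 * g * t * w ^ 2 := by
    have h2 : (2 * t ^ 2) * (2 * (t * w + 1) * c ^ 2 *
        ((3 * (t * w) + 2) * (3 * (t * w) + 1))) = (2 * t ^ 2) * (9 * g * t * w ^ 2) := by
      linear_combination h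
    exact Nat.eq_of_mul_eq_mul_left (by positivity) h2
  rcases Nat.lt_or_ge j 2 with hj2 | hj2
  · exfalso
    have : j = 1 := by omega
    rw [this, pow_one] at ht
    subst ht
    have h2 : (2 * w + 1) * c ^ 2 * (2 * (3 * w + 1)) * (6 * w + 1) = 9 * g * w ^ 2 := by
      have : 2 * ((2 * w + 1) * c ^ 2 * (2 * (3 * w + 1)) * (6 * w + 1)) =
          2 * (9 * g * w ^ 2) := by linear_combination h1
      exact Nat.eq_of_mul_eq_mul_left (by norm_num) this
    have hw : Even w := by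
      by_contra hcon
      rw [Nat.not_even_iff_odd] at hcon
      have h3 : Odd (9 * g * w ^ 2) := (Odd.mul (by decide) hg).mul hcon.pow
      rw [← h2, ← Nat.not_even_iff_odd] at h3
      apply h3
      exact ⟨(2 * w + 1) * c ^ 2 * (3 * w + 1) * (6 * w + 1), by ring⟩
    obtain ⟨v, hv⟩ := hw
    have hv' : w = 2 * v := by omega
    subst hv'
    have h3 : (4 * v + 1) * c ^ 2 * (6 * v + 1) * (12 * v + 1) = 2 * (9 * g * v ^ 2) := by
      have : 2 * ((4 * v + 1) * c ^ 2 * (6 * v + 1) * (12 * v + 1)) =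
          2 * (2 * (9 * g * v ^ 2)) := by linear_combination h2
      exact Nat.eq_of_mul_eq_mul_left (by norm_num) this
    have h4 : Odd ((4 * v + 1) * c ^ 2 * (6 * v + 1) * (12 * v + 1)) := by
      refine ((Odd.mul ⟨2 * v, by ring⟩ hc.pow).mul ⟨3 * v, by ring⟩).mul ⟨6 * v, by ring⟩
    rw [h3, ← Nat.not_even_iff_odd] at h4
    exact h4 (even_two_mul _)
  · obtain ⟨i, rfl⟩ : ∃ i, j = i + 2 := ⟨j - 2, by omega⟩
    have ht' : t = 4 * 2 ^ i := by rw [ht]; ring
    set s := 2 ^ i with hs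
    subst ht'
    have h2 : (4 * s * w + 1) * c ^ 2 * (6 * s * w + 1) * (12 * s * w + 1) =
        9 * g * s * w ^ 2 := by
      have : 4 * ((4 * s * w + 1) * c ^ 2 * (6 * s * w + 1) * (12 * s * w + 1)) =
          4 * (9 * g * s * w ^ 2) := by linear_combination h1
      exact Nat.eq_of_mul_eq_mul_left (by norm_num) this
    have h4 : Odd ((4 * s * w + 1) * c ^ 2 * (6 * s * w + 1) * (12 * s * w + 1)) := by
      refine ((Odd.mul ⟨2 * s * w, by ring⟩ hc.pow).mul ⟨3 * s * w, by ring⟩).mul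
        ⟨6 * s * w, by ring⟩
    rw [h2] at h4
    have h5 : Odd s := by
      rw [Nat.odd_mul] at h4
      exact (Nat.odd_mul.mp h4.1).2
    rcases Nat.eq_zero_or_pos i with h6 | h6
    · rw [hs, h6, pow_zero, mul_one]
    · exfalso
      rw [hs, Nat.odd_pow_iff (by omega)] at h5
      exact absurd h5 (by decide)

theorem arith2 {n t c g : ℕ} (hc : Odd c) (j : ℕ) (ht : t = 2 ^ j) (hj : 1 ≤ j)
    (htn : t ∣ n) (hn : 0 < n) (h4 : 4 ∣ n)
    (h : (n + 1) * (2 * t * c) ^ 2 * (2 * n + 1) = (2 * t * g) * (2 * n))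
    {r l : ℤ} (hr : 2 * ((n : ℤ) + 1) = 6 * r ^ 2 + 3 * r + 1) (hl : (2 * t : ℤ) ∣ l)
    (hlr : l = n + 1 + r ∨ l = 2 * (n + 1) - 1 - r) :
    t = 4 := by
  obtain ⟨w, rfl⟩ := htn
  have ht0 : 0 < t := by rw [ht]; positivity
  have htev : Even t := by
    rw [ht]; exact (Nat.even_pow.mpr ⟨even_two, by omega⟩)
  have h1 : (t * w + 1) * c ^ 2 * (2 * (t * w) + 1) = g * w := by
    have h2 : (4 * t ^ 2) * ((t * w + 1) * c ^ 2 * (2 * (t * w) + 1)) =
        (4 * t ^ 2) * (g * w) := by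
      linear_combination h
    exact Nat.eq_of_mul_eq_mul_left (by positivity) h2
  have hw : Odd w := by
    have h2 : Odd ((t * w + 1) * c ^ 2 * (2 * (t * w) + 1)) := by
      refine (Odd.mul ?_ hc.pow).mul ⟨t * w, by ring⟩
      exact (htev.mul_right w).add_one
    rw [h1, Nat.odd_mul] at h2
    exact h2.2
  have h4t : 4 ∣ t := by
    have h2 : Nat.Coprime 4 w := by
      have : Nat.Coprime (2 ^ 2) w := Nat.Coprime.pow_left 2 (Nat.coprime_two_left.mpr hw)
      simpa using this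
    exact h2.dvd_of_dvd_mul_right h4
  obtain ⟨s, hs⟩ := h4t
  obtain ⟨f, hf⟩ := hl
  have h2n : 2 * ((t * w : ℕ) : ℤ) = 6 * r ^ 2 + 3 * r - 1 := by linarith
  rcases hlr with h2 | h2
  · exfalso
    have h3 : r = 2 * (4 * (s : ℤ)) * f - (4 * s * w) - 1 := by
      have e : ((t * w : ℕ) : ℤ) = 4 * s * w := by rw [hs]; push_cast; ring
      rw [e] at h2
      have e2 : (t : ℤ) = 4 * s := by rw [hs]; push_cast; ring
      rw [e2] at hf
      linarith
    obtain ⟨q, hq⟩ : ∃ q : ℤ, r = 4 * q - 1 := ⟨2 * s * f - s * w, by rw [h3]; ring⟩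
    rw [hq] at h2n
    have e : ((t * w : ℕ) : ℤ) = 4 * s * w := by rw [hs]; push_cast; ring
    rw [e] at h2n
    have h5 : (4 : ℤ) ∣ 2 := ⟨2 * s * w - 24 * q ^ 2 + 9 * q, by linarith⟩
    norm_num at h5
  · have e2 : ((t * w : ℕ) : ℤ) = t * w := by push_cast; ring
    rw [e2] at h2 h2n
    have h3 : r = 1 + 2 * t * (w - f) := by linarith
    have h5 : (t : ℤ) * w = 4 + 15 * t * (w - f) + 12 * t ^ 2 * (w - f) ^ 2 := by
      rw [h3] at h2n
      linarith
    have h6 : (t : ℤ) ∣ 4 := ⟨w - 15 * (w - f) - 12 * t * (w - f) ^ 2, by linarith⟩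
    have h7 : t ∣ 4 := by exact_mod_cast h6
    have h8 := Nat.le_of_dvd (by norm_num) h7
    omega

end arith

section

variable {G : Type u} [Group G] [Fintype G] {Ω : Type v} [Fintype Ω] [MulAction G Ω]
  {p : ℕ} [hp : Fact p.Prime] {P : Subgroup G} {S : Sylow 2 G}

theorem Loc.S_le (L : Loc Ω S) : (S : Subgroup G) ≤ centralizer ({L.z} : Set G) := by
  intro s hs
  rw [Subgroup.mem_centralizer_singleton_iff]
  exact L.zc s hs

/-- the orders of `G` and of `C(z)`. -/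
theorem Loc.orders (L : Loc Ω S) : ∃ (j c g : ℕ), Nat.card L.T = 2 ^ j ∧ 1 ≤ j ∧ Odd c ∧ Odd g ∧
    Nat.card (centralizer ({L.z} : Set G)) = 2 * Nat.card L.T * c ∧
    Nat.card G = 2 * Nat.card L.T * g := by
  have : Fact (Nat.Prime 2) := ⟨Nat.prime_two⟩
  obtain ⟨j, hj⟩ := IsPGroup.iff_card.mp (S.2.to_le L.T_le)
  obtain ⟨c, hc⟩ := Subgroup.card_dvd_of_le L.S_le
  have hg := (S : Subgroup G).card_mul_index
  have h2 : ¬ 2 ∣ (S : Subgroup G).index := S.not_dvd_index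
  refine ⟨j, c, (S : Subgroup G).index, hj, ?_, ?_, ?_, ?_, ?_⟩
  · by_contra hcon
    have hj0 : j = 0 := by omega
    rw [hj0, pow_zero] at hj
    have h3 : L.T = ⊥ := Subgroup.card_eq_one.mp hj
    have h4 := L.zT
    rw [h3, Subgroup.mem_bot] at h4
    have h5 := L.z2
    rw [h4, orderOf_one] at h5
    norm_num at h5
  · rw [← Nat.not_even_iff_odd, even_iff_two_dvd]
    rintro ⟨e, he⟩
    apply h2
    have h3 := Subgroup.card_subgroup_dvd_card (centralizer ({L.z} : Set G))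
    rw [hc, he, ← hg, mul_left_comm] at h3
    have h4 : (S : Subgroup G).index ≠ 0 := Subgroup.index_ne_zero_of_finite
    have h5 : 2 * Nat.card (S : Subgroup G) ∣ Nat.card (S : Subgroup G) * (S : Subgroup G).index :=
      (Dvd.intro e (by ring)).trans h3
    rw [mul_comm 2] at h5
    exact Nat.dvd_of_mul_dvd_mul_left Nat.card_pos h5
  · rw [← Nat.not_even_iff_odd, even_iff_two_dvd]
    exact h2
  · rw [hc, L.card_S]
  · rw [← hg, L.card_S]

theorem Loc.pc_z (L : Loc Ω S) : H12.permChar G Ω L.z = 3 := by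
  unfold H12.permChar
  rw [L.three L.z L.z2]; norm_num

theorem Loc.T_dvd (L : Loc Ω S) (hΩ : Fintype.card Ω = 3 * p) : Nat.card L.T ∣ p - 1 := by
  have h1 := L.card_T_dvd
  rw [Nat.card_eq_fintype_card (α := Ω), hΩ] at h1
  have h2 : 3 * p - 3 = 3 * (p - 1) := by omega
  rw [h2] at h1
  have : Fact (Nat.Prime 2) := ⟨Nat.prime_two⟩
  obtain ⟨j, hj⟩ := IsPGroup.iff_card.mp (S.2.to_le L.T_le)
  rw [hj] at h1 ⊢
  exact (Nat.Coprime.pow_left j (by norm_num)).dvd_of_dvd_mul_left h1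

/-- the doubly transitive case. -/
theorem F2.card_T3 (d : F2 p P) (hΩ : Fintype.card Ω = 3 * p) (hd : dg d.χ + 1 = 3 * p)
    (hπ : H12.permChar G Ω = fun g => 1 + (d.χ : G → ℂ) g) (L : Loc Ω S) :
    Nat.card L.T = 4 := by
  obtain ⟨j, c, g, hj, hj1, hc, hg, hcz, hG⟩ := L.orders
  have hp5 := d.hp5
  obtain ⟨n, rfl⟩ : ∃ n, p = n + 1 := ⟨p - 1, by omega⟩
  have hT := L.T_dvd hΩ
  rw [Nat.add_sub_cancel] at hT
  have hχz : (d.χ : G → ℂ) L.z = 2 := by
    have h1 := congrFun hπ L.z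
    rw [L.pc_z] at h1
    linear_combination -h1
  have hX : (dg d.χ : ℂ) = 3 * n + 2 := by
    have : dg d.χ = 3 * n + 2 := by omega
    rw [this]; push_cast; ring
  have ho := d.order L.z2
  rw [hχz, hX, hcz, hG] at ho
  refine arith3 hc hg j hj hj1 hT ?_
  have h1 : (((n + 1) * (2 * Nat.card L.T * c) ^ 2 * ((3 * n + 2) * (3 * n + 1)) : ℕ) : ℂ) =
      (((2 * Nat.card L.T * g) * (3 * n) ^ 2 : ℕ) : ℂ) := by
    push_cast at ho ⊢
    linear_combination ho
  exact_mod_cast h1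

/-- the data of the rank three case. -/
structure K2 {G : Type u} [Group G] [Fintype G] (Ω : Type v) [Fintype Ω] [MulAction G Ω]
    (p : ℕ) (P : Subgroup G) (S : Sylow 2 G) where
  hΩ : Fintype.card Ω = 3 * p
  d : F2 p P
  Ψ : IrrCharacter G
  hd : dg d.χ + 1 = 2 * p
  hΨ : dg Ψ = p
  hπ : H12.permChar G Ω = fun g => 1 + (d.χ : G → ℂ) g + (Ψ : G → ℂ) g
  L : Loc Ω S

variable (K : K2 Ω p P S)

include K

/-- the exceptional characters have 2-defect zero, so `χ` is one on elements of even order. -/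
theorem K2.χ_even {g : G} (hg : 2 ∣ orderOf g) : (K.d.χ : G → ℂ) g = 1 := by
  obtain ⟨ψ, hψ⟩ := K.d.st.exists_Y
  have hp5 := K.d.hp5
  have hreg : ¬ p ∣ orderOf g := by
    intro h
    rcases BR.orderOf_or K.d.st.hP K.d.st.hC g with h1 | h1
    · obtain ⟨c, hc⟩ := hp.out.odd_of_ne_two (by omega)
      omega
    · exact h1 h
  rw [K.d.reg hreg hψ]
  have hdeg := K.d.deg hψ
  have hd := K.hd
  obtain ⟨j, hj⟩ := IsPGroup.iff_card.mp (S.2.to_le K.L.T_le)
  have hT := K.L.T_dvd K.hΩ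
  have h1 : (ψ : G → ℂ) g = 0 := by
    refine Char.DZ.eq_zero_of_defect_zero 2 (j + 1) Nat.prime_two ?_ ψ.2 (d := dg ψ) (dg_eq ψ) ?_
      g hg
    · obtain ⟨j', c, g', hj', -, -, hg', -, hG⟩ := K.L.orders
      rw [hG, hj, ← pow_succ']
      intro h2
      rw [pow_succ 2 (j + 1)] at h2
      have h3 := Nat.dvd_of_mul_dvd_mul_left (by positivity) h2
      rw [← even_iff_two_dvd, ← Nat.not_odd_iff_even] at h3
      exact h3 hg'
    · have h2 : dg ψ = 2 * (p - 1) := by omega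
      rw [h2, pow_succ', ← hj]
      exact Nat.mul_dvd_mul_left 2 hT
  rw [h1, add_zero]

end

end Cfsg.Agent.Cyc.TP
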