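import Cfsg.Agent.Cyc.TP5

/-!
Simple transitive groups of degree `3p`, rank three: the normalizer of `T`.
-/

set_option autoImplicit false

open scoped ComplexConjugate Pointwise

namespace Cfsg.Agent.Cyc.TP

open Cfsg Subgroup Cfsg.Agent.BR Cfsg.Agent.BT MulAction
open Cfsg.Agent.CharBase (oneIrr)

universe u v

section

variable {G : Type u} [Group G] [Fintype G] {Ω : Type v} [Fintype Ω] [MulAction G Ω]
  {p : ℕ} [hp : Fact p.Prime] {P : Subgroup G} {S : Sylow 2 G}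

/-- `S` fixes only `α`. -/
theorem Loc.fix_S (L : Loc Ω S) {a : Ω} (h : ∀ s ∈ (S : Subgroup G), s • a = a) : a = L.α := by
  rcases L.mem_fz.mp (h L.z L.zS) with h1 | h1 | h1
  · exact h1
  · exfalso
    have h2 := h L.u L.uS
    rw [h1, L.uβ] at h2
    exact L.βγ h2.symm
  · exfalso
    have h2 := h L.u L.uS
    rw [h1, L.uγ] at h2
    exact L.βγ h2

/-- two-point stabilizers do not contain Sylow 2-subgroups of `G`. -/
theorem Loc.not_dvd (L : Loc Ω S) {a b : Ω} (hab : a ≠ b) :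
    ¬ Nat.card (S : Subgroup G) ∣ Nat.card (stabilizer G a ⊓ stabilizer G b : Subgroup G) := by
  intro hdvd
  have : Fact (Nat.Prime 2) := ⟨Nat.prime_two⟩
  obtain ⟨j, hj⟩ := IsPGroup.iff_card.mp S.2
  rw [hj] at hdvd
  obtain ⟨Q, hQ⟩ := Sylow.exists_subgroup_card_pow_prime 2 hdvd
  have hQ' : Nat.card (Q.map (stabilizer G a ⊓ stabilizer G b : Subgroup G).subtype) = 2 ^ j := by
    rw [Subgroup.card_map_of_injective (Subgroup.subtype_injective _), hQ]
  have hQp : IsPGroup 2 (Q.map (stabilizer G a ⊓ stabilizer G b : Subgroup G).subtype) :=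
    IsPGroup.iff_card.mpr ⟨j, hQ'⟩
  obtain ⟨R, hR⟩ := hQp.exists_le_sylow
  obtain ⟨g, hg⟩ := MulAction.exists_smul_eq G R S
  have hRS : Nat.card (R : Subgroup G) = 2 ^ j := by
    rw [← hj, ← hg]
    exact Nat.card_congr (Sylow.equivSMul R g).toEquiv
  have hQR : Q.map (stabilizer G a ⊓ stabilizer G b : Subgroup G).subtype = (R : Subgroup G) :=
    Subgroup.eq_of_le_of_card_ge hR (by rw [hRS, hQ'])
  have hfix : ∀ c : Ω, (∀ r ∈ (R : Subgroup G), r • c = c) → g • c = L.α := by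
    intro c hc
    apply L.fix_S
    intro s hs
    rw [← hg, Sylow.coe_subgroup_smul] at hs
    obtain ⟨r, hr, rfl⟩ := hs
    change (g * r * g⁻¹) • g • c = g • c
    rw [smul_smul]
    have e : g * r * g⁻¹ * g = g * r := by group
    rw [e, mul_smul, hc r hr]
  have hR2 : ∀ r ∈ (R : Subgroup G), r • a = a ∧ r • b = b := by
    intro r hr
    rw [← hQR] at hr
    obtain ⟨y, -, rfl⟩ := hr
    exact ⟨y.2.1, y.2.2⟩
  have h1 := hfix a (fun r hr => (hR2 r hr).1)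
  have h2 := hfix b (fun r hr => (hR2 r hr).2)
  exact hab (smul_left_cancel g (h1.trans h2.symm))

variable (K : K2 Ω p P S)

include K

/-- the three constituents. -/
theorem K2.three [IsPretransitive G Ω] :
    Function.Injective (![oneIrr G, K.d.χ, K.Ψ] : Fin 3 → IrrCharacter G) ∧
    (∀ i g, conj (((![oneIrr G, K.d.χ, K.Ψ] : Fin 3 → IrrCharacter G) i : G → ℂ) g) =
      ((![oneIrr G, K.d.χ, K.Ψ] : Fin 3 → IrrCharacter G) i : G → ℂ) g) ∧
    (∀ i, classInner (H12.permChar G Ω)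
      ((![oneIrr G, K.d.χ, K.Ψ] : Fin 3 → IrrCharacter G) i : G → ℂ) = 1) := by
  have : Nonempty Ω := ⟨K.L.α⟩
  refine H12.three_constituents K.d.χ K.Ψ K.hπ ?_
  rw [dg_eq, dg_eq]
  intro h
  have h1 : dg K.d.χ = dg K.Ψ := by exact_mod_cast h
  have h2 := K.hd
  have h3 := K.hΨ
  have h4 := K.d.hp5
  omega

theorem K2.generous [IsPretransitive G Ω] (a b : Ω) : ∃ g : G, g • a = b ∧ g • b = a := by
  classical
  obtain ⟨hinj, hreal, hmult⟩ := K.three
  refine H12.generous_backward ?_ a b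
  intro χ hχ h0
  have h1 : (⟨χ, hχ⟩ : IrrCharacter G) = oneIrr G ∨ (⟨χ, hχ⟩ : IrrCharacter G) = K.d.χ ∨
      (⟨χ, hχ⟩ : IrrCharacter G) = K.Ψ := by
    by_contra hne
    push Not at hne
    apply h0
    have hπ' : H12.permChar G Ω = (oneIrr G : G → ℂ) + (K.d.χ : G → ℂ) + (K.Ψ : G → ℂ) := by
      rw [K.hπ]; rfl
    change classInner (H12.permChar G Ω) ((⟨χ, hχ⟩ : IrrCharacter G) : G → ℂ) = 0
    rw [hπ', CharBase.classInner_add_left, CharBase.classInner_add_left,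
      CharBase.classInner_irr_of_ne hne.1.symm,
      CharBase.classInner_irr_of_ne hne.2.1.symm, CharBase.classInner_irr_of_ne hne.2.2.symm]
    norm_num
  have h2 : ∃ i : Fin 3, (⟨χ, hχ⟩ : IrrCharacter G) =
      (![oneIrr G, K.d.χ, K.Ψ] : Fin 3 → IrrCharacter G) i := by
    rcases h1 with h | h | h
    · exact ⟨0, h⟩
    · exact ⟨1, h⟩
    · exact ⟨2, h⟩
  obtain ⟨i, hi⟩ := h2
  have h3 : χ = ((![oneIrr G, K.d.χ, K.Ψ] : Fin 3 → IrrCharacter G) i : G → ℂ) :=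
    congrArg Subtype.val hi
  rw [h3]
  exact ⟨hmult i, hreal i⟩

theorem K2.rank [IsPretransitive G Ω] (a : Ω) :
    Nat.card (orbitRel.Quotient (stabilizer G a) Ω) = 3 := by
  classical
  obtain ⟨hinj, hreal, hmult⟩ := K.three
  rw [← H12.card_orbits_prod_eq a]
  have h1 := H12.classInner_permChar G Ω Ω
  have hπ' : H12.permChar G Ω = (oneIrr G : G → ℂ) + (K.d.χ : G → ℂ) + (K.Ψ : G → ℂ) := by
    rw [K.hπ]; rfl
  have h2 : classInner (H12.permChar G Ω) (H12.permChar G Ω) = 3 := by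
    conv_lhs => arg 2; rw [hπ']
    rw [CharBase.classInner_add_right, CharBase.classInner_add_right]
    have e0 := hmult 0
    have e1 := hmult 1
    have e2 := hmult 2
    change classInner (H12.permChar G Ω) (oneIrr G : G → ℂ) = 1 at e0
    change classInner (H12.permChar G Ω) (K.d.χ : G → ℂ) = 1 at e1
    change classInner (H12.permChar G Ω) (K.Ψ : G → ℂ) = 1 at e2
    rw [e0, e1, e2]; norm_num
  rw [h2] at h1
  exact_mod_cast h1.symm

/-- an element normalizing `T`, swapping `α` and `β` and fixing `γ`. -/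
theorem K2.exists_n [IsPretransitive G Ω] : ∃ n : G, n • K.L.α = K.L.β ∧ n • K.L.β = K.L.α ∧
    n • K.L.γ = K.L.γ ∧ ∀ x, x ∈ K.L.T ↔ n * x * n⁻¹ ∈ K.L.T := by
  have : Fact (Nat.Prime 2) := ⟨Nat.prime_two⟩
  set L := K.L with hL
  obtain ⟨g, hgα, hgβ⟩ := K.generous L.α L.β
  set X : Subgroup G := stabilizer G L.α ⊓ stabilizer G L.β with hX
  have hTX : L.T ≤ X := fun s hs => ⟨L.T_α hs, L.T_β hs⟩
  have hcard : ¬ 2 * Nat.card L.T ∣ Nat.card X := by
    rw [← L.card_S]; exact L.not_dvd L.αβ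
  have hTp : IsPGroup 2 L.T := S.2.to_le L.T_le
  have hXg : ∀ x ∈ X, g * x * g⁻¹ ∈ X := by
    intro x hx
    have hx1 : x • L.α = L.α := hx.1
    have hx2 : x • L.β = L.β := hx.2
    refine ⟨?_, ?_⟩
    · change (g * x * g⁻¹) • L.α = L.α
      nth_rewrite 1 [← hgβ]
      rw [smul_smul]
      have e : g * x * g⁻¹ * g = g * x := by group
      rw [e, mul_smul, hx2, hgβ]
    · change (g * x * g⁻¹) • L.β = L.β
      nth_rewrite 1 [← hgα]
      rw [smul_smul]
      have e : g * x * g⁻¹ * g = g * x := by group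
      rw [e, mul_smul, hx1, hgα]
  set T' : Subgroup G := L.T.map (MulAut.conj g).toMonoidHom with hT'
  have hT'X : T' ≤ X := by
    rintro _ ⟨x, hx, rfl⟩
    exact hXg x (hTX hx)
  have hT'c : Nat.card T' = Nat.card L.T :=
    Subgroup.card_map_of_injective (MulAut.conj g).injective
  have hsyl : ∀ R : Subgroup G, R ≤ X → Nat.card R = Nat.card L.T → IsPGroup 2 R →
      ∃ Q : Sylow 2 X, (Q : Subgroup X) = R.subgroupOf X := by
    intro R hR hRc hRp
    have h1 : IsPGroup 2 (R.subgroupOf X) := hRp.comap_subtype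
    have h2 : ¬ 2 ∣ (R.subgroupOf X).index := by
      rintro ⟨e, he⟩
      apply hcard
      have h3 := (R.subgroupOf X).card_mul_index
      rw [he, Nat.card_congr (Subgroup.subgroupOfEquivOfLe hR).toEquiv, hRc] at h3
      exact ⟨e, by rw [← h3]; ring⟩
    exact ⟨h1.toSylow h2, rfl⟩
  obtain ⟨Q1, hQ1⟩ := hsyl L.T hTX rfl hTp
  obtain ⟨Q2, hQ2⟩ := hsyl T' hT'X hT'c (hTp.map _)
  obtain ⟨y, hy⟩ := MulAction.exists_smul_eq X Q2 Q1
  have hyα : (y : G) • L.α = L.α := y.2.1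
  have hyβ : (y : G) • L.β = L.β := y.2.2
  have hnT : ∀ x, x ∈ L.T → (y * g) * x * (y * g)⁻¹ ∈ L.T := by
    intro x hx
    have h1 : g * x * g⁻¹ ∈ T' := ⟨x, hx, rfl⟩
    have h2 : (⟨g * x * g⁻¹, hT'X h1⟩ : X) ∈ (Q2 : Subgroup X) := by
      rw [hQ2, Subgroup.mem_subgroupOf]; exact h1
    have h3 : y * (⟨g * x * g⁻¹, hT'X h1⟩ : X) * y⁻¹ ∈ (Q1 : Subgroup X) := by
      rw [← hy, Sylow.coe_subgroup_smul]
      exact ⟨_, h2, rfl⟩
    rw [hQ1, Subgroup.mem_subgroupOf] at h3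
    have e : (y : G) * g * x * (y * g)⁻¹ = (y : G) * (g * x * g⁻¹) * (y : G)⁻¹ := by group
    rw [e]
    exact h3
  set n : G := y * g with hn
  have hnα : n • L.α = L.β := by rw [hn, mul_smul, hgα, hyβ]
  have hnβ : n • L.β = L.α := by rw [hn, mul_smul, hgβ, hyα]
  have hnT' : ∀ x, x ∈ L.T ↔ n * x * n⁻¹ ∈ L.T := by
    have h1 : L.T.map (MulAut.conj n).toMonoidHom = L.T := by
      apply Subgroup.eq_of_le_of_card_ge
      · rintro _ ⟨x, hx, rfl⟩
        exact hnT x hx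
      · rw [Subgroup.card_map_of_injective (MulAut.conj n).injective]
    intro x
    refine ⟨hnT x, fun hx => ?_⟩
    rw [← h1] at hx
    obtain ⟨w, hw, hwx⟩ := hx
    have hwx' : n * w * n⁻¹ = n * x * n⁻¹ := hwx
    have : w = x := by
      have h2 := congrArg (fun v => n⁻¹ * v * n) hwx'
      simpa [mul_assoc] using h2
    rwa [← this]
  refine ⟨n, hnα, hnβ, ?_, hnT'⟩
  -- the fixed points of `n z n⁻¹`
  have h1 := hnT L.z L.zT
  have h2 : orderOf (n * L.z * n⁻¹) = 2 := by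
    rw [← L.z2]; exact (MulAut.conj n).orderOf_eq L.z
  have h3 : (n * L.z * n⁻¹) • n • L.γ = n • L.γ := by
    rw [smul_smul]
    have e : n * L.z * n⁻¹ * n = n * L.z := by group
    rw [e, mul_smul, L.mem_fz.mpr (Or.inr (Or.inr rfl))]
  rcases (L.fix_T h1 h2).mp h3 with h | h | h
  · exfalso
    rw [← hnβ] at h
    exact L.βγ (smul_left_cancel n h).symm
  · exfalso
    rw [← hnα] at h
    exact L.αγ (smul_left_cancel n h).symm
  · exact h

/-- pairs of points fixed by an involution are in one orbit. -/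
theorem K2.one_orbit [IsPretransitive G Ω] {t : G} (ht : orderOf t = 2) {a b : Ω} (hab : a ≠ b)
    (ha : t • a = a) (hb : t • b = b) : ∃ g : G, g • K.L.α = a ∧ g • K.L.β = b := by
  obtain ⟨n, hnα, hnβ, hnγ, -⟩ := K.exists_n
  set L := K.L with hL
  obtain ⟨c, hc⟩ := isConj_iff.mp (K.d.isConj_of L.z2 ht)
  have hfix : ∀ w : Ω, t • w = w → c⁻¹ • w = L.α ∨ c⁻¹ • w = L.β ∨ c⁻¹ • w = L.γ := by
    intro w hw
    rw [← L.mem_fz, smul_smul]
    have e : L.z * c⁻¹ = c⁻¹ * t := by rw [← hc]; group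
    rw [e, mul_smul, hw]
  have hne : c⁻¹ • a ≠ c⁻¹ • b := fun h => hab (smul_left_cancel _ h)
  have huα : L.u • L.α = L.α := L.Sα L.u L.uS
  suffices H : ∃ g : G, g • L.α = c⁻¹ • a ∧ g • L.β = c⁻¹ • b by
    obtain ⟨g, h1, h2⟩ := H
    exact ⟨c * g, by rw [mul_smul, h1, smul_inv_smul], by rw [mul_smul, h2, smul_inv_smul]⟩
  rcases hfix a ha with h1 | h1 | h1 <;> rcases hfix b hb with h2 | h2 | h2 <;> rw [h1, h2]
  · exact absurd (h1.trans h2.symm) hne
  · exact ⟨1, one_smul _ _, one_smul _ _⟩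
  · exact ⟨L.u, huα, L.uβ⟩
  · exact ⟨n, hnα, hnβ⟩
  · exact absurd (h1.trans h2.symm) hne
  · exact ⟨n * L.u, by rw [mul_smul, huα, hnα], by rw [mul_smul, L.uβ, hnγ]⟩
  · exact ⟨L.u * n, by rw [mul_smul, hnα, L.uβ], by rw [mul_smul, hnβ, huα]⟩
  · exact ⟨L.u * (n * L.u), by rw [mul_smul, mul_smul, huα, hnα, L.uβ],
      by rw [mul_smul, mul_smul, L.uβ, hnγ, L.uγ]⟩
  · exact absurd (h1.trans h2.symm) hne

/-- some suborbit is divisible by `|S|`. -/
theorem K2.exists_odd [IsPretransitive G Ω] : ∃ δ : Ω, δ ≠ K.L.α ∧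
    Nat.card (S : Subgroup G) ∣ Nat.card (orbit (stabilizer G K.L.α) δ) := by
  have : Fact (Nat.Prime 2) := ⟨Nat.prime_two⟩
  have hrank := K.rank K.L.α
  obtain ⟨δ, hδ, hδ'⟩ : ∃ δ : Ω, δ ≠ K.L.α ∧ δ ∉ orbit (stabilizer G K.L.α) K.L.β := by
    by_contra hcon
    push Not at hcon
    have hsurj : Function.Surjective (fun i : Fin 2 =>
        (![Quotient.mk _ K.L.α, Quotient.mk _ K.L.β] :
          Fin 2 → orbitRel.Quotient (stabilizer G K.L.α) Ω) i) := by
      intro x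
      induction x using Quotient.inductionOn with
      | _ c =>
      by_cases hc : c = K.L.α
      · exact ⟨0, by rw [hc]; rfl⟩
      · refine ⟨1, ?_⟩
        obtain ⟨g, hg⟩ := hcon c hc
        exact (Quotient.sound ⟨g, hg⟩ :
          (Quotient.mk _ c : orbitRel.Quotient (stabilizer G K.L.α) Ω) = Quotient.mk _ K.L.β).symm
    have h2 := Nat.card_le_card_of_surjective _ hsurj
    rw [hrank] at h2
    simp at h2
  refine ⟨δ, hδ, ?_⟩
  have hodd : Odd (Nat.card (stabilizer (stabilizer G K.L.α) δ)) := by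
    rw [← Nat.not_even_iff_odd]
    intro hev
    obtain ⟨⟨⟨t, ht⟩, htδ⟩, ht2⟩ := exists_prime_orderOf_dvd_card'
      (G := stabilizer (stabilizer G K.L.α) δ) 2 hev.two_dvd
    have ht2' : orderOf t = 2 := by
      rw [← ht2, ← Subgroup.orderOf_coe, ← Subgroup.orderOf_coe]
    have htδ' : t • δ = δ := htδ
    obtain ⟨g, hg1, hg2⟩ := K.one_orbit ht2' hδ.symm ht htδ'
    apply hδ'
    exact ⟨⟨g, hg1⟩, hg2⟩
  have h2 : Nat.card (S : Subgroup G) ∣ Nat.card (stabilizer G K.L.α) :=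
    Subgroup.card_dvd_of_le (fun s hs => K.L.Sα s hs)
  have h3 : Nat.card (orbit (stabilizer G K.L.α) δ) *
      Nat.card (stabilizer (stabilizer G K.L.α) δ) = Nat.card (stabilizer G K.L.α) := by
    rw [← Nat.card_prod]
    exact Nat.card_congr (MulAction.orbitProdStabilizerEquivGroup (stabilizer G K.L.α) δ)
  rw [← h3] at h2
  refine Nat.Coprime.dvd_of_dvd_mul_right ?_ h2
  obtain ⟨j, hj⟩ := IsPGroup.iff_card.mp S.2
  rw [hj]
  exact Nat.Coprime.pow_left j (Nat.coprime_two_left.mpr hodd)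

/-- the congruence `p ≡ 1 (mod 4)`. -/
theorem K2.four_dvd (hperf : _root_.commutator G = ⊤) : (K.Ψ : G → ℂ) K.L.z = 1 ∧ 4 ∣ p - 1 := by
  have h1 := congrFun K.hπ K.L.z
  rw [K.L.pc_z] at h1
  have h2 : (K.d.χ : G → ℂ) K.L.z = 1 := K.χ_even (by rw [K.L.z2])
  have h3 : (K.Ψ : G → ℂ) K.L.z = 1 := by
    simp only [h2] at h1
    linear_combination -h1
  refine ⟨h3, ?_⟩
  obtain ⟨k, hk⟩ := involution_value hperf K.Ψ (z := K.L.z) (by
    have := pow_orderOf_eq_one K.L.z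
    rwa [K.L.z2] at this)
  rw [h3, K.hΨ] at hk
  have h4 : ((1 + 4 * k : ℕ) : ℂ) = p := by push_cast; linear_combination hk
  have h5 : 1 + 4 * k = p := by exact_mod_cast h4
  exact ⟨k, by omega⟩

/-- the order of `T`. -/
theorem K2.card_T [IsPretransitive G Ω] (hperf : _root_.commutator G = ⊤)
    (hF : ∃ r : ℤ, 2 * (p : ℤ) = 6 * r ^ 2 + 3 * r + 1 ∧ ∀ b : Ω, b ≠ K.L.α →
      ((Nat.card (orbit (stabilizer G K.L.α) b) : ℤ) = p + r ∨
       (Nat.card (orbit (stabilizer G K.L.α) b) : ℤ) = 2 * p - 1 - r)) :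
    Nat.card K.L.T = 4 := by
  obtain ⟨j, c, g, hj, hj1, hc, hg, hcz, hG⟩ := K.L.orders
  obtain ⟨r, hr, hlen⟩ := hF
  obtain ⟨δ, hδ, hdvd⟩ := K.exists_odd
  have hT := K.L.T_dvd K.hΩ
  obtain ⟨-, h4⟩ := K.four_dvd hperf
  have hp5 := K.d.hp5
  have hd := K.hd
  obtain ⟨n, hn⟩ : ∃ n, p = n + 1 := ⟨p - 1, by omega⟩
  have hn' : p - 1 = n := by omega
  rw [hn'] at hT h4
  have hX : (dg K.d.χ : ℂ) = 2 * n + 1 := by
    have : dg K.d.χ = 2 * n + 1 := by omega
    rw [this]; push_cast; ring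
  have ho := K.d.order K.L.z2
  rw [K.χ_even (by rw [K.L.z2]), hX, hcz, hG] at ho
  have hpn : (p : ℤ) = n + 1 := by rw [hn]; push_cast; ring
  have hpc : (p : ℂ) = n + 1 := by rw [hn]; push_cast; ring
  rw [hpc] at ho
  rw [hpn] at hr
  have hlen' := hlen δ hδ
  rw [hpn] at hlen'
  refine arith2 hc j hj hj1 hT (by omega) h4 (g := g) ?_ hr
    (l := (Nat.card (orbit (stabilizer G K.L.α) δ) : ℤ)) ?_ hlen'
  · have h0 : (2 * (n : ℂ)) ≠ 0 := by
      have : (n : ℂ) ≠ 0 := by exact_mod_cast (by omega : n ≠ 0)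
      exact mul_ne_zero two_ne_zero this
    have h1 : (((n + 1) * (2 * Nat.card K.L.T * c) ^ 2 * (2 * n + 1) : ℕ) : ℂ) =
        (((2 * Nat.card K.L.T * g) * (2 * n) : ℕ) : ℂ) := by
      apply mul_left_cancel₀ h0
      push_cast at ho ⊢
      linear_combination ho
    exact_mod_cast h1
  · rw [K.L.card_S] at hdvd
    exact_mod_cast hdvd

end

end Cfsg.Agent.Cyc.TP
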