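import Cfsg.Agent.Cyc.TP6
import Cfsg.Agent.H74.DihForm2
import Cfsg.Agent.Glaub.PGroup

/-!
Simple transitive groups of degree `3p`: the principal 2-block.
-/

set_option autoImplicit false

open scoped ComplexConjugate Pointwise

namespace Cfsg.Agent.Cyc.TP

open Cfsg Subgroup Cfsg.Agent.BR Cfsg.Agent.BT MulAction
open Cfsg.Agent.CharBase (oneIrr)

universe u v

section

variable {G : Type u} [Group G] [Fintype G] {Ω : Type v} [Fintype Ω] [MulAction G Ω]
  {p : ℕ} [hp : Fact p.Prime] {P : Subgroup G} {S : Sylow 2 G}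

theorem Loc.z_ne (L : Loc Ω S) : L.z ≠ 1 := by
  intro h
  have h1 := L.z2
  rw [h, orderOf_one] at h1
  norm_num at h1

theorem Loc.u_ne (L : Loc Ω S) : L.u ≠ 1 := by
  intro h
  have h1 := L.u2
  rw [h, orderOf_one] at h1
  norm_num at h1

theorem Loc.zz (L : Loc Ω S) : L.z * L.z = 1 := by
  have := pow_orderOf_eq_one L.z
  rwa [L.z2, pow_two] at this

theorem Loc.uu (L : Loc Ω S) : L.u * L.u = 1 := by
  have := pow_orderOf_eq_one L.u
  rwa [L.u2, pow_two] at this

theorem Loc.z_ne_u (L : Loc Ω S) : L.z ≠ L.u := by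
  intro h
  have h1 : L.z • L.β = L.β := L.mem_fz.mpr (Or.inr (Or.inl rfl))
  rw [h, L.uβ] at h1
  exact L.βγ h1.symm

/-- the dihedral structure when `|S| = 8`. -/
theorem Loc.exists_sigma (L : Loc Ω S) (hT : Nat.card L.T = 4) : ∃ σ ∈ (S : Subgroup G),
    σ * σ = L.z ∧ orderOf σ = 4 ∧ L.u * σ * L.u⁻¹ = σ⁻¹ ∧
    closure ({σ, L.u} : Set G) = (S : Subgroup G) := by
  have : Fact (Nat.Prime 2) := ⟨Nat.prime_two⟩
  have hS : Nat.card (S : Subgroup G) = 8 := by rw [L.card_S, hT]
  have hzz := L.zz
  have huu := L.uu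
  have hzi : L.z⁻¹ = L.z := inv_eq_of_mul_eq_one_right hzz
  have hui : L.u⁻¹ = L.u := inv_eq_of_mul_eq_one_right huu
  set R : Subgroup G := (S : Subgroup G) ⊓ centralizer ({L.u} : Set G) with hR
  have hRc : Nat.card R = 4 := L.Cu
  have hRle : R ≤ (S : Subgroup G) := inf_le_left
  have memR : ∀ x, x ∈ R ↔ x ∈ (S : Subgroup G) ∧ x * L.u = L.u * x := by
    intro x
    rw [hR, Subgroup.mem_inf, Subgroup.mem_centralizer_singleton_iff]
  have huz : L.u * L.z = L.z * L.u := L.zc L.u L.uS
  have hzR : L.z ∈ R := (memR _).mpr ⟨L.zS, huz.symm⟩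
  have huR : L.u ∈ R := (memR _).mpr ⟨L.uS, rfl⟩
  have hRset : ∀ x ∈ R, x = 1 ∨ x = L.u ∨ x = L.z ∨ x = L.u * L.z := by
    have h1 : ({1, L.u, L.z, L.u * L.z} : Set G) ⊆ (R : Set G) := by
      rintro x (rfl | rfl | rfl | rfl)
      · exact R.one_mem
      · exact huR
      · exact hzR
      · exact R.mul_mem huR hzR
    have h2 : ({1, L.u, L.z, L.u * L.z} : Set G).ncard = 4 := by
      rw [Set.ncard_insert_of_notMem, Set.ncard_insert_of_notMem, Set.ncard_pair]
      · intro h
        have : L.u = 1 := by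
          have h3 : 1 * L.z = L.u * L.z := by rw [one_mul]; exact h
          exact (mul_right_cancel h3).symm
        exact L.u_ne this
      · rintro (h | h)
        · exact L.z_ne_u h.symm
        · have h' : L.u = L.u * L.z := h
          exact L.z_ne (by
            have h3 : L.u * 1 = L.u * L.z := by rw [mul_one]; exact h'
            exact (mul_left_cancel h3).symm)
      · rintro (h | h | h)
        · exact L.u_ne h.symm
        · exact L.z_ne h.symm
        · have h' : (1 : G) = L.u * L.z := h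
          apply L.z_ne_u
          have h3 : L.u = L.z := by
            calc L.u = L.u * (L.z * L.z) := by rw [hzz, mul_one]
              _ = (L.u * L.z) * L.z := by group
              _ = L.z := by rw [← h', one_mul]
          exact h3.symm
    have h3 : ({1, L.u, L.z, L.u * L.z} : Set G) = (R : Set G) := by
      apply Set.eq_of_subset_of_ncard_le h1
      rw [h2, ← Nat.card_coe_set_eq]
      exact hRc.le
    intro x hx
    have h4 : x ∈ ({1, L.u, L.z, L.u * L.z} : Set G) := by rw [h3]; exact hx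
    simpa using h4
  have hidx : (R.subgroupOf (S : Subgroup G)).index = 2 := by
    have h2 := (R.subgroupOf (S : Subgroup G)).card_mul_index
    rw [Nat.card_congr (Subgroup.subgroupOfEquivOfLe hRle).toEquiv, hRc, hS] at h2
    omega
  have hnorm : (R.subgroupOf (S : Subgroup G)).Normal := Subgroup.normal_of_index_eq_two hidx
  obtain ⟨g, hg, hgR⟩ : ∃ g ∈ (S : Subgroup G), g ∉ R := by
    by_contra hcon
    push Not at hcon
    have h1 : (S : Subgroup G) ≤ R := hcon
    have h2 := Subgroup.card_le_of_le h1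
    rw [hS, hRc] at h2
    omega
  have hgz : g * L.z = L.z * g := L.zc g hg
  have hw : g * L.u * g⁻¹ ∈ R := by
    have h1 := hnorm.conj_mem ⟨L.u, L.uS⟩ (by rw [Subgroup.mem_subgroupOf]; exact huR) ⟨g, hg⟩
    rw [Subgroup.mem_subgroupOf] at h1
    exact h1
  have hgu : g * L.u * g⁻¹ = L.u * L.z := by
    rcases hRset _ hw with h | h | h | h
    · exfalso
      apply L.u_ne
      have : L.u = g⁻¹ * (g * L.u * g⁻¹) * g := by group
      rw [this, h]; group
    · exfalso
      apply hgR
      rw [memR]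
      refine ⟨hg, ?_⟩
      calc g * L.u = g * L.u * g⁻¹ * g := by group
        _ = L.u * g := by rw [h]
    · exfalso
      apply L.z_ne_u
      have h2 : L.u = g⁻¹ * (g * L.u * g⁻¹) * g := by group
      rw [h] at h2
      have h3 : g⁻¹ * L.z * g = L.z := by
        rw [mul_assoc, ← hgz]; group
      rw [h3] at h2
      exact h2.symm
    · exact h
  have hgu' : g * L.u = L.u * L.z * g := by
    calc g * L.u = g * L.u * g⁻¹ * g := by group
      _ = L.u * L.z * g := by rw [hgu]
  have hgg : g * g = 1 ∨ g * g = L.z := by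
    have h1 : g * g ∈ R := by
      have h2 := Subgroup.mul_self_mem_of_index_two hidx ⟨g, hg⟩
      rw [Subgroup.mem_subgroupOf] at h2
      exact h2
    rcases hRset _ h1 with h | h | h | h
    · exact Or.inl h
    · exfalso
      apply hgR
      rw [memR]
      refine ⟨hg, ?_⟩
      rw [← h]; group
    · exact Or.inr h
    · exfalso
      apply hgR
      rw [memR]
      refine ⟨hg, ?_⟩
      have h2 : g * (L.u * L.z) = (L.u * L.z) * g := by rw [← h]; group
      have h3 : g * L.u * L.z = L.u * g * L.z := by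
        rw [mul_assoc, h2, mul_assoc, ← hgz]; group
      exact mul_right_cancel h3
  obtain ⟨σ, hσS, hσσ, hσu⟩ : ∃ σ ∈ (S : Subgroup G), σ * σ = L.z ∧ L.u * σ * L.u⁻¹ = σ⁻¹ := by
    rcases hgg with h | h
    · have hgi : g⁻¹ = g := inv_eq_of_mul_eq_one_right h
      refine ⟨g * L.u, (S : Subgroup G).mul_mem hg L.uS, ?_, ?_⟩
      · have h1 : g * L.u * g = L.u * L.z := by rw [← hgu, hgi]
        calc g * L.u * (g * L.u) = (g * L.u * g) * L.u := by group
          _ = L.u * L.z * L.u := by rw [h1]
          _ = L.u * (L.u * L.z) := by rw [mul_assoc, huz]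
          _ = L.z := by rw [← mul_assoc, huu, one_mul]
      · rw [mul_inv_rev, hgi]
        calc L.u * (g * L.u) * L.u⁻¹ = L.u * g := by group
          _ = L.u⁻¹ * g := by rw [hui]
    · refine ⟨g, hg, h, ?_⟩
      have h1 : g⁻¹ = L.z * g := by
        apply inv_eq_of_mul_eq_one_right
        calc g * (L.z * g) = L.z * (g * g) := by rw [← mul_assoc, hgz, mul_assoc]
          _ = 1 := by rw [h, hzz]
      rw [h1, hui, mul_assoc, hgu', ← mul_assoc, ← mul_assoc, huu, one_mul]
  have hσ4 : orderOf σ = 4 := by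
    have h1 : orderOf σ = 2 ^ (1 + 1) := by
      apply orderOf_eq_prime_pow
      · rw [pow_one, pow_two, hσσ]; exact L.z_ne
      · have : (2 : ℕ) ^ (1 + 1) = 2 * 2 := by norm_num
        rw [this, pow_mul, pow_two, pow_two, hσσ, hzz]
    rw [h1]; norm_num
  refine ⟨σ, hσS, hσσ, hσ4, hσu, ?_⟩
  set K := closure ({σ, L.u} : Set G) with hK
  have hKle : K ≤ (S : Subgroup G) := by
    rw [hK, Subgroup.closure_le]
    rintro x (rfl | rfl)
    · exact hσS
    · exact L.uS
  have hσK : zpowers σ ≤ K := by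
    rw [zpowers_le]; exact subset_closure (by simp)
  have huK : L.u ∈ K := subset_closure (by simp)
  have huσ : L.u ∉ zpowers σ := by
    rintro ⟨i, hi⟩
    have h1 : L.u * σ = σ * L.u := by
      rw [← hi]
      exact ((Commute.refl σ).zpow_left i).eq
    have h2 : σ = σ⁻¹ := by
      rw [← hσu, h1]; group
    apply L.z_ne
    rw [← hσσ]
    nth_rewrite 2 [h2]
    exact mul_inv_cancel σ
  have hlt : zpowers σ < K := lt_of_le_of_ne hσK (fun h => huσ (by rw [h]; exact huK))
  have h1 : Nat.card (zpowers σ) < Nat.card K := by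
    have := Subgroup.card_dvd_of_le hσK
    have h2 := Nat.le_of_dvd Nat.card_pos this
    rcases Nat.lt_or_eq_of_le h2 with h3 | h3
    · exact h3
    · exfalso
      exact hlt.ne (Subgroup.eq_of_le_of_card_ge hσK h3.ge)
  rw [Nat.card_zpowers, hσ4] at h1
  have h2 := Subgroup.card_dvd_of_le hKle
  rw [hS] at h2
  have h3 : Nat.card K = 8 := by
    have h4 := Nat.le_of_dvd (by norm_num) h2
    interval_cases h5 : Nat.card K
    · norm_num at h2
    · norm_num at h2
    · norm_num at h2
    · rfl
  exact Subgroup.eq_of_le_of_card_ge hKle (by rw [hS, h3])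

end

end Cfsg.Agent.Cyc.TP
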