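import Cfsg.Agent.Cyc.TP7

/-!
Simple transitive groups of degree `3p`: the principal 2-block, dihedral Sylow 2-subgroup of
order 8.
-/

set_option autoImplicit false

open scoped ComplexConjugate Pointwise

namespace Cfsg.Agent.Cyc.TP

open Cfsg Subgroup Cfsg.Agent.BR Cfsg.Agent.BT MulAction Cfsg.Agent.H74
open Cfsg.Agent.CharBase (oneIrr)

universe u v

section

variable {G : Type u} [Group G] [Fintype G] {Ω : Type v} [Fintype Ω] [MulAction G Ω]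
  {p : ℕ} [hp : Fact p.Prime] {P : Subgroup G} {S : Sylow 2 G}

/-- sums of the values of an irreducible character on `P`. -/
theorem F2.ss (d : F2 p P) [Fintype P] {ξ : IrrCharacter G} (h1 : ξ ≠ oneIrr G) :
    ∃ s : ℤ, ∑ x : P, (ξ : G → ℂ) x = (dg ξ : ℂ) + s ∧
      ((ξ = d.χ ∧ s = 1 - (p : ℤ)) ∨ (ξ ∈ d.st.B.Y ∧ s = 2) ∨
        (p ∣ dg ξ ∧ ξ ≠ d.χ ∧ ξ ∉ d.st.B.Y ∧ s = 0)) := by
  have hp5 := d.hp5
  by_cases hχ : ξ = d.χ
  · subst hχ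
    refine ⟨1 - p, ?_, Or.inl ⟨rfl, rfl⟩⟩
    rw [d.st.B.sum_X d.st.hP d.hχ, d.hδχ]
    have : ((p - 1 : ℕ) : ℂ) = p - 1 := by
      rw [Nat.cast_sub (by omega)]; push_cast; ring
    rw [this]; push_cast; ring
  · by_cases hY : ξ ∈ d.st.B.Y
    · refine ⟨2, ?_, Or.inr (Or.inl ⟨hY, rfl⟩)⟩
      rw [d.st.B.sum_Y hY, d.hδ, d.he]
      push_cast; ring
    · have hX : ξ ∉ d.st.B.X := by
        rw [d.hX]
        rintro (h | h)
        · exact h1 h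
        · exact hχ h
      have hdvd : p ∣ dg ξ := by
        rcases d.st.mem_or ξ with h | h | h
        · exact absurd h hX
        · exact absurd h hY
        · exact h
      refine ⟨0, ?_, Or.inr (Or.inr ⟨hdvd, hχ, hY, rfl⟩)⟩
      classical
      rw [BR.sum_P_split (fun x : P => (ξ : G → ℂ) x), Subgroup.coe_one, dg_eq]
      rw [Finset.sum_eq_zero]
      · push_cast; ring
      · intro x hx
        rw [Finset.mem_erase] at hx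
        exact d.st.B.out d.st.hC ξ hX hY x x.2 (fun h => hx.1 (Subtype.ext h))

/-- the dihedral data. -/
theorem Loc.exists_blk (L : Loc Ω S) (hT : Nat.card L.T = 4) : ∃ (M : Ideal AlgInt) (σ : G)
    (V : Subgroup G), IsPModular 2 M ∧ σ ∈ (S : Subgroup G) ∧ σ ^ 2 = L.z ∧ orderOf σ = 4 ∧
      DihBlk M S σ L.u L.z 2 V := by
  obtain ⟨σ, hσS, hσσ, hσ4, hσu, hgen⟩ := L.exists_sigma hT
  obtain ⟨M, hM⟩ := Glaub.exists_isPModular Nat.prime_two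
  obtain ⟨V, hV⟩ := dihBlk_of_gens hM 3 le_rfl S σ L.u hσS L.uS (by rw [hσ4]; norm_num) L.u2 hσu hgen
  have h1 : σ ^ 2 = L.z := by rw [pow_two]; exact hσσ
  refine ⟨M, σ, V, hM, hσS, h1, hσ4, ?_⟩
  have h2 : σ ^ (2 ^ (3 - 2)) = L.z := by
    have : 2 ^ (3 - 2) = 2 := by norm_num
    rw [this]; exact h1
  have h3 : 2 ^ (3 - 2) = 2 := by norm_num
  rw [h2, h3] at hV
  exact hV

variable {M : Ideal AlgInt} {σ : G} {V : Subgroup G} {ζ : ℂ} {c1 c2 c3 : IrrCharacter G}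
  {e : ℕ → IrrCharacter G} {δ1 δ2 δ3 : ℤ}

theorem F2.block1 (d : F2 p P) (o : DihOut M σ 2 ζ c1 c2 c3 e δ1 δ2 δ3) :
    (c1 = d.χ ∧ δ1 = 1) ∨ (e 1 = d.χ ∧ δ1 = -1 ∧ p ∣ dg c1 ∧ c1 ∉ d.st.B.Y) := by
  classical
  haveI : Fintype P := Fintype.ofFinite _
  have hp5 := d.hp5
  obtain ⟨s1, hs1, h1⟩ := d.ss o.c1o
  obtain ⟨s2, hs2, h2⟩ := d.ss (o.en 1 le_rfl (by norm_num)).1
  have hoddP : ∀ x : P, Odd (orderOf (x : G)) := by
    intro x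
    by_cases hx : (x : G) = 1
    · rw [hx, orderOf_one]; exact odd_one
    · rw [d.st.hP.orderOf_eq x.2 hx]
      exact hp.out.odd_of_ne_two (by omega)
  have h3 : ∑ x : P, ((1 : ℂ) + δ1 * (c1 : G → ℂ) x) = ∑ x : P, (δ1 * (e 1 : G → ℂ) x : ℂ) :=
    Finset.sum_congr rfl fun x _ => o.rege x (hoddP x) 1 le_rfl (by norm_num)
  have h4 := o.rege 1 (by rw [orderOf_one]; exact odd_one) 1 le_rfl (by norm_num)
  rw [dg_eq, dg_eq] at h4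
  rw [Finset.sum_add_distrib, ← Finset.mul_sum, ← Finset.mul_sum, hs1, hs2, Finset.sum_const,
    Finset.card_univ, ← Nat.card_eq_fintype_card, d.st.hP.card, nsmul_eq_mul, mul_one] at h3
  have h5 : ((p : ℤ) - 1 + δ1 * s1 : ℤ) = δ1 * s2 := by
    have : (((p : ℤ) - 1 + δ1 * s1 : ℤ) : ℂ) = ((δ1 * s2 : ℤ) : ℂ) := by
      push_cast
      linear_combination h3 - h4
    exact_mod_cast this
  rcases o.s1 with hδ | hδ
  · rw [hδ] at h5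
    rcases h1 with ⟨a, b⟩ | ⟨a, b⟩ | ⟨a, a', a'', b⟩
    · exact Or.inl ⟨a, hδ⟩
    · exfalso
      rcases h2 with ⟨a, b'⟩ | ⟨a, b'⟩ | ⟨a, a', a'', b'⟩ <;> omega
    · exfalso
      rcases h2 with ⟨a, b'⟩ | ⟨a, b'⟩ | ⟨a, a', a'', b'⟩ <;> omega
  · rw [hδ] at h5
    rcases h1 with ⟨a, b⟩ | ⟨a, b⟩ | ⟨a, a', a'', b⟩
    · exfalso
      rcases h2 with ⟨a, b'⟩ | ⟨a, b'⟩ | ⟨a, a', a'', b'⟩ <;> omega
    · exfalso
      rcases h2 with ⟨a, b'⟩ | ⟨a, b'⟩ | ⟨a, a', a'', b'⟩ <;> omega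
    · right
      rcases h2 with ⟨b1, b2⟩ | ⟨b1, b2⟩ | ⟨b1, b1', b1'', b2⟩
      · exact ⟨b1, hδ, a, a''⟩
      · exfalso; omega
      · exfalso; omega

/-- the second relation. -/
theorem F2.block2 (d : F2 p P) (o : DihOut M σ 2 ζ c1 c2 c3 e δ1 δ2 δ3) :
    ∃ s1 s2 s3 : ℤ, (p : ℤ) - 1 + δ1 * s1 + δ2 * s2 + δ3 * s3 = 0 ∧
      ((c1 = d.χ ∧ s1 = 1 - (p : ℤ)) ∨ (c1 ∈ d.st.B.Y ∧ s1 = 2) ∨
        (p ∣ dg c1 ∧ c1 ≠ d.χ ∧ c1 ∉ d.st.B.Y ∧ s1 = 0)) ∧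
      ((c2 = d.χ ∧ s2 = 1 - (p : ℤ)) ∨ (c2 ∈ d.st.B.Y ∧ s2 = 2) ∨
        (p ∣ dg c2 ∧ c2 ≠ d.χ ∧ c2 ∉ d.st.B.Y ∧ s2 = 0)) ∧
      ((c3 = d.χ ∧ s3 = 1 - (p : ℤ)) ∨ (c3 ∈ d.st.B.Y ∧ s3 = 2) ∨
        (p ∣ dg c3 ∧ c3 ≠ d.χ ∧ c3 ∉ d.st.B.Y ∧ s3 = 0)) ∧
      (1 : ℤ) + δ1 * dg c1 + δ2 * dg c2 + δ3 * dg c3 = 0 := by
  classical
  haveI : Fintype P := Fintype.ofFinite _
  have hp5 := d.hp5
  obtain ⟨s1, hs1, h1⟩ := d.ss o.c1o
  obtain ⟨s2, hs2, h2⟩ := d.ss o.c2o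
  obtain ⟨s3, hs3, h3⟩ := d.ss o.c3o
  have hoddP : ∀ x : P, Odd (orderOf (x : G)) := by
    intro x
    by_cases hx : (x : G) = 1
    · rw [hx, orderOf_one]; exact odd_one
    · rw [d.st.hP.orderOf_eq x.2 hx]
      exact hp.out.odd_of_ne_two (by omega)
  have h4 : ∑ x : P, ((1 : ℂ) + δ1 * (c1 : G → ℂ) x + δ2 * (c2 : G → ℂ) x +
      δ3 * (c3 : G → ℂ) x) = 0 :=
    Finset.sum_eq_zero fun x _ => o.reg x (hoddP x)
  have h5 := o.reg 1 (by rw [orderOf_one]; exact odd_one)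
  rw [dg_eq, dg_eq, dg_eq] at h5
  rw [Finset.sum_add_distrib, Finset.sum_add_distrib, Finset.sum_add_distrib, ← Finset.mul_sum,
    ← Finset.mul_sum, ← Finset.mul_sum, hs1, hs2, hs3, Finset.sum_const,
    Finset.card_univ, ← Nat.card_eq_fintype_card, d.st.hP.card, nsmul_eq_mul, mul_one] at h4
  refine ⟨s1, s2, s3, ?_, h1, h2, h3, ?_⟩
  · have : (((p : ℤ) - 1 + δ1 * s1 + δ2 * s2 + δ3 * s3 : ℤ) : ℂ) = ((0 : ℤ) : ℂ) := by
      push_cast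
      linear_combination h4 - h5
    exact_mod_cast this
  · have : (((1 : ℤ) + δ1 * dg c1 + δ2 * dg c2 + δ3 * dg c3 : ℤ) : ℂ) = ((0 : ℤ) : ℂ) := by
      push_cast
      linear_combination h5
    exact_mod_cast this

theorem exists_zeta : ∃ ζ : ℂ, IsPrimitiveRoot ζ (2 * 2) :=
  ⟨_, Complex.isPrimitiveRoot_exp (2 * 2) (by norm_num)⟩

theorem zeta_sq {ζ : ℂ} (hζ : IsPrimitiveRoot ζ (2 * 2)) : ζ ^ 2 = -1 := by
  have h1 : ζ ^ 2 * ζ ^ 2 = 1 := by rw [← pow_add]; exact hζ.pow_eq_one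
  rcases mul_self_eq_one_iff.1 h1 with h2 | h2
  · exfalso
    exact hζ.pow_ne_one_of_pos_of_lt (by norm_num) (by norm_num) h2
  · exact h2

/-- the doubly transitive case is impossible. -/
theorem F2.false3 (d : F2 p P) (hΩ : Fintype.card Ω = 3 * p) (hd : dg d.χ + 1 = 3 * p)
    (hπ : H12.permChar G Ω = fun g => 1 + (d.χ : G → ℂ) g) (L : Loc Ω S) : False := by
  have hT := d.card_T3 hΩ hd hπ L
  have hp5 := d.hp5
  obtain ⟨M, σ, V, hM, hσS, hσz, hσ4, h⟩ := L.exists_blk hT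
  obtain ⟨ζ, hζ⟩ := exists_zeta
  obtain ⟨c1, c2, c3, e, δ1, δ2, δ3, o⟩ := exists_dihOut h hζ
  have hχz : (d.χ : G → ℂ) L.z = 2 := by
    have h1 := congrFun hπ L.z
    rw [L.pc_z] at h1
    linear_combination -h1
  rcases d.block1 o with ⟨h1, h2⟩ | ⟨h1, h2, h3, h4⟩
  · have h3 := o.val1 2 (by norm_num) (by norm_num)
    rw [h1, h2, hσz, hχz] at h3
    norm_num at h3
  · obtain ⟨s1, s2, s3, hs, g1, g2, g3, hdeg⟩ := d.block2 o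
    have hen := o.en 1 le_rfl (by norm_num)
    have hc1 : c1 ≠ d.χ := fun h => hen.2.1 (h1.trans h.symm)
    have hc2 : c2 ≠ d.χ := fun h => hen.2.2.1 (h1.trans h.symm)
    have hc3 : c3 ≠ d.χ := fun h => hen.2.2.2 (h1.trans h.symm)
    have e1 : s1 = 0 := by
      rcases g1 with ⟨a, b⟩ | ⟨a, b⟩ | ⟨a, a', a'', b⟩
      · exact absurd a hc1
      · exact absurd a h4
      · exact b
    have e2 : s2 = 2 ∨ s2 = 0 := by
      rcases g2 with ⟨a, b⟩ | ⟨a, b⟩ | ⟨a, a', a'', b⟩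
      · exact absurd a hc2
      · exact Or.inl b
      · exact Or.inr b
    have e3 : s3 = 2 ∨ s3 = 0 := by
      rcases g3 with ⟨a, b⟩ | ⟨a, b⟩ | ⟨a, a', a'', b⟩
      · exact absurd a hc3
      · exact Or.inl b
      · exact Or.inr b
    have f1 := dg_pos c1
    have f2 := dg_pos c2
    have f3 := dg_pos c3
    rw [e1, h2] at hs
    rw [h2] at hdeg
    rcases o.s2 with k2 | k2 <;> rcases o.s3 with k3 | k3 <;> rcases e2 with e2 | e2 <;>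
      rcases e3 with e3 | e3 <;> rw [k2, k3, e2, e3] at hs <;> rw [k2, k3] at hdeg <;> omega

end

end Cfsg.Agent.Cyc.TP
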