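import Cfsg.Agent.Cyc.TP8

/-!
Simple transitive groups of degree `3p`, rank three: consequences of the structure of the
principal 2-block.
-/

set_option autoImplicit false

open scoped ComplexConjugate Pointwise

namespace Cfsg.Agent.Cyc.TP

open Cfsg Subgroup Cfsg.Agent.BR Cfsg.Agent.BT MulAction Cfsg.Agent.H74
open Cfsg.Agent.CharBase (oneIrr)

universe u v

section

variable {G : Type u} [Group G] [Fintype G] {Ω : Type v} [Fintype Ω] [MulAction G Ω]
  {p : ℕ} [hp : Fact p.Prime] {P : Subgroup G} {S : Sylow 2 G}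

theorem fix_of_sq {v : G} (hodd : Odd (orderOf v)) {b : Ω} (h : (v * v) • b = b) : v • b = b := by
  obtain ⟨k, hk⟩ := hodd
  have h1 : v ∈ zpowers (v * v) := by
    refine ⟨k + 1, ?_⟩
    have h2 : (v * v) ^ (k + 1) = v := by
      rw [← pow_two, ← pow_mul]
      have : 2 * (k + 1) = orderOf v + 1 := by omega
      rw [this, pow_succ, pow_orderOf_eq_one, one_mul]
    show (v * v) ^ (((k + 1 : ℕ)) : ℤ) = v
    rw [zpow_natCast]
    exact h2
  exact smul_of_mem_zpowers h1 h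

/-- an element of odd order of `C(z)` fixing a fixed point of `z` fixes all of them. -/
theorem Loc.odd_fix (L : Loc Ω S) {v : G} (hc : v * L.z = L.z * v) (hodd : Odd (orderOf v)) {a : Ω}
    (ha : a = L.α ∨ a = L.β ∨ a = L.γ) (hva : v • a = a) {b : Ω}
    (hb : b = L.α ∨ b = L.β ∨ b = L.γ) : v • b = b := by
  by_cases hab : b = a
  · rw [hab, hva]
  apply fix_of_sq hodd
  by_contra hne
  have h1 := L.perm hc hb
  have h2 := L.perm hc h1
  have hb1 : v • b ≠ a := by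
    intro h
    rw [← hva] at h
    exact hab (smul_left_cancel v h)
  have hb2 : v • v • b ≠ a := by
    intro h
    rw [← hva] at h
    exact hb1 (smul_left_cancel v h)
  rw [mul_smul] at hne
  have hb3 : v • b ≠ b := by
    intro h
    rw [h, h] at hne
    exact hne rfl
  have hb4 : v • v • b ≠ v • b := by
    intro h
    exact hb3 (smul_left_cancel v h)
  have h3 : ({a, b, v • b, v • v • b} : Set Ω) ⊆ {L.α, L.β, L.γ} := by
    rintro x (rfl | rfl | rfl | rfl)
    · simpa using ha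
    · simpa using hb
    · simpa using h1
    · simpa using h2
  have h4 := Set.ncard_le_ncard h3 (Set.toFinite _)
  rw [Set.ncard_eq_three.mpr ⟨L.α, L.β, L.γ, L.αβ, L.αγ, L.βγ, rfl⟩,
    Set.ncard_insert_of_notMem, Set.ncard_insert_of_notMem, Set.ncard_pair hb4.symm] at h4
  · omega
  · rintro (h | h)
    · exact hb3 h.symm
    · exact hne h.symm
  · rintro (h | h | h)
    · exact hab h.symm
    · exact hb1 h.symm
    · exact hb2 h.symm

variable {M : Ideal AlgInt} {σ : G} {V : Subgroup G}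

/-- elements of the coset `V z`. -/
theorem Loc.coset_zpow (L : Loc Ω S) (hvp : VP L.z V (S : Subgroup G)) {v : G} (hv : v ∈ V) :
    L.z ∈ zpowers (v * L.z) :=
  hvp.mem_zpowers_of_coset L.zS (mem_zpowers L.z) (k := 1) (by rw [L.z2]; norm_num) hv

theorem Loc.coset_two (L : Loc Ω S) (hvp : VP L.z V (S : Subgroup G)) {v : G} (hv : v ∈ V) :
    2 ∣ orderOf (v * L.z) := by
  have h1 := orderOf_dvd_of_mem_zpowers (L.coset_zpow hvp hv)
  rwa [L.z2] at h1

theorem Loc.coset_fix (L : Loc Ω S) (hvp : VP L.z V (S : Subgroup G)) {v : G} (hv : v ∈ V) {a : Ω}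
    (ha : (v * L.z) • a = a) : (a = L.α ∨ a = L.β ∨ a = L.γ) ∧ v • a = a := by
  have h1 := smul_of_mem_zpowers (L.coset_zpow hvp hv) ha
  refine ⟨L.mem_fz.mp h1, ?_⟩
  rw [mul_smul, h1] at ha
  exact ha

theorem Loc.V_facts (L : Loc Ω S) (hvp : VP L.z V (S : Subgroup G)) {v : G} (hv : v ∈ V) :
    v * L.z = L.z * v ∧ Odd (orderOf v) := by
  have h1 := (hvp.mem_iff v).mp hv
  exact ⟨h1.1.symm.eq, h1.2⟩

theorem Loc.coset_dich (L : Loc Ω S) (hvp : VP L.z V (S : Subgroup G)) {v : G} (hv : v ∈ V) :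
    ((v • L.α = L.α ∧ v • L.β = L.β ∧ v • L.γ = L.γ) ∧ Nat.card (fixedBy Ω (v * L.z)) = 3) ∨
    (¬ (v • L.α = L.α ∧ v • L.β = L.β ∧ v • L.γ = L.γ) ∧
      Nat.card (fixedBy Ω (v * L.z)) = 0) := by
  obtain ⟨hc, hodd⟩ := L.V_facts hvp hv
  by_cases h : v • L.α = L.α ∧ v • L.β = L.β ∧ v • L.γ = L.γ
  · left
    refine ⟨h, ?_⟩
    have h1 : fixedBy Ω (v * L.z) = fixedBy Ω L.z := by
      rw [L.fz]
      ext a
      rw [mem_fixedBy]
      constructor
      · intro ha
        have := (L.coset_fix hvp hv ha).1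
        simpa using this
      · rintro (rfl | rfl | rfl)
        · rw [mul_smul, L.mem_fz.mpr (Or.inl rfl), h.1]
        · rw [mul_smul, L.mem_fz.mpr (Or.inr (Or.inl rfl)), h.2.1]
        · rw [mul_smul, L.mem_fz.mpr (Or.inr (Or.inr rfl)), h.2.2]
    rw [h1]
    exact L.three L.z L.z2
  · right
    refine ⟨h, ?_⟩
    rw [Nat.card_eq_zero]
    left
    constructor
    rintro ⟨a, ha⟩
    obtain ⟨h1, h2⟩ := L.coset_fix hvp hv ha
    apply h
    exact ⟨L.odd_fix hc hodd h1 h2 (Or.inl rfl), L.odd_fix hc hodd h1 h2 (Or.inr (Or.inl rfl)),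
      L.odd_fix hc hodd h1 h2 (Or.inr (Or.inr rfl))⟩

variable (K : K2 Ω p P S)

include K

theorem K2.Ψ_coset (hvp : VP K.L.z V (S : Subgroup G)) {v : G} (hv : v ∈ V) :
    (K.Ψ : G → ℂ) (v * K.L.z) = (Nat.card (fixedBy Ω (v * K.L.z)) : ℂ) - 2 := by
  have h1 := congrFun K.hπ (v * K.L.z)
  rw [K.χ_even (K.L.coset_two hvp hv)] at h1
  unfold H12.permChar at h1
  rw [h1]; ring

/-- `Ψ` is in the principal 2-block. -/
theorem K2.Ψ_mem (hM : IsPModular 2 M) (hvp : VP K.L.z V (S : Subgroup G)) :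
    K.Ψ ∈ principalBlock M G := by
  classical
  by_contra hΨ
  haveI : Fintype V := Fintype.ofFinite _
  have h1 := hvp.sum_not_principal hM K.L.zS (mem_zpowers K.L.z) (k := 1)
    (by rw [K.L.z2]; norm_num) hΨ
  let V0 : Subgroup G := V ⊓ (stabilizer G K.L.α ⊓ (stabilizer G K.L.β ⊓ stabilizer G K.L.γ))
  have hV0 : ∀ v : G, v ∈ V → (v ∈ V0 ↔ (v • K.L.α = K.L.α ∧ v • K.L.β = K.L.β ∧
      v • K.L.γ = K.L.γ)) := by
    intro v hv
    constructor
    · intro h; exact h.2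
    · intro h; exact ⟨hv, h⟩
  have h2 : ∀ v : V, (K.Ψ : G → ℂ) (v * K.L.z) = (if (v : G) ∈ V0 then 3 else 0) - 2 := by
    intro v
    rw [K.Ψ_coset hvp v.2]
    rcases K.L.coset_dich hvp v.2 with ⟨h, h'⟩ | ⟨h, h'⟩
    · rw [if_pos ((hV0 v v.2).mpr h), h']; norm_num
    · rw [if_neg (fun h'' => h ((hV0 v v.2).mp h'')), h']; norm_num
  rw [Finset.sum_congr rfl (fun v _ => h2 v), Finset.sum_sub_distrib, Finset.sum_const,
    Finset.card_univ, ← Finset.sum_filter, Finset.sum_const] at h1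
  have h3 : (Finset.univ.filter (fun v : V => (v : G) ∈ V0)).card = Nat.card V0 := by
    rw [← Fintype.card_subtype, ← Nat.card_eq_fintype_card]
    exact Nat.card_congr ⟨fun v => ⟨v.1.1, v.2⟩, fun v => ⟨⟨v.1, v.2.1⟩, v.2⟩, fun v => rfl,
      fun v => rfl⟩
  rw [h3, ← Nat.card_eq_fintype_card, nsmul_eq_mul, nsmul_eq_mul] at h1
  have h4 : ((Nat.card V0 * 3 : ℕ) : ℂ) = ((Nat.card V * 2 : ℕ) : ℂ) := by
    push_cast
    linear_combination h1
  have h5 : Nat.card V0 * 3 = Nat.card V * 2 := by exact_mod_cast h4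
  have h6 : Nat.card V0 ∣ Nat.card V := Subgroup.card_dvd_of_le inf_le_left
  have h7 : Odd (Nat.card V0) := Odd.of_dvd_nat hvp.V_odd h6
  obtain ⟨k, hk⟩ := h7
  omega

/-- `V` fixes the fixed points of `z`. -/
theorem K2.V_fix (hperf : _root_.commutator G = ⊤) (hM : IsPModular 2 M)
    (hvp : VP K.L.z V (S : Subgroup G)) {v : G} (hv : v ∈ V) :
    v • K.L.α = K.L.α ∧ v • K.L.β = K.L.β ∧ v • K.L.γ = K.L.γ := by
  have h1 := hvp.principal_const hM K.L.zS (mem_zpowers K.L.z) (k := 1)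
    (by rw [K.L.z2]; norm_num) hv (K.Ψ_mem hM hvp)
  rw [(K.four_dvd hperf).1, K.Ψ_coset hvp hv] at h1
  rcases K.L.coset_dich hvp hv with ⟨h, -⟩ | ⟨-, h⟩
  · exact h
  · exfalso
    rw [h] at h1
    norm_num at h1

/-- the main numerical consequences. -/
theorem K2.block (hperf : _root_.commutator G = ⊤) (hT : Nat.card K.L.T = 4) :
    ∃ (σ : G) (V : Subgroup G) (a d : ℕ), σ ∈ (S : Subgroup G) ∧ σ ^ 2 = K.L.z ∧
      K.L.u * σ ∈ K.L.T ∧ K.L.u * σ ≠ 1 ∧ K.L.u * σ ≠ K.L.z ∧ (K.L.u * σ) * (K.L.u * σ) = 1 ∧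
      VP K.L.z V (S : Subgroup G) ∧
      (∀ v ∈ V, v • K.L.α = K.L.α ∧ v • K.L.β = K.L.β ∧ v • K.L.γ = K.L.γ) ∧
      Nat.card (V ⊓ centralizer ({K.L.u * σ} : Set G) : Subgroup G) = d ∧
      a * d = Nat.card V ∧ 4 * a = d * (p - 1) ∧
      Nat.card (centralizer ({K.L.z} : Set G)) = Nat.card V * 8 := by
  classical
  have hp5 := K.d.hp5
  have hKd := K.hd
  have hKΨ := K.hΨ
  obtain ⟨M, σ, V, hM, hσS, hσz, hσ4, h⟩ := K.L.exists_blk hT
  obtain ⟨ζ, hζ⟩ := exists_zeta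
  have hζ2 := zeta_sq hζ
  obtain ⟨c1, c2, c3, e, δ1, δ2, δ3, o⟩ := exists_dihOut h hζ
  have hvp := h.vp
  have hχz : (K.d.χ : G → ℂ) K.L.z = 1 := K.χ_even (by rw [K.L.z2])
  have hχσ : (K.d.χ : G → ℂ) σ = 1 := K.χ_even (by rw [hσ4]; norm_num)
  obtain ⟨hΨz, hp4⟩ := K.four_dvd hperf
  -- the first relation
  have hb1 : c1 = K.d.χ ∧ δ1 = 1 := by
    rcases K.d.block1 o with h1 | ⟨h1, h2, h3, h4⟩
    · exact h1
    · exfalso
      have h5 := o.vale 2 (by norm_num) (by norm_num) 1 le_rfl (by norm_num)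
      rw [h1, h2, hσz, hχz, one_mul, hζ2] at h5
      norm_num at h5
  obtain ⟨hc1, hδ1⟩ := hb1
  obtain ⟨s1, s2, s3, hs, g1, g2, g3, hdeg⟩ := K.d.block2 o
  have hχY : K.d.χ ∉ K.d.st.B.Y := fun h => Finset.disjoint_left.mp K.d.st.B.disj K.d.hχ h
  have e1 : s1 = 1 - (p : ℤ) := by
    rcases g1 with ⟨a, b⟩ | ⟨a, b⟩ | ⟨a, a', a'', b⟩
    · exact b
    · rw [hc1] at a; exact absurd a hχY
    · exact absurd hc1 a'
  have hc2 : c2 ≠ K.d.χ := fun h => o.c12 (hc1.trans h.symm)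
  have hc3 : c3 ≠ K.d.χ := fun h => o.c13 (hc1.trans h.symm)
  rw [hc1, hδ1] at hdeg
  rw [hδ1, e1] at hs
  have hpar : δ2 * s2 + δ3 * s3 = 0 := by linarith
  have hY : ∀ ψ ∈ K.d.st.B.Y, dg ψ + 2 = 2 * p := by
    intro ψ hψ
    have := K.d.deg hψ
    omega
  have hnY : s2 = 0 ∧ s3 = 0 := by
    rcases g2 with ⟨a, b⟩ | ⟨a, b⟩ | ⟨a, a', a'', b⟩
    · exact absurd a hc2
    · exfalso
      rcases g3 with ⟨a', b'⟩ | ⟨a', b'⟩ | ⟨a', _, _, b'⟩
      · exact hc3 a'
      · have f2 := hY _ a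
        have f3 := hY _ a'
        rw [b, b'] at hpar
        have f4 : (dg c2 : ℤ) = dg c3 := by omega
        have f5 : δ2 + δ3 = 0 := by linarith
        rw [f4] at hdeg
        have f6 : (δ2 + δ3) * (dg c3 : ℤ) = 0 := by rw [f5, zero_mul]
        have f7 : (1 : ℤ) + dg K.d.χ = 0 := by linarith
        omega
      · rw [b, b'] at hpar
        rcases o.s2 with k2 | k2 <;> rw [k2] at hpar <;> omega
    · rcases g3 with ⟨a', b'⟩ | ⟨a', b'⟩ | ⟨a', _, _, b'⟩
      · exact absurd a' hc3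
      · exfalso
        rw [b, b'] at hpar
        rcases o.s3 with k2 | k2 <;> rw [k2] at hpar <;> omega
      · exact ⟨b, b'⟩
  -- `Ψ` is `c2` or `c3`
  have hΨB := K.Ψ_mem hM hvp
  rw [o.mem] at hΨB
  have h1dg : dg (oneIrr G) = 1 := by
    have : ((dg (oneIrr G) : ℕ) : ℂ) = 1 := by rw [← dg_eq, CharBase.oneIrr_apply]
    exact_mod_cast this
  have hde : (e 1 : G → ℂ) 1 = 2 * p := by
    rw [o.deg_e le_rfl (by norm_num), hc1, hδ1, dg_eq]
    have : dg K.d.χ = 2 * p - 1 := by omega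
    have h2 : ((dg K.d.χ + 1 : ℕ) : ℂ) = ((2 * p : ℕ) : ℂ) := by rw [hKd]
    push_cast at h2 ⊢
    exact h2
  have hΨ23 : K.Ψ = c2 ∨ K.Ψ = c3 := by
    rcases hΨB with h1 | h1 | h1 | h1 | ⟨j, hj1, hj2, h1⟩
    · exfalso
      rw [h1, h1dg] at hKΨ
      omega
    · exfalso
      rw [h1, hc1] at hKΨ
      omega
    · exact Or.inl h1
    · exact Or.inr h1
    · exfalso
      have hj : j = 1 := by omega
      rw [hj] at h1
      rw [← h1, dg_eq, hKΨ] at hde
      have h2 : p = 2 * p := by exact_mod_cast hde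
      omega
  have hcond : δ2 = -1 ∧ δ3 = -1 ∧ dg c2 = p ∧ dg c3 = p ∧ (K.Ψ : G → ℂ) σ = -1 := by
    rcases hΨ23 with h1 | h1
    · have h2 := o.val2 2 (by norm_num) (by norm_num)
      rw [← h1, hσz, hΨz] at h2
      have h3 : δ2 = -1 := by
        have : ((δ2 : ℤ) : ℂ) = ((-1 : ℤ) : ℂ) := by push_cast; linear_combination h2
        exact_mod_cast this
      have h4 : dg c2 = p := by rw [← h1]; exact hKΨ
      rw [h3, h4] at hdeg
      have h5 : δ3 * (dg c3 : ℤ) = -(p : ℤ) := by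
        have : (dg K.d.χ : ℤ) = 2 * p - 1 := by omega
        rw [this] at hdeg
        linarith
      have h6 : δ3 = -1 := by
        rcases o.s3 with k | k
        · exfalso
          rw [k] at h5
          omega
        · exact k
      rw [h6] at h5
      refine ⟨h3, h6, h4, by omega, ?_⟩
      have h7 := o.val2 1 (by norm_num) (by norm_num)
      rw [pow_one, ← h1, h3] at h7
      rw [h7]; push_cast; norm_num
    · have h2 := o.val3 2 (by norm_num) (by norm_num)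
      rw [← h1, hσz, hΨz] at h2
      have h3 : δ3 = -1 := by
        have : ((δ3 : ℤ) : ℂ) = ((-1 : ℤ) : ℂ) := by push_cast; linear_combination h2
        exact_mod_cast this
      have h4 : dg c3 = p := by rw [← h1]; exact hKΨ
      rw [h3, h4] at hdeg
      have h5 : δ2 * (dg c2 : ℤ) = -(p : ℤ) := by
        have : (dg K.d.χ : ℤ) = 2 * p - 1 := by omega
        rw [this] at hdeg
        linarith
      have h6 : δ2 = -1 := by
        rcases o.s2 with k | k
        · exfalso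
          rw [k] at h5
          omega
        · exact k
      rw [h6] at h5
      refine ⟨h6, h3, by omega, h4, ?_⟩
      have h7 := o.val3 1 (by norm_num) (by norm_num)
      rw [pow_one, ← h1, h3] at h7
      rw [h7]; push_cast; norm_num
  obtain ⟨hδ2, hδ3, hd2, hd3, hΨσ⟩ := hcond
  -- `σ` is not in `T`
  have hσT : σ ∉ K.L.T := by
    intro hσT
    have h1 := congrFun K.hπ σ
    rw [hχσ, hΨσ] at h1
    unfold H12.permChar at h1
    have h2 : ((Nat.card (fixedBy Ω σ) : ℕ) : ℂ) = ((1 : ℕ) : ℂ) := by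
      rw [h1]; push_cast; norm_num
    have h3 : Nat.card (fixedBy Ω σ) = 1 := by exact_mod_cast h2
    rw [Nat.card_eq_one_iff_unique] at h3
    have h4 := h3.1.elim (⟨K.L.α, K.L.T_α hσT⟩ : fixedBy Ω σ) ⟨K.L.β, K.L.T_β hσT⟩
    exact K.L.αβ (congrArg Subtype.val h4)
  have huσT : K.L.u * σ ∈ K.L.T := K.L.mul_mem_T K.L.uS K.L.u_notMem hσS hσT
  have huσ1 : K.L.u * σ ≠ 1 := by
    intro h1
    have h2 : σ = K.L.u⁻¹ := eq_inv_of_mul_eq_one_right h1
    have h3 : orderOf σ = orderOf K.L.u := by rw [h2, orderOf_inv]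
    rw [hσ4, K.L.u2] at h3
    norm_num at h3
  have hrel : (K.L.u * σ) * (K.L.u * σ) = 1 := by
    have h1 := h.dih.conj
    have h2 : K.L.u⁻¹ = K.L.u := inv_eq_of_mul_eq_one_right K.L.uu
    rw [h2] at h1
    calc K.L.u * σ * (K.L.u * σ) = (K.L.u * σ * K.L.u) * σ := by group
      _ = 1 := by rw [h1]; group
  have huσz : K.L.u * σ ≠ K.L.z := by
    intro h1
    apply K.L.u_notMem
    have h2 : K.L.u = K.L.z * σ⁻¹ := by rw [← h1]; group
    rw [← hσz] at h2
    have h3 : K.L.u = σ := by rw [h2, pow_two]; group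
    have h4 : orderOf σ = orderOf K.L.u := by rw [h3]
    rw [hσ4, K.L.u2] at h4
    norm_num at h4
  refine ⟨σ, V, ninv V (K.L.u * σ), _, hσS, hσz, huσT, huσ1, huσz, hrel, hvp,
    fun v hv => K.V_fix hperf hM hvp hv, rfl, ?_, ?_, ?_⟩
  · exact hvp.ninv_mul ((S : Subgroup G).mul_mem K.L.uS hσS) hrel huσ1
  · -- the order formulas
    haveI : Fintype (IrrCharacter G) := Fintype.ofFinite _
    haveI : Fintype (S : Subgroup G) := Fintype.ofFinite _
    have hconj : ∀ s : G, s * s = 1 → s ≠ 1 → IsConj K.L.z s := by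
      intro s hs hs1
      refine K.d.isConj_of K.L.z2 (orderOf_eq_prime ?_ hs1)
      rw [pow_two]; exact hs
    have mJ := hvp.main hM hconj K.L.zS (mem_zpowers K.L.z) (k := 1)
      (by rw [K.L.z2]; norm_num)
    have mσ := hvp.main hM hconj hσS (by rw [← hσz]; exact ⟨2, zpow_natCast σ 2⟩) (k := 2)
      (by rw [hσ4]; norm_num)
    rw [h.sum_ninv_J, o.sum_eq h] at mJ
    rw [h.sum_ninv_σ, o.sum_eq h] at mσ
    have hI : Finset.Ico 1 2 = {1} := by decide
    rw [hI, Finset.sum_singleton] at mJ mσ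
    have hconjz : ∀ z : ℤ, conj (z : ℂ) = z := fun z => by rw [map_intCast]
    have v1 : (c1 : G → ℂ) K.L.z = 1 := by rw [hc1]; exact hχz
    have v1' : (c1 : G → ℂ) σ = 1 := by rw [hc1]; exact hχσ
    have v2 : (c2 : G → ℂ) K.L.z = 1 := by
      have := o.val2 2 (by norm_num) (by norm_num)
      rw [hσz, hδ2] at this
      rw [this]; push_cast; norm_num
    have v2' : (c2 : G → ℂ) σ = -1 := by
      have := o.val2 1 (by norm_num) (by norm_num)
      rw [pow_one, hδ2] at this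
      rw [this]; push_cast; norm_num
    have v3 : (c3 : G → ℂ) K.L.z = 1 := by
      have := o.val3 2 (by norm_num) (by norm_num)
      rw [hσz, hδ3] at this
      rw [this]; push_cast; norm_num
    have v3' : (c3 : G → ℂ) σ = -1 := by
      have := o.val3 1 (by norm_num) (by norm_num)
      rw [pow_one, hδ3] at this
      rw [this]; push_cast; norm_num
    have ve : (e 1 : G → ℂ) K.L.z = -2 := by
      have := o.vale 2 (by norm_num) (by norm_num) 1 le_rfl (by norm_num)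
      rw [hσz, hδ1, one_mul, hζ2] at this
      rw [this]; norm_num
    have hζi : ζ⁻¹ = -ζ := by
      apply inv_eq_of_mul_eq_one_right
      linear_combination -hζ2
    have ve' : (e 1 : G → ℂ) σ = 0 := by
      have := o.vale 1 (by norm_num) (by norm_num) 1 le_rfl (by norm_num)
      rw [pow_one, hδ1, one_mul, pow_one, hζi] at this
      rw [this]; norm_num
    have dc1 : (c1 : G → ℂ) 1 = 2 * p - 1 := by
      rw [hc1, dg_eq]
      have h2 : ((dg K.d.χ + 1 : ℕ) : ℂ) = ((2 * p : ℕ) : ℂ) := by rw [hKd]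
      push_cast at h2
      linear_combination h2
    have dc2 : (c2 : G → ℂ) 1 = p := by rw [dg_eq, hd2]
    have dc3 : (c3 : G → ℂ) 1 = p := by rw [dg_eq, hd3]
    have ho := K.d.order K.L.z2
    rw [hχz] at ho
    have hX : (dg K.d.χ : ℂ) = 2 * p - 1 := by rw [← dg_eq, ← hc1, dc1]
    rw [hX] at ho
    rw [CharBase.oneIrr_apply, CharBase.oneIrr_apply, v1, v2, v3, ve, dc1, dc2, dc3, hde] at mJ
    rw [CharBase.oneIrr_apply, CharBase.oneIrr_apply, CharBase.oneIrr_apply, v1, v2, v3, ve, v1',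
      v2', v3', ve', dc1, dc2, dc3, hde] at mσ
    have hc2' : conj (-2 : ℂ) = -2 := by rw [map_neg]; norm_num [Complex.ext_iff]
    have hc1' : conj (-1 : ℂ) = -1 := by rw [map_neg, map_one]
    rw [map_one, hc2'] at mJ
    rw [map_one, hc1', map_zero] at mσ
    obtain ⟨A, hA⟩ : ∃ A, A = ninv V K.L.u := ⟨_, rfl⟩
    obtain ⟨B, hB⟩ : ∃ B, B = ninv V (K.L.u * σ) := ⟨_, rfl⟩
    rw [← hA, ← hB] at mJ mσ
    rw [← hB]
    have hmul := hvp.ninv_mul ((S : Subgroup G).mul_mem K.L.uS hσS) hrel huσ1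
    rw [← hB] at hmul
    obtain ⟨d, hd⟩ : ∃ d, d = Nat.card (V ⊓ centralizer ({K.L.u * σ} : Set G) : Subgroup G) :=
      ⟨_, rfl⟩
    rw [← hd] at hmul ⊢
    obtain ⟨c, hc⟩ : ∃ c, c = Nat.card (centralizer ({K.L.z} : Set G)) := ⟨_, rfl⟩
    obtain ⟨g, hg⟩ : ∃ g, g = Nat.card G := ⟨_, rfl⟩
    obtain ⟨w, hw⟩ : ∃ w, w = Nat.card V := ⟨_, rfl⟩
    rw [← hc, ← hg] at ho
    rw [← hc, ← hg, ← hw] at mJ mσ
    rw [← hw] at hmul
    have hc0 : (c : ℂ) ≠ 0 := by rw [hc]; exact_mod_cast Nat.card_pos.ne'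
    have hg0 : (g : ℂ) ≠ 0 := by rw [hg]; exact_mod_cast Nat.card_pos.ne'
    have hp0 : (p : ℂ) ≠ 0 := by exact_mod_cast hp.out.ne_zero
    have hp1 : (p : ℂ) - 1 ≠ 0 := by
      intro h1
      have h2 : (p : ℂ) = 1 := by linear_combination h1
      have h3 : p = 1 := by exact_mod_cast h2
      omega
    have hp2 : 2 * (p : ℂ) - 1 ≠ 0 := by
      intro h1
      have h2 : ((2 * p : ℕ) : ℂ) = ((1 : ℕ) : ℂ) := by push_cast; linear_combination h1
      have h3 : 2 * p = 1 := by exact_mod_cast h2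
      omega
    have hAB : A = B := by
      have h1 : (c : ℂ) ^ 2 * (2 * ((A : ℂ) - B) ^ 2) = 0 := by
        push_cast at mJ mσ
        have e3 : (1 : ℂ) * 1 * 1 / 1 + 1 * 1 * 1 / (2 * (p : ℂ) - 1) + 1 * 1 * 1 / p + 1 * 1 * 1 / p +
            -2 * -2 * -2 / (2 * p) = (1 : ℂ) * 1 * 1 / 1 + 1 * 1 * 1 / (2 * (p : ℂ) - 1) +
            1 * 1 * -1 / p + 1 * 1 * -1 / p + -2 * -2 * 0 / (2 * p) := by
          field_simp
          ring
        rw [e3] at mJ
        linear_combination mJ - mσ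
      have h2 : ((A : ℂ) - B) = 0 := by
        rcases mul_eq_zero.mp h1 with h3 | h3
        · exact absurd (pow_eq_zero_iff (by norm_num) |>.mp h3) hc0
        · rcases mul_eq_zero.mp h3 with h4 | h4
          · norm_num at h4
          · exact pow_eq_zero_iff (by norm_num) |>.mp h4
      have h3 : (A : ℂ) = B := by linear_combination h2
      exact_mod_cast h3
    rw [hAB] at mσ
    have hS : (c : ℂ) ^ 2 * (4 * (B : ℂ) ^ 2) * (p * (2 * p - 1)) = g * w * (2 * (p - 1) ^ 2) := by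
      push_cast at mσ
      have e3 : (c : ℂ) ^ 2 * (4 * (B : ℂ) ^ 2) = g * w * ((1 : ℂ) * 1 * 1 / 1 +
          1 * 1 * 1 / (2 * (p : ℂ) - 1) + 1 * 1 * -1 / p + 1 * 1 * -1 / p +
          -2 * -2 * 0 / (2 * p)) := by
        rw [← mσ]; ring
      rw [e3]
      field_simp
      ring
    have ho' : (p : ℂ) * c ^ 2 * (2 * p - 1) = g * (2 * (p - 1)) := by
      apply mul_left_cancel₀ (mul_ne_zero two_ne_zero hp1)
      linear_combination ho
    have h4B : 4 * (B : ℂ) ^ 2 = w * (p - 1) := by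
      apply mul_left_cancel₀ (mul_ne_zero hg0 (mul_ne_zero two_ne_zero hp1))
      linear_combination hS - 4 * (B : ℂ) ^ 2 * ho'
    have hwB : (B : ℂ) * d = w := by exact_mod_cast hmul
    have hB0 : (B : ℂ) ≠ 0 := by
      intro h1
      rw [h1, zero_mul] at hwB
      have h2 : w ≠ 0 := by rw [hw]; exact Nat.card_pos.ne'
      exact h2 (by exact_mod_cast hwB.symm)
    have hfin : 4 * (B : ℂ) = d * (p - 1) := by
      apply mul_left_cancel₀ hB0
      rw [← hwB] at h4B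
      linear_combination h4B
    have h5 : ((4 * B : ℕ) : ℂ) = ((d * (p - 1) : ℕ) : ℂ) := by
      push_cast [Nat.cast_sub (show 1 ≤ p by omega)]
      exact hfin
    exact_mod_cast h5
  · rw [hvp.card_J, K.L.card_S, hT]

end

end Cfsg.Agent.Cyc.TP
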