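import Cfsg.Agent.S4706
import Cfsg.Agent.BR.Rows

/-!
Simple transitive groups of degree `3p`: the imprimitive case.
-/

set_option autoImplicit false

open scoped Pointwise

namespace Cfsg.Agent.Cyc.TP

open Subgroup MulAction

universe u v

theorem card_sylow_prime {G : Type u} [Group G] [Finite G] {p : ℕ} [hp : Fact p.Prime] (hp3 : 3 < p)
    (P : Sylow p G) (hN : Nat.card (normalizer ((P : Subgroup G) : Set G)) = 2 * p) :
    p ∣ Nat.card G ∧ Nat.card (P : Subgroup G) = p := by
  have hpp := hp.out
  have h2 : p ∣ Nat.card G := by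
    have h3 := Subgroup.card_subgroup_dvd_card (Subgroup.normalizer ((P : Subgroup G) : Set G))
    rw [hN] at h3
    exact (Dvd.intro_left 2 rfl).trans h3
  refine ⟨h2, ?_⟩
  obtain ⟨k, hk⟩ := (IsPGroup.iff_card (p := p)).mp P.2
  have h1 : Nat.card (P : Subgroup G) ∣ 2 * p := by
    rw [← hN]
    exact Subgroup.card_dvd_of_le Subgroup.le_normalizer
  have h3 : k ≠ 0 := by
    rintro rfl
    rw [pow_zero] at hk
    have h4 := (P : Subgroup G).card_mul_index
    rw [hk, one_mul] at h4
    rw [← h4] at h2
    exact P.not_dvd_index h2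
  have h4 : ¬ 2 ≤ k := by
    intro h
    have h5 : p ^ 2 ∣ 2 * p := (Nat.pow_dvd_pow p h).trans (hk ▸ h1)
    have h6 : p ∣ 2 := by
      rw [pow_two] at h5
      exact Nat.dvd_of_mul_dvd_mul_right hpp.pos h5
    have := Nat.le_of_dvd (by norm_num) h6
    omega
  have h5 : k = 1 := by omega
  rw [hk, h5, pow_one]

theorem imprimitive {G : Type u} [Group G] [Finite G] [IsSimpleGroup G] {p : ℕ} [hp : Fact p.Prime]
    (hp3 : 3 < p) {Ω : Type v} [Fintype Ω] [MulAction G Ω] [IsPretransitive G Ω]
    (hΩ : Fintype.card Ω = 3 * p) (P : Sylow p G)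
    (hN : Nat.card (normalizer ((P : Subgroup G) : Set G)) = 2 * p)
    (hnp : ¬ IsPreprimitive G Ω) :
    ∃ (F : Type) (_ : Field F) (_ : Fintype F) (m : ℕ), Fintype.card F = 2 ^ m ∧ p = 2 ^ m + 1 ∧
      Nonempty (G ≃* Matrix.ProjectiveSpecialLinearGroup (Fin 2) F) := by
  classical
  have hpp := hp.out
  obtain ⟨hpG, hPc⟩ := card_sylow_prime hp3 P hN
  obtain ⟨B, hB, hBnt⟩ : ∃ B : Set Ω, IsBlock G B ∧ ¬ IsTrivialBlock B := by
    by_contra hcon
    push Not at hcon
    exact hnp { isTrivialBlock_of_isBlock := fun hB => hcon _ hB }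
  have hBns : ¬ B.Subsingleton := fun h => hBnt (Or.inl h)
  have hBnu : B ≠ Set.univ := fun h => hBnt (Or.inr h)
  have hBne : B.Nonempty := by
    rw [Set.nonempty_iff_ne_empty]
    rintro rfl
    exact hBns Set.subsingleton_empty
  have hB1 : B.ncard ≠ 1 := by
    intro h
    obtain ⟨a, ha⟩ := Set.ncard_eq_one.mp h
    exact hBns (by rw [ha]; exact Set.subsingleton_singleton)
  have hmul := hB.ncard_block_mul_ncard_orbit_eq hBne
  rw [Nat.card_eq_fintype_card, hΩ] at hmul
  -- the action on the blocks
  have hmem : ∀ g : G, (toPermHom G (orbit G B)) g = 1 → g • B = B := by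
    intro g hg
    have h1 := congrArg (fun f : Equiv.Perm (orbit G B) => (f ⟨B, mem_orbit_self B⟩ : Set Ω)) hg
    exact h1
  have hker : (toPermHom G (orbit G B)).ker = ⊥ := by
    rcases (MonoidHom.normal_ker (toPermHom G (orbit G B))).eq_bot_or_eq_top with h | h
    · exact h
    · exfalso
      apply hBnu
      rw [Set.eq_univ_iff_forall]
      intro x
      obtain ⟨b, hb⟩ := hBne
      obtain ⟨g, rfl⟩ := exists_smul_eq G b x
      have h1 : g ∈ (toPermHom G (orbit G B)).ker := h ▸ mem_top g
      have h2 := hmem g (MonoidHom.mem_ker.mp h1)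
      rw [← h2]
      exact Set.smul_mem_smul_set hb
  have hinj : Function.Injective (toPermHom G (orbit G B)) := (MonoidHom.ker_eq_bot_iff _).mp hker
  have hfin : Finite (orbit G B) := inferInstance
  haveI : Fintype (orbit G B) := Fintype.ofFinite _
  have hcardo : (orbit G B).ncard = Fintype.card (orbit G B) := by
    rw [← Nat.card_coe_set_eq, Nat.card_eq_fintype_card]
  -- there are `p` blocks
  have hpo : (orbit G B).ncard = p := by
    have hm1 : (orbit G B).ncard ≠ 3 := by
      intro h3
      have h4 : Nat.card G ∣ Nat.card (Equiv.Perm (orbit G B)) := by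
        have h5 := Subgroup.card_subgroup_dvd_card (toPermHom G (orbit G B)).range
        rwa [← Nat.card_congr (MonoidHom.ofInjective hinj).toEquiv] at h5
      rw [Nat.card_eq_fintype_card (α := Equiv.Perm (orbit G B)), Fintype.card_perm, ← hcardo, h3]
        at h4
      have h6 : p ∣ Nat.factorial 3 := hpG.trans h4
      have h7 := (hpp.dvd_factorial).mp h6
      omega
    have hm0 : (orbit G B).ncard ≠ 1 := by
      intro h1
      rw [h1, mul_one] at hmul
      apply hBnu
      apply Set.eq_of_subset_of_ncard_le (Set.subset_univ B) _ (Set.toFinite _)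
      rw [Set.ncard_univ, Nat.card_eq_fintype_card, hΩ, hmul]
    have hdvd : (orbit G B).ncard ∣ 3 * p := ⟨_, by rw [← hmul]; ring⟩
    rw [Nat.dvd_mul] at hdvd
    obtain ⟨a, b, ha, hb, hab⟩ := hdvd
    rcases (Nat.dvd_prime Nat.prime_three).mp ha with rfl | rfl
    · rcases (Nat.dvd_prime hpp).mp hb with rfl | rfl
      · exact absurd hab.symm hm0
      · rw [← hab, one_mul]
    · rcases (Nat.dvd_prime hpp).mp hb with rfl | rfl
      · exact absurd hab.symm hm1
      · exfalso
        rw [← hab] at hmul
        apply hB1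
        have h1 : B.ncard * (3 * b) = 1 * (3 * b) := by rw [hmul, one_mul]
        exact Nat.eq_of_mul_eq_mul_right (by omega) h1
  -- transfer to the permutation group
  obtain ⟨e⟩ : Nonempty (G ≃* (toPermHom G (orbit G B)).range) := ⟨MonoidHom.ofInjective hinj⟩
  let P' : Sylow p (toPermHom G (orbit G B)).range :=
    P.mapSurjective (f := e.toMonoidHom) e.surjective
  have hP' : (P' : Subgroup (toPermHom G (orbit G B)).range) =
      (P : Subgroup G).map e.toMonoidHom := rfl
  have hN' : Nat.card (normalizer ((P' : Subgroup (toPermHom G (orbit G B)).range) :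
      Set (toPermHom G (orbit G B)).range)) = 2 * p := by
    rw [hP', ← Subgroup.map_equiv_normalizer_eq, ← hN]
    exact Nat.card_congr ((normalizer ((P : Subgroup G) : Set G)).equivMapOfInjective
      e.toMonoidHom e.injective).toEquiv.symm
  have hcp : Fintype.card (orbit G B) = p := by rw [← hcardo, hpo]
  rcases Cfsg.Agent.S4706.result (by omega) hcp (toPermHom G (orbit G B)).range P' hN' with
    h | ⟨a, F, hF, hF', h1, h2, ⟨h3⟩⟩
  · exfalso
    have h1 : (P : Subgroup G).Normal := by
      have h2 := h.comap e.toMonoidHom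
      rw [hP'] at h2
      have h4 : ((P : Subgroup G).map e.toMonoidHom).comap e.toMonoidHom = (P : Subgroup G) :=
        Subgroup.comap_map_eq_self_of_injective (f := e.toMonoidHom) e.injective (P : Subgroup G)
      rw [h4] at h2
      exact h2
    have h3 : normalizer ((P : Subgroup G) : Set G) = ⊤ := Subgroup.normalizer_eq_top_iff.mpr h1
    rw [h3, Subgroup.card_top] at hN
    rcases h1.eq_bot_or_eq_top with h4 | h4
    · rw [h4, Subgroup.card_bot] at hPc
      omega
    · rw [h4, Subgroup.card_top] at hPc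
      omega
  · have ha : a ≠ 0 := by
      rintro rfl
      omega
    obtain ⟨f⟩ := Cfsg.Agent.BR.sl_equiv_psl ha h2
    exact ⟨F, hF, hF', a, h2, h1, ⟨(e.trans h3).trans f⟩⟩

end Cfsg.Agent.Cyc.TP
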